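import Cfsg.Agent.Lib.H39.DA2
import Cfsg.Agent.Lib.H40.AutAlt

/-! S3262, piece A4 twin of Q5c: the dichotomy for the setwise stabilizer of two points. -/

set_option autoImplicit false

open MulAction Equiv

universe u v

namespace H36.A4c

open H39.DA

def t0 : Perm (Fin 4) := swap 0 1 * swap 2 3
def r0 : Perm (Fin 4) := swap 0 2 * swap 2 1 * swap 1 3
def v0 : Perm (Fin 4) := swap 0 2 * swap 1 3

theorem odd_comm : ∀ σ : Perm (Fin 4), Perm.sign σ = -1 → σ * t0 = t0 * σ →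
   σ = swap 0 1 ∨ σ = swap 0 1 * t0 ∨ σ = r0 ∨ σ = r0 * t0 := by decide +kernel
theorem cnt : Fintype.card {σ : Perm (Fin 4) // (σ ≠ 1 ∧ σ * σ = 1) ∧ Perm.sign σ = -1} = 6 := by decide +kernel
theorem r2 : r0 * r0 = t0 := by decide +kernel
theorem vt : v0 * t0 = t0 * v0 := by decide +kernel
theorem vs : v0 * swap 0 1 * v0⁻¹ = swap 0 1 * t0 := by decide +kernel
theorem sv : swap (0 : Fin 4) 1 * v0 ≠ v0 * swap 0 1 := by decide +kernel
theorem st : swap (0 : Fin 4) 1 * t0 = t0 * swap 0 1 := by decide +kernel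
theorem conj1 : ∀ σ : Perm (Fin 4), σ ≠ 1 → σ * σ = 1 → Perm.sign σ = 1 → ∃ π : Perm (Fin 4), π * t0 * π⁻¹ = σ := by
  decide +kernel
theorem conj2 : ∀ σ : Perm (Fin 4), σ ≠ 1 → σ * σ = 1 → Perm.sign σ = -1 →
    ∃ π : Perm (Fin 4), π * swap 0 1 * π⁻¹ = σ := by decide +kernel
theorem sgn_v : Perm.sign v0 = 1 := by decide +kernel
theorem sgn_r : Perm.sign r0 = -1 := by decide +kernel
theorem sgn_s : Perm.sign (swap (0 : Fin 4) 1) = -1 := by decide +kernel
theorem s_ne : swap (0 : Fin 4) 1 ≠ 1 := by decide +kernel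
theorem s_sq : swap (0 : Fin 4) 1 * swap 0 1 = 1 := by decide +kernel

variable {G : Type u} {Ω : Type v} [Group G] [MulAction G Ω]

theorem mem_St {a b : Ω} {g : G} : g ∈ St G a b ↔ g • a = a ∧ g • b = b := by
  rw [St, Subgroup.mem_inf, mem_stabilizer_iff, mem_stabilizer_iff]

/-- a swapping element commuting with `t` normalizes `VV a b t` -/
theorem norm_VV {a b : Ω} {t g : G} (h1 : g • a = b) (h2 : g • b = a) (h3 : g * t = t * g) :
    g ∈ Subgroup.normalizer (VV a b t : Set G) := by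
  have key : ∀ k : G, k • a = b → k • b = a → k * t = t * k → ∀ x ∈ VV a b t, k * x * k⁻¹ ∈ VV a b t := by
    intro k k1 k2 k3 x hx
    obtain ⟨hx1, hx2⟩ := Subgroup.mem_inf.1 hx
    rw [mem_St] at hx1
    rw [Subgroup.mem_centralizer_singleton_iff] at hx2
    have ka : k⁻¹ • a = b := by rw [inv_smul_eq_iff, k2]
    have kb : k⁻¹ • b = a := by rw [inv_smul_eq_iff, k1]
    refine Subgroup.mem_inf.2 ⟨?_, ?_⟩
    · rw [mem_St]
      constructor
      · rw [mul_smul, mul_smul, ka, hx1.2, k2]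
      · rw [mul_smul, mul_smul, kb, hx1.1, k1]
    · rw [Subgroup.mem_centralizer_singleton_iff]
      have c1 : Commute k t := k3
      have c2 : Commute x t := hx2
      exact ((c1.mul_left c2).mul_left c1.inv_left).eq
  rw [Subgroup.mem_normalizer_iff]
  intro x
  refine ⟨key g h1 h2 h3 x, fun hx => ?_⟩
  have ga : g⁻¹ • a = b := by rw [inv_smul_eq_iff, h2]
  have gb : g⁻¹ • b = a := by rw [inv_smul_eq_iff, h1]
  have gt : g⁻¹ * t = t * g⁻¹ := ((show Commute g t from h3).inv_left).eq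
  have := key g⁻¹ ga gb gt _ hx
  have e : g⁻¹ * (g * x * g⁻¹) * g⁻¹⁻¹ = x := by group
  rwa [e] at this

/-- the symmetric group alternative -/
def CA {G : Type u} {Ω : Type v} [Group G] [MulAction G Ω] (a b : Ω) (t : G) : Prop :=
  Nat.card {s : G // Inv s ∧ s • a = b ∧ s • b = a} = 6 ∧
  (∀ s s' : G, Inv s → s • a = b → s • b = a → Inv s' → s' • a = b → s' • b = a → IsConj s s') ∧
  ∃ σ ρ v : G, v ∈ VV a b t ∧ Inv σ ∧ σ • a = b ∧ σ • b = a ∧ σ * t = t * σ ∧ σ * v ≠ v * σ ∧ v * σ * v⁻¹ = σ * t ∧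
    ρ • a = b ∧ ρ • b = a ∧ ρ * ρ = t ∧ ρ ∈ Subgroup.normalizer (VV a b t : Set G) ∧ σ ∈ Subgroup.normalizer (VV a b t : Set G) ∧
    ∀ g : G, g • a = b → g • b = a → g * t = t * g → g = σ ∨ g = σ * t ∨ g = ρ ∨ g = ρ * t

theorem caseA_of {a b : Ω} {t : G} (Ψ : Perm (Fin 4) →* G) (hinj : Function.Injective Ψ)
    (h1 : ∀ σ, Perm.sign σ = 1 → Ψ σ ∈ St G a b)
    (h2 : ∀ σ, Perm.sign σ = -1 → Ψ σ • a = b ∧ Ψ σ • b = a)
    (h3 : ∀ g : G, g • a = b → g • b = a → ∃ σ, Perm.sign σ = -1 ∧ Ψ σ = g) (h4 : Ψ t0 = t) : CA a b t := by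
  have hInv : ∀ σ : Perm (Fin 4), Inv (Ψ σ) ↔ (σ ≠ 1 ∧ σ * σ = 1) := by
    intro σ
    constructor
    · rintro ⟨e1, e2⟩
      refine ⟨fun hc => e1 (by rw [hc, map_one]), hinj ?_⟩
      rw [map_mul, e2, map_one]
    · rintro ⟨e1, e2⟩
      refine ⟨fun hc => e1 (hinj (by rw [hc, map_one])), ?_⟩
      rw [← map_mul, e2, map_one]
  have hst : Ψ (swap 0 1) * t = t * Ψ (swap 0 1) := by rw [← h4, ← map_mul, st, map_mul]
  have hrt : Ψ r0 * t = t * Ψ r0 := by rw [← h4, ← r2, ← map_mul, ← map_mul, mul_assoc]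
  obtain ⟨s1, s2⟩ := h2 _ sgn_s
  obtain ⟨q1, q2⟩ := h2 _ sgn_r
  refine ⟨?_, ?_, Ψ (swap 0 1), Ψ r0, Ψ v0, ?_, ?_, s1, s2, hst, ?_, ?_, q1, q2, ?_, norm_VV q1 q2 hrt,
    norm_VV s1 s2 hst, ?_⟩
  · rw [← cnt, ← Nat.card_eq_fintype_card]
    symm
    let f : {σ : Perm (Fin 4) // (σ ≠ 1 ∧ σ * σ = 1) ∧ Perm.sign σ = -1} → {s : G // Inv s ∧ s • a = b ∧ s • b = a} :=
      fun σ => ⟨Ψ σ, (hInv _).2 σ.2.1, (h2 _ σ.2.2).1, (h2 _ σ.2.2).2⟩
    refine Nat.card_congr (Equiv.ofBijective f ⟨?_, ?_⟩)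
    · intro x y hxy
      exact Subtype.ext (hinj (congrArg Subtype.val hxy))
    · rintro ⟨s, hs, hsa, hsb⟩
      obtain ⟨σ, hσ, rfl⟩ := h3 s hsa hsb
      exact ⟨⟨σ, (hInv σ).1 hs, hσ⟩, rfl⟩
  · intro s s' hs hsa hsb hs' hsa' hsb'
    obtain ⟨σ, hσ, rfl⟩ := h3 s hsa hsb
    obtain ⟨σ', hσ', rfl⟩ := h3 s' hsa' hsb'
    obtain ⟨e1, e2⟩ := (hInv σ).1 hs
    obtain ⟨e1', e2'⟩ := (hInv σ').1 hs'
    obtain ⟨π, hπ⟩ := conj2 σ e1 e2 hσ
    obtain ⟨π', hπ'⟩ := conj2 σ' e1' e2' hσ'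
    have c1 : IsConj (swap 0 1) σ := isConj_iff.2 ⟨π, hπ⟩
    have c2 : IsConj (swap 0 1) σ' := isConj_iff.2 ⟨π', hπ'⟩
    exact MonoidHom.map_isConj Ψ (c1.symm.trans c2)
  · refine Subgroup.mem_inf.2 ⟨h1 _ sgn_v, ?_⟩
    rw [Subgroup.mem_centralizer_singleton_iff, ← h4, ← map_mul, vt, map_mul]
  · exact (hInv _).2 ⟨s_ne, s_sq⟩
  · intro hc
    rw [← map_mul, ← map_mul] at hc
    exact sv (hinj hc)
  · rw [← h4, ← map_inv, ← map_mul, ← map_mul, vs, map_mul]
  · rw [← map_mul, r2, h4]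
  · intro g hga hgb hgt
    obtain ⟨σ, hσ, rfl⟩ := h3 g hga hgb
    have : σ * t0 = t0 * σ := hinj (by rw [map_mul, map_mul, h4]; exact hgt)
    rcases odd_comm σ hσ this with e | e | e | e
    · left; rw [e]
    · right; left; rw [e, map_mul, h4]
    · right; right; left; rw [e]
    · right; right; right; rw [e, map_mul, h4]

/-- the setwise stabilizer -/
def KK (G : Type u) {Ω : Type v} [Group G] [MulAction G Ω] (a b : Ω) : Subgroup G where
  carrier := {g | (g • a = a ∧ g • b = b) ∨ (g • a = b ∧ g • b = a)}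
  mul_mem' := by
    rintro x y (⟨h1, h2⟩ | ⟨h1, h2⟩) (⟨h3, h4⟩ | ⟨h3, h4⟩)
    · left; exact ⟨by rw [mul_smul, h3, h1], by rw [mul_smul, h4, h2]⟩
    · right; exact ⟨by rw [mul_smul, h3, h2], by rw [mul_smul, h4, h1]⟩
    · right; exact ⟨by rw [mul_smul, h3, h1], by rw [mul_smul, h4, h2]⟩
    · left; exact ⟨by rw [mul_smul, h3, h2], by rw [mul_smul, h4, h1]⟩
  one_mem' := Or.inl ⟨one_smul _ _, one_smul _ _⟩
  inv_mem' := by
    rintro x (⟨h1, h2⟩ | ⟨h1, h2⟩)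
    · left; exact ⟨by rw [inv_smul_eq_iff, h1], by rw [inv_smul_eq_iff, h2]⟩
    · right; exact ⟨by rw [inv_smul_eq_iff, h2], by rw [inv_smul_eq_iff, h1]⟩

theorem mem_KK {a b : Ω} {g : G} : g ∈ KK G a b ↔ (g • a = a ∧ g • b = b) ∨ (g • a = b ∧ g • b = a) := Iff.rfl

theorem St_le (a b : Ω) : St G a b ≤ KK G a b := fun _ hg => Or.inl (mem_St.1 hg)

theorem conj_St {a b : Ω} {k : G} (hk : k ∈ KK G a b) {x : G} (hx : x ∈ St G a b) : k * x * k⁻¹ ∈ St G a b := by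
  rw [mem_St] at hx ⊢
  have hi := inv_mem hk
  rcases hk with ⟨h1, h2⟩ | ⟨h1, h2⟩
  · have e1 : k⁻¹ • a = a := by rw [inv_smul_eq_iff, h1]
    have e2 : k⁻¹ • b = b := by rw [inv_smul_eq_iff, h2]
    exact ⟨by rw [mul_smul, mul_smul, e1, hx.1, h1], by rw [mul_smul, mul_smul, e2, hx.2, h2]⟩
  · have e1 : k⁻¹ • a = b := by rw [inv_smul_eq_iff, h2]
    have e2 : k⁻¹ • b = a := by rw [inv_smul_eq_iff, h1]
    exact ⟨by rw [mul_smul, mul_smul, e1, hx.2, h2], by rw [mul_smul, mul_smul, e2, hx.1, h1]⟩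

/-- conjugation action -/
def cj (G : Type u) {Ω : Type v} [Group G] [MulAction G Ω] (a b : Ω) : KK G a b →* MulAut (St G a b) where
  toFun k :=
    { toFun := fun x => ⟨(k : G) * x * (k : G)⁻¹, conj_St k.2 x.2⟩
      invFun := fun x => ⟨(k : G)⁻¹ * x * k, by
        have := conj_St (inv_mem k.2) x.2
        rwa [inv_inv] at this⟩
      left_inv := fun x => Subtype.ext (by show (k : G)⁻¹ * ((k : G) * x * (k : G)⁻¹) * k = x; group)
      right_inv := fun x => Subtype.ext (by show (k : G) * ((k : G)⁻¹ * x * k) * (k : G)⁻¹ = x; group)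
      map_mul' := fun x y => Subtype.ext (by
        show (k : G) * (x * y) * (k : G)⁻¹ = ((k : G) * x * (k : G)⁻¹) * ((k : G) * y * (k : G)⁻¹); group) }
  map_one' := by
    ext x
    show (1 : G) * x * (1 : G)⁻¹ = x
    group
  map_mul' := fun k l => by
    ext x
    show ((k : G) * l) * x * ((k : G) * l)⁻¹ = (k : G) * ((l : G) * x * (l : G)⁻¹) * (k : G)⁻¹
    group

noncomputable def au : Perm (Fin 4) ≃* MulAut (alternatingGroup (Fin 4)) :=
  MulEquiv.ofBijective (MulAut.conjNormal : Perm (Fin 4) →* MulAut (alternatingGroup (Fin 4)))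
    ⟨H40.AutAlt.injective_conjNormal (by simp), H40.AutAlt.surjective_conjNormal (by simp) (by simp)⟩

theorem au_apply (σ : Perm (Fin 4)) (x : alternatingGroup (Fin 4)) : ((au σ x : alternatingGroup (Fin 4)) : Perm (Fin 4)) =
    σ * x * σ⁻¹ := rfl

/-- the representation of `KK` in `S₅` -/
noncomputable def Th {a b : Ω} (φ : St G a b ≃* alternatingGroup (Fin 4)) : KK G a b →* Perm (Fin 4) :=
  au.symm.toMonoidHom.comp ((MulAut.congr φ).toMonoidHom.comp (cj G a b))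

theorem Th_spec {a b : Ω} (φ : St G a b ≃* alternatingGroup (Fin 4)) (k : KK G a b) (x : St G a b) :
    (φ (cj G a b k x) : Perm (Fin 4)) = Th φ k * φ x * (Th φ k)⁻¹ := by
  rw [← au_apply]
  have h1 : au (Th φ k) = MulAut.congr φ (cj G a b k) := by
    show au (au.symm (MulAut.congr φ (cj G a b k))) = _
    exact MulEquiv.apply_symm_apply _ _
  rw [h1]
  show ((φ (cj G a b k x) : alternatingGroup (Fin 4)) : Perm (Fin 4)) = φ (cj G a b k (φ.symm (φ x)))
  rw [MulEquiv.symm_apply_apply]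

theorem Th_of {a b : Ω} (φ : St G a b ≃* alternatingGroup (Fin 4)) (h : St G a b) :
    Th φ ⟨h, St_le a b h.2⟩ = φ h := by
  apply au.injective
  have h1 : au (Th φ ⟨h, St_le a b h.2⟩) = MulAut.congr φ (cj G a b ⟨h, St_le a b h.2⟩) := by
    show au (au.symm (MulAut.congr φ (cj G a b _))) = _
    exact MulEquiv.apply_symm_apply _ _
  rw [h1]
  ext1 x
  apply Subtype.ext
  rw [au_apply]
  show (φ (cj G a b ⟨h, St_le a b h.2⟩ (φ.symm x)) : Perm (Fin 4)) = _
  have h2 : cj G a b ⟨h, St_le a b h.2⟩ (φ.symm x) = h * φ.symm x * h⁻¹ := Subtype.ext rfl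
  rw [h2, map_mul, map_mul, MulEquiv.apply_symm_apply, map_inv]
  rfl

theorem dich [Finite G] {a b : Ω} (hab : a ≠ b) (φ : St G a b ≃* alternatingGroup (Fin 4))
    (htr : ∃ w : G, w • a = b ∧ w • b = a) {t : G} (ht : Inv t) (hts : t ∈ St G a b) :
    CaseB G a b ∨ CA a b t := by
  have hswn : ∀ g : G, g • a = b → g ∉ St G a b := by
    intro g h1 h2
    exact hab ((mem_St.1 h2).1.symm.trans h1)
  by_cases hk : ∃ u : KK G a b, Th φ u = 1 ∧ u ≠ 1
  · left
    obtain ⟨u, hu1, hu2⟩ := hk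
    have hH : ∀ x : KK G a b, (x : G) ∈ St G a b → Th φ x = 1 → x = 1 := by
      intro x hx hx1
      have h1 := Th_of φ ⟨x, hx⟩
      have h2 : Th φ x = φ ⟨x, hx⟩ := h1
      rw [hx1] at h2
      have h3 : φ ⟨x, hx⟩ = 1 := Subtype.ext h2.symm
      have h4 : (⟨x, hx⟩ : St G a b) = 1 := φ.injective (by rw [h3, map_one])
      exact Subtype.ext (show (x : G) = 1 from congrArg Subtype.val h4)
    have hu3 : (u : G) ∉ St G a b := fun hc => hu2 (hH u hc hu1)
    have hu4 : (u : G) • a = b ∧ (u : G) • b = a := by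
      rcases u.2 with h1 | h1
      · exact absurd (mem_St.2 h1) hu3
      · exact h1
    refine ⟨u, ⟨fun hc => hu2 (Subtype.ext hc), ?_⟩, hu4.1, hu4.2, ?_⟩
    · have h1 : u * u = 1 := by
        apply hH
        · rw [mem_St]
          constructor
          · show ((u : G) * u) • a = a
            rw [mul_smul, hu4.1, hu4.2]
          · show ((u : G) * u) • b = b
            rw [mul_smul, hu4.2, hu4.1]
        · rw [map_mul, hu1, one_mul]
      exact congrArg Subtype.val h1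
    · intro g hg
      have h1 := Th_spec φ u ⟨g, hg⟩
      rw [hu1, one_mul, inv_one, mul_one] at h1
      have h2 : cj G a b u ⟨g, hg⟩ = ⟨g, hg⟩ := φ.injective (Subtype.ext h1)
      have h3 : (u : G) * g * (u : G)⁻¹ = g := congrArg Subtype.val h2
      exact mul_inv_eq_iff_eq_mul.1 h3
  · right
    push Not at hk
    have hinj : Function.Injective (Th φ) := by
      rw [injective_iff_map_eq_one]
      intro x hx
      exact hk x hx
    obtain ⟨w, hwa, hwb⟩ := htr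
    set W : KK G a b := ⟨w, Or.inr ⟨hwa, hwb⟩⟩ with hW
    have hWodd : ∀ k : KK G a b, (k : G) • a = b → Perm.sign (Th φ k) = -1 := by
      intro k hka
      rcases Int.units_eq_one_or (Perm.sign (Th φ k)) with h1 | h1
      · exfalso
        have h2 : Th φ k ∈ alternatingGroup (Fin 4) := Perm.mem_alternatingGroup.2 h1
        have h3 := Th_of φ (φ.symm ⟨_, h2⟩)
        rw [MulEquiv.apply_symm_apply] at h3
        have h4 := hinj h3
        apply hswn k hka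
        rw [← h4]
        exact (φ.symm ⟨_, h2⟩).2
      · exact h1
    have hev : ∀ σ : Perm (Fin 4), Perm.sign σ = 1 → ∃ k : KK G a b, (k : G) ∈ St G a b ∧ Th φ k = σ := by
      intro σ hσ
      have h2 : σ ∈ alternatingGroup (Fin 4) := Perm.mem_alternatingGroup.2 hσ
      refine ⟨⟨φ.symm ⟨_, h2⟩, St_le a b (φ.symm ⟨_, h2⟩).2⟩, (φ.symm ⟨_, h2⟩).2, ?_⟩
      rw [Th_of, MulEquiv.apply_symm_apply]
    have hod : ∀ σ : Perm (Fin 4), Perm.sign σ = -1 → ∃ k : KK G a b, ((k : G) • a = b ∧ (k : G) • b = a) ∧ Th φ k = σ := by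
      intro σ hσ
      obtain ⟨k, hk1, hk2⟩ := hev (σ * (Th φ W)⁻¹) (by
        rw [Perm.sign_mul, Perm.sign_inv, hσ, hWodd W hwa]; rfl)
      rw [mem_St] at hk1
      refine ⟨k * W, ⟨?_, ?_⟩, ?_⟩
      · show ((k : G) * w) • a = b
        rw [mul_smul, hwa, hk1.2]
      · show ((k : G) * w) • b = a
        rw [mul_smul, hwb, hk1.1]
      · rw [map_mul, hk2, inv_mul_cancel_right]
    have hsur : Function.Surjective (Th φ) := by
      intro σ
      rcases Int.units_eq_one_or (Perm.sign σ) with h1 | h1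
      · obtain ⟨k, _, hk⟩ := hev σ h1; exact ⟨k, hk⟩
      · obtain ⟨k, _, hk⟩ := hod σ h1; exact ⟨k, hk⟩
    let e : KK G a b ≃* Perm (Fin 4) := MulEquiv.ofBijective (Th φ) ⟨hinj, hsur⟩
    have he : ∀ k, e k = Th φ k := fun k => rfl
    set T : KK G a b := ⟨t, St_le a b hts⟩ with hT
    have hT1 : Th φ T ≠ 1 := by
      intro hc
      exact ht.1 (congrArg Subtype.val (hk T hc))
    have hT2 : Th φ T * Th φ T = 1 := by
      rw [← map_mul]
      have : T * T = 1 := Subtype.ext ht.2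
      rw [this, map_one]
    have hT3 : Perm.sign (Th φ T) = 1 := by
      have h1 := Th_of φ ⟨t, hts⟩
      have h2 : Th φ T = φ ⟨t, hts⟩ := h1
      rw [h2]
      exact Perm.mem_alternatingGroup.1 (φ ⟨t, hts⟩).2
    obtain ⟨π, hπ⟩ := conj1 _ hT1 hT2 hT3
    let Ψ : Perm (Fin 4) →* G := (KK G a b).subtype.comp (e.symm.toMonoidHom.comp (MulAut.conj π).toMonoidHom)
    have hΨ : ∀ σ, Ψ σ = (e.symm (π * σ * π⁻¹) : G) := fun σ => rfl
    have hes : ∀ (k : KK G a b) (σ : Perm (Fin 4)), Th φ k = π * σ * π⁻¹ → Ψ σ = k := by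
      intro k σ hkσ
      rw [hΨ, ← hkσ, ← he, MulEquiv.symm_apply_apply]
    have hsg : ∀ σ : Perm (Fin 4), Perm.sign (π * σ * π⁻¹) = Perm.sign σ := by
      intro σ
      rw [Perm.sign_mul, Perm.sign_mul, Perm.sign_inv, mul_comm (Perm.sign π), mul_assoc, Int.units_mul_self, mul_one]
    refine caseA_of Ψ ?_ ?_ ?_ ?_ ?_
    · intro x y hxy
      have h1 : e.symm (π * x * π⁻¹) = e.symm (π * y * π⁻¹) := Subtype.ext hxy
      have h2 := e.symm.injective h1
      exact mul_left_cancel (mul_right_cancel h2)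
    · intro σ hσ
      obtain ⟨k, hk1, hk2⟩ := hev (π * σ * π⁻¹) (by rw [hsg, hσ])
      rw [hes k σ hk2]
      exact hk1
    · intro σ hσ
      obtain ⟨k, hk1, hk2⟩ := hod (π * σ * π⁻¹) (by rw [hsg, hσ])
      rw [hes k σ hk2]
      exact hk1
    · intro g hga hgb
      set k : KK G a b := ⟨g, Or.inr ⟨hga, hgb⟩⟩ with hk'
      refine ⟨π⁻¹ * Th φ k * π, ?_, ?_⟩
      · have h1 := hsg (π⁻¹ * Th φ k * π)
        have h2 : π * (π⁻¹ * Th φ k * π) * π⁻¹ = Th φ k := by group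
        rw [h2] at h1
        rw [← h1]
        exact hWodd k hga
      · exact hes k _ (by group)
    · exact hes T t0 hπ.symm

end H36.A4c
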