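import Cfsg.Agent.Lib.H13.SylowN
import Cfsg.Agent.Lib.H13.Omega
import Cfsg.Agent.Lib.H52.PCore
import Cfsg.Agent.Lib.H52.PRes
import Cfsg.Prelude.Def_BaumannBlocks

/-!
Conjugation invariance of Baumann blocks.
-/

set_option autoImplicit false
set_option linter.unusedSectionVars false
set_option linter.unusedVariables false

namespace H36.BZ

open Subgroup Cfsg
open scoped commutatorElement

variable {G : Type*} [Group G] {p : ℕ}

/-- the conjugate of a subgroup -/
abbrev cj (g : G) (K : Subgroup G) : Subgroup G := K.map (MulAut.conj g).toMonoidHom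

theorem cj_inj (g : G) : Function.Injective (MulAut.conj g).toMonoidHom := (MulAut.conj g).injective

theorem cj_cent (g : G) (K : Subgroup G) :
    cj g (centralizer (K : Set G)) = centralizer ((cj g K : Subgroup G) : Set G) :=
  H13.Omega.map_centralizer_equiv (MulAut.conj g) K

theorem cj_inf (g : G) (K L : Subgroup G) : cj g (K ⊓ L) = cj g K ⊓ cj g L :=
  Subgroup.map_inf _ _ _ (cj_inj g)

theorem cj_om (g : G) (K : Subgroup G) : cj g (omegaOne p K) = omegaOne p (cj g K) :=
  H13.Omega.map_omegaOne_of_injective (cj_inj g) K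

theorem cj_omC (g : G) (K : Subgroup G) : cj g (omegaOneCenter p K) = omegaOneCenter p (cj g K) := by
  unfold omegaOneCenter
  rw [cj_om, cj_inf, cj_cent]

theorem cj_th (g : G) (K : Subgroup G) : cj g (thompsonSubgroupOf p K) = thompsonSubgroupOf p (cj g K) :=
  H13.SylowN.thompsonOf_map_conj g K

theorem cj_cth (g : G) (K : Subgroup G) : cj g (centerThompsonOf p K) = centerThompsonOf p (cj g K) := by
  unfold centerThompsonOf
  rw [cj_inf, cj_cent, cj_th]

theorem cj_bau (g : G) (K : Subgroup G) : cj g (baumannSubgroupOf p K) = baumannSubgroupOf p (cj g K) := by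
  unfold baumannSubgroupOf
  rw [cj_inf, cj_cent, cj_om, cj_cth]

/-- the isomorphism from a subgroup to its conjugate -/
noncomputable abbrev ce (g : G) (K : Subgroup G) : ↥K ≃* ↥(cj g K) :=
  K.equivMapOfInjective (MulAut.conj g).toMonoidHom (cj_inj g)

theorem ce_coe (g : G) (K : Subgroup G) (x : K) : ((ce g K x : cj g K) : G) = g * x * g⁻¹ := rfl

theorem ce_symm_coe (g : G) (K : Subgroup G) (x : cj g K) :
    (((ce g K).symm x : K) : G) = g⁻¹ * x * g := by
  obtain ⟨y, rfl⟩ := (ce g K).surjective x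
  rw [MulEquiv.symm_apply_apply, ce_coe]
  group

theorem cj_sub (g : G) (K : Subgroup G) (L : Subgroup K) :
    cj g (L.map K.subtype) = (L.map (ce g K).toMonoidHom).map (cj g K).subtype := by
  unfold cj
  rw [Subgroup.map_map, Subgroup.map_map]
  rfl

theorem cj_pc (g : G) (K : Subgroup G) : cj g (pCoreOf p K) = pCoreOf p (cj g K) := by
  unfold pCoreOf
  rw [cj_sub, H52.PCore.map_pCore]

theorem fratt_map {A B : Type*} [Group A] [Group B] (e : A ≃* B) :
    (frattini A).map e.toMonoidHom = frattini B := by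
  have h := OrderIso.map_radical (MulEquiv.mapSubgroup e)
  exact h

theorem cj_frat (g : G) (K : Subgroup G) :
    cj g ((frattini ↥K).map K.subtype) = (frattini ↥(cj g K)).map (cj g K).subtype := by
  rw [cj_sub, fratt_map]

theorem cj_comm (g : G) (K L : Subgroup G) : cj g ⁅K, L⁆ = ⁅cj g K, cj g L⁆ :=
  Subgroup.map_commutator _ _ _

theorem cj_mono {g : G} {K L : Subgroup G} (h : K ≤ L) : cj g K ≤ cj g L := Subgroup.map_mono h

theorem mem_cj {g : G} {K : Subgroup G} {x : G} : x ∈ cj g K ↔ g⁻¹ * x * g ∈ K := by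
  constructor
  · rintro ⟨y, hy, rfl⟩
    have : g⁻¹ * (MulAut.conj g).toMonoidHom y * g = y := by
      change g⁻¹ * (g * y * g⁻¹) * g = y
      group
    rw [this]; exact hy
  · intro h
    refine ⟨_, h, ?_⟩
    change g * (g⁻¹ * x * g) * g⁻¹ = x
    group

theorem nz_cj {g : G} {E U : Subgroup G} (h : E ≤ normalizer (U : Set G)) :
    cj g E ≤ normalizer ((cj g U : Subgroup G) : Set G) := by
  intro x hx
  rw [mem_cj] at hx
  have h1 := h hx
  rw [mem_normalizer_iff] at h1 ⊢
  intro y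
  rw [mem_cj, mem_cj, h1 (g⁻¹ * y * g)]
  have : g⁻¹ * x * g * (g⁻¹ * y * g) * (g⁻¹ * x * g)⁻¹ = g⁻¹ * (x * y * x⁻¹) * g := by group
  rw [this]

theorem rg {A B C : Type*} [Group A] [Group B] [Group C] (f : A →* B) (k : B →* C)
    (hf : Function.Surjective f) : (k.comp f).range = k.range := by
  ext x
  constructor
  · rintro ⟨a, rfl⟩
    exact ⟨f a, rfl⟩
  · rintro ⟨b, rfl⟩
    obtain ⟨a, rfl⟩ := hf b
    exact ⟨a, rfl⟩

theorem sl2_cj {F : Type*} [Field F] {R : Subgroup (Matrix.SpecialLinearGroup (Fin 2) F)}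
    {E U U₀ : Subgroup G} (g : G) (h : ActsAsSL2OnSection F R E U U₀) :
    ActsAsSL2OnSection F R (cj g E) (cj g U) (cj g U₀) := by
  obtain ⟨h1, h2, ρ, ψ, h3, h4, h5, h6⟩ := h
  refine ⟨nz_cj h1, cj_mono h2, ρ.comp (ce g E).symm.toMonoidHom, ψ.comp (ce g U).symm.toMonoidHom,
    ?_, ?_, ?_, ?_⟩
  · rw [rg _ _ (ce g E).symm.surjective, h3]
  · exact h4.comp (ce g U).symm.surjective
  · intro u
    change ψ ((ce g U).symm u) = 1 ↔ _
    rw [h5, ce_symm_coe, mem_cj]
  · intro e u
    obtain ⟨w, hw, hw2⟩ := h6 ((ce g E).symm e) ((ce g U).symm u)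
    refine ⟨ce g U w, ?_, ?_⟩
    · rw [ce_coe, hw, ce_symm_coe, ce_symm_coe]
      group
    · change Multiplicative.toAdd (ψ ((ce g U).symm (ce g U w))) = _
      rw [MulEquiv.symm_apply_apply]
      exact hw2

theorem odd_cj {n : ℕ} {R : Subgroup (Equiv.Perm (Fin n))}
    {E U U₀ : Subgroup G} (g : G) (h : ActsAsOddPermModuleOnSection n R E U U₀) :
    ActsAsOddPermModuleOnSection n R (cj g E) (cj g U) (cj g U₀) := by
  obtain ⟨h1, h2, ρ, ψ, h3, h4, h4', h5, h6⟩ := h
  refine ⟨nz_cj h1, cj_mono h2, ρ.comp (ce g E).symm.toMonoidHom, ψ.comp (ce g U).symm.toMonoidHom,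
    ?_, ?_, ?_, ?_, ?_⟩
  · rw [rg _ _ (ce g E).symm.surjective, h3]
  · intro u
    exact h4 ((ce g U).symm u)
  · intro v hv
    obtain ⟨u, hu⟩ := h4' v hv
    refine ⟨ce g U u, ?_⟩
    change Multiplicative.toAdd (ψ ((ce g U).symm (ce g U u))) = _
    rw [MulEquiv.symm_apply_apply, hu]
  · intro u
    change ψ ((ce g U).symm u) = 1 ↔ _
    rw [h5, ce_symm_coe, mem_cj]
  · intro e u
    obtain ⟨w, hw, hw2⟩ := h6 ((ce g E).symm e) ((ce g U).symm u)
    refine ⟨ce g U w, ?_, ?_⟩
    · rw [ce_coe, hw, ce_symm_coe, ce_symm_coe]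
      group
    · intro i
      change Multiplicative.toAdd (ψ ((ce g U).symm (ce g U w))) i = _
      rw [MulEquiv.symm_apply_apply]
      exact hw2 i

/-- the quotients by the `p`-cores of a subgroup and of its conjugate -/
theorem quo_cj (g : G) (E : Subgroup G) :
    Nonempty (↥(cj g E) ⧸ pCore p ↥(cj g E) ≃* ↥E ⧸ pCore p ↥E) :=
  ⟨(QuotientGroup.congr _ _ (ce g E) (H52.PCore.map_pCore (p := p) (ce g E))).symm⟩

theorem block_cg {G : Type*} [Group G] [Finite G] {p : ℕ} [Fact p.Prime] {T E : Subgroup G}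
    (hE : IsBaumannBlock p T E) (g : G) :
    IsBaumannBlock p (T.map (MulAut.conj g).toMonoidHom) (E.map (MulAut.conj g).toMonoidHom) := by
  obtain ⟨h1, h2, h3, h4, h5⟩ := hE
  change IsBaumannBlock p (cj g T) (cj g E)
  have eC : omegaOneCenter p (pCoreOf p (cj g E)) = cj g (omegaOneCenter p (pCoreOf p E)) := by
    rw [← cj_pc, ← cj_omC]
  have eZ : omegaOneCenter p (pCoreOf p (cj g E)) ⊓ centralizer ((cj g E : Subgroup G) : Set G) =
      cj g (omegaOneCenter p (pCoreOf p E) ⊓ centralizer (E : Set G)) := by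
    rw [eC, ← cj_cent, ← cj_inf]
  have eE : cj g E ⊓ centralizer ((cj g E : Subgroup G) : Set G) = cj g (E ⊓ centralizer (E : Set G)) := by
    rw [← cj_cent, ← cj_inf]
  refine ⟨?_, ?_, ?_, ?_, ?_⟩
  · change H52.PRes.resOf p (cj g E) = cj g E
    unfold cj
    rw [H52.PRes.resOf_map]
    exact congrArg (cj g) h1
  · rw [← cj_bau, ← cj_comm, h2]
  · rw [← cj_pc, ← cj_comm, h3]
  · rw [← cj_omC, ← cj_comm]
    intro h
    exact h4 ((Subgroup.map_eq_bot_iff_of_injective _ (cj_inj g)).1 h)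
  · rcases h5 with ⟨F, iF, iF', n, hn, ⟨e1⟩, h6, h7⟩ | ⟨hp2, m, ⟨e1⟩, h6, h7⟩
    · left
      refine ⟨F, iF, iF', n, hn, ?_, ?_, ?_⟩
      · obtain ⟨e2⟩ := quo_cj (p := p) g E
        exact ⟨e2.trans e1⟩
      · rw [eZ, eC]
        exact sl2_cj g h6
      · rcases h7 with h7 | ⟨hp3, h7, h8, h9, h10, h11, h12⟩
        · left
          rw [eC, ← cj_pc]
          exact congrArg (cj g) h7
        · right
          refine ⟨hp3, ?_, ?_, ?_, ?_, ?_, ?_⟩
          · rw [eC, ← cj_pc]
            exact sl2_cj g h7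
          · rw [eZ, ← cj_pc, ← cj_comm, h8]
          · rw [eZ, ← h9, cj_frat, cj_pc]
          · rw [eZ, eE, h10]
          · rw [eE, ← h11]
            exact (Nat.card_congr (ce g (E ⊓ centralizer (E : Set G))).toEquiv).symm
          · intro b hb hbn hle
            rw [← cj_bau, mem_cj] at hb
            rw [eC, ← cj_cent, mem_cj] at hbn
            refine h12 _ hb hbn ?_
            have e3 : cj g (zpowers (g⁻¹ * b * g)) = zpowers b := by
              unfold cj
              rw [MonoidHom.map_zpowers]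
              congr 1
              change g * (g⁻¹ * b * g) * g⁻¹ = b
              group
            rw [eE, ← cj_pc, ← e3, ← cj_comm, ← cj_comm] at hle
            exact (Subgroup.map_le_map_iff_of_injective (cj_inj g)).1 hle
    · right
      refine ⟨hp2, m, ?_, ?_, ?_⟩
      · obtain ⟨e2⟩ := quo_cj (p := p) g E
        exact ⟨e2.trans e1⟩
      · rw [eZ, eC]
        exact odd_cj g h6
      · rw [eC, ← cj_pc]
        exact congrArg (cj g) h7

end H36.BZ
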