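import Mathlib
import Cfsg.Prelude
import Cfsg.Agent.Lib.H69.Engel2
import Cfsg.Agent.Lib.H1.Cores
import Cfsg.Agent.Lib.H73.Nilp

/-!
Groups in which all centralisers of elements are TI: basic facts.
-/
set_option autoImplicit false

namespace H36.CentTI

open Subgroup Cfsg

universe u

variable {G : Type u} [Group G]

/-- finite 2-Engel groups are nilpotent -/
theorem nilp_of_engel {K : Type u} [Group K] [Finite K]
    (h2 : ∀ a h : K, a * (h * a * h⁻¹) = (h * a * h⁻¹) * a) : Group.IsNilpotent K := by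
  have h1 : fittingSubgroup K = ⊤ := by
    rw [eq_top_iff]
    intro x _
    have h3 := H69.Engel2.normalClosure_comm h2 x
    have h4 : Group.IsNilpotent (normalClosure ({x} : Set K)) := by
      letI : CommGroup (normalClosure ({x} : Set K)) :=
        { (inferInstance : Group (normalClosure ({x} : Set K))) with
          mul_comm := fun a b => Subtype.ext (h3 a a.2 b b.2) }
      infer_instance
    exact H1.Cores.le_fittingSubgroup normalClosure_normal h4 (subset_normalClosure (Set.mem_singleton x))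
  have h5 := H1.Cores.isNilpotent_fittingSubgroup (G := K)
  rw [h1] at h5
  exact Group.nilpotent_of_mulEquiv (Subgroup.topEquiv (G := K))

theorem mem_norm (hTI : ∀ x : G, IsTISubset (centralizer ({x} : Set G) : Set G)) {a y g : G}
    (hy : y ≠ 1) (h1 : y * a = a * y) (h2 : (g * y * g⁻¹) * a = a * (g * y * g⁻¹)) :
    g ∈ normalizer (centralizer ({a} : Set G) : Set G) := by
  by_contra hg
  exact hy (hTI a g hg y (mem_centralizer_singleton_iff.mpr h1) (mem_centralizer_singleton_iff.mpr h2))

theorem engel (hTI : ∀ x : G, IsTISubset (centralizer ({x} : Set G) : Set G)) {c a h : G}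
    (hc : c ≠ 1) (ha : a * c = c * a) (hh : h * c = c * h) :
    a * (h * a * h⁻¹) = (h * a * h⁻¹) * a := by
  have h1 : h * c * h⁻¹ = c := by rw [hh, mul_inv_cancel_right]
  have h2 := mem_norm hTI (a := a) (y := c) (g := h) hc ha.symm (by rw [h1]; exact ha.symm)
  have h3 := (mem_normalizer_iff.mp h2 a).mp (mem_centralizer_singleton_iff.mpr rfl)
  exact (mem_centralizer_singleton_iff.mp h3).symm

theorem nilp_of_central (hTI : ∀ x : G, IsTISubset (centralizer ({x} : Set G) : Set G)) {c : G}
    (hc : c ≠ 1) (H : Subgroup G) [Finite H] (hH : ∀ h ∈ H, h * c = c * h) : Group.IsNilpotent H := by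
  apply nilp_of_engel
  intro a h
  apply Subtype.ext
  exact engel hTI hc (hH a a.2) (hH h h.2)

theorem isCN [Finite G] (hTI : ∀ x : G, IsTISubset (centralizer ({x} : Set G) : Set G)) :
    IsCNGroup G := fun c hc => nilp_of_central hTI hc _ (fun _ h => mem_centralizer_singleton_iff.mp h)

/-- Sylow subgroups are TI -/
theorem sylow_ti [Finite G] (hTI : ∀ x : G, IsTISubset (centralizer ({x} : Set G) : Set G)) {p : ℕ}
    [Fact p.Prime] (P Q : Sylow p G) {y : G} (hyP : y ∈ P) (hyQ : y ∈ Q) (hy : y ≠ 1) : P = Q := by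
  haveI : Nontrivial P := ⟨⟨⟨y, hyP⟩, 1, fun h => hy (congrArg Subtype.val h)⟩⟩
  haveI := P.2.center_nontrivial
  obtain ⟨⟨z, hz⟩, hz1⟩ := exists_ne (1 : center P)
  have hz' : (z : G) ≠ 1 := fun h => hz1 (Subtype.ext (Subtype.ext h))
  have hPz : (P : Subgroup G) ≤ centralizer ({(z : G)} : Set G) := by
    intro u hu
    rw [mem_centralizer_singleton_iff]
    exact congrArg Subtype.val (mem_center_iff.mp hz ⟨u, hu⟩)
  obtain ⟨g, hg⟩ := MulAction.exists_smul_eq G P Q
  have hQ : ∀ u, u ∈ Q ↔ g⁻¹ * u * g ∈ P := by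
    intro u
    rw [← hg]
    change u ∈ ((g • P : Sylow p G) : Subgroup G) ↔ _
    rw [Sylow.coe_subgroup_smul, Subgroup.mem_pointwise_smul_iff_inv_smul_mem]
    simp [MulAut.smul_def, ← map_inv, MulAut.conj_apply]
    exact Iff.rfl
  have hgy : g * (g⁻¹ * y * g) * g⁻¹ = y := by group
  have h1 := mem_norm hTI (a := (z : G)) (y := g⁻¹ * y * g) (g := g)
    (by
      intro h
      apply hy
      rw [← hgy, h, mul_one, mul_inv_cancel])
    (mem_centralizer_singleton_iff.mp (hPz ((hQ y).mp hyQ)))
    (by rw [hgy]; exact mem_centralizer_singleton_iff.mp (hPz hyP))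
  have hQz : (Q : Subgroup G) ≤ centralizer ({(z : G)} : Set G) := by
    intro u hu
    have h2 := (mem_normalizer_iff.mp h1 (g⁻¹ * u * g)).mp (hPz ((hQ u).mp hu))
    have h3 : g * (g⁻¹ * u * g) * g⁻¹ = u := by group
    rwa [h3] at h2
  haveI := isCN hTI (z : G) hz'
  have hn : ((P.subtype hPz : Sylow p _) : Subgroup (centralizer ({(z : G)} : Set G))).Normal :=
    H73.Nilp.sylow_normal _
  have hQ2 : IsPGroup p ((Q : Subgroup G).subgroupOf (centralizer ({(z : G)} : Set G))) :=
    Q.2.comap_subtype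
  have h4 : (Q : Subgroup G).subgroupOf (centralizer ({(z : G)} : Set G)) ≤ P.subtype hPz :=
    by
      obtain ⟨R, hR⟩ := hQ2.exists_le_sylow
      haveI := Sylow.unique_of_normal _ hn
      rwa [Subsingleton.elim (P.subtype hPz) R]
  have h5 : (Q : Subgroup G) ≤ P := by
    intro u hu
    have h6 : (⟨u, hQz hu⟩ : centralizer ({(z : G)} : Set G)) ∈
      (Q : Subgroup G).subgroupOf (centralizer ({(z : G)} : Set G)) := hu
    exact h4 h6
  exact Sylow.ext (Q.3 P.2 h5)

end H36.CentTI
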