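import Mathlib
import Cfsg.Agent.Lib.H36.CentTI1
import Cfsg.Agent.S1476

/-!
Groups in which all centralisers of elements are TI: the solvable case.
-/
set_option autoImplicit false

namespace H36.CentTI

open Subgroup Cfsg

universe u

variable {G : Type u} [Group G]

/-- an internal direct product -/
theorem prod_iso {C Q E : Subgroup G} (hE : C ⊔ Q = E) (hcomm : ∀ a ∈ C, ∀ b ∈ Q, a * b = b * a)
    (hd : C ⊓ Q = ⊥) : Nonempty (E ≃* C × Q) := by
  have hc : ∀ (m : C) (n : Q), Commute (C.subtype m) (Q.subtype n) := fun a b => hcomm a a.2 b b.2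
  let f : C × Q →* G := MonoidHom.noncommCoprod C.subtype Q.subtype hc
  have hf : Function.Injective f := by
    refine (MonoidHom.noncommCoprod_injective _ _ _).mpr ⟨C.subtype_injective, Q.subtype_injective, ?_⟩
    rw [range_subtype, range_subtype, disjoint_iff, hd]
  have hr : f.range = E := by
    change (MonoidHom.noncommCoprod C.subtype Q.subtype hc).range = E
    rw [MonoidHom.noncommCoprod_range, range_subtype, range_subtype, hE]
  exact ⟨((MonoidHom.ofInjective hf).trans (MulEquiv.subgroupCongr hr)).symm⟩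

theorem quat_small (n : ℕ) (h : ∀ a h : QuaternionGroup (2 ^ n), a * (h * a * h⁻¹) = (h * a * h⁻¹) * a) :
    n = 0 ∨ n = 1 := by
  have h1 := h (QuaternionGroup.xa 0) (QuaternionGroup.a 1)
  have h2 : (QuaternionGroup.a (1 : ZMod (2 * 2 ^ n)))⁻¹ = QuaternionGroup.a (-1) := rfl
  rw [h2] at h1
  simp only [QuaternionGroup.a_mul_xa, QuaternionGroup.xa_mul_a, QuaternionGroup.xa_mul_xa] at h1
  have h3 := QuaternionGroup.a.inj h1
  have h4 : ((4 : ℕ) : ZMod (2 * 2 ^ n)) = 0 := by
    push_cast
    linear_combination -h3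
  rw [ZMod.natCast_eq_zero_iff] at h4
  have h5 : 2 ^ (n + 1) ∣ 2 ^ 2 := by rw [pow_succ']; exact h4
  have h6 := (Nat.pow_dvd_pow_iff_le_right (by norm_num)).mp h5
  omega

theorem solvable_case [Finite G] [Group.IsSolvable G]
    (hTI : ∀ x : G, IsTISubset (centralizer ({x} : Set G) : Set G)) :
    Group.IsNilpotent G ∨
    (∃ H : Subgroup G, IsFrobeniusComplement H ∧
      (IsCyclic H ∨ ∃ m : ℕ, Odd m ∧ Nonempty (H ≃* Multiplicative (ZMod m) × QuaternionGroup 2))) := by
  rcases Cfsg.Agent.S1476.result (isCN hTI) with h | ⟨K, E, -, -, hE, h⟩ | ⟨p, hp, h⟩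
  · exact Or.inl h
  · right
    rcases h with h | ⟨C, Q, hCQ, hcomm, hCc, hCo, n, ⟨e⟩⟩
    · exact ⟨E, hE, Or.inl h⟩
    · have hcardQ : Nat.card Q = 4 * 2 ^ n := by
        rw [Nat.card_congr e.toEquiv, Nat.card_eq_fintype_card, QuaternionGroup.card]
      have hcop : (Nat.card C).Coprime (Nat.card Q) := by
        rw [hcardQ, show 4 * 2 ^ n = 2 ^ (n + 2) by ring]
        exact Nat.Coprime.pow_right _ (Nat.coprime_two_right.mpr hCo)
      have hd : C ⊓ Q = ⊥ := by
        rw [← Subgroup.card_eq_one]
        apply Nat.eq_one_of_dvd_coprimes hcop (card_dvd_of_le inf_le_left) (card_dvd_of_le inf_le_right)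
      obtain ⟨f⟩ := prod_iso hCQ hcomm hd
      -- the central involution
      let z : Q := e.symm (QuaternionGroup.a ((2 ^ n : ℕ) : ZMod (2 * 2 ^ n)))
      have hz1 : (z : G) ≠ 1 := by
        intro h1
        have h2 : z = 1 := Subtype.ext h1
        have h3 : QuaternionGroup.a ((2 ^ n : ℕ) : ZMod (2 * 2 ^ n)) = 1 := by
          have := congrArg e h2
          rwa [MulEquiv.apply_symm_apply, map_one] at this
        have h4 : ((2 ^ n : ℕ) : ZMod (2 * 2 ^ n)) = 0 := QuaternionGroup.a.inj h3
        rw [ZMod.natCast_eq_zero_iff] at h4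
        have h5 := Nat.le_of_dvd (by positivity) h4
        have : 0 < 2 ^ n := by positivity
        omega
      have h2n : ((2 ^ n : ℕ) : ZMod (2 * 2 ^ n)) + ((2 ^ n : ℕ) : ZMod (2 * 2 ^ n)) = 0 := by
        rw [← Nat.cast_add, ← two_mul]
        exact ZMod.natCast_self _
      have hzc : ∀ y : Q, (y : G) * z = z * y := by
        intro y
        have h1 : y * z = z * y := by
          apply e.injective
          rw [map_mul, map_mul, MulEquiv.apply_symm_apply]
          rcases e y with i | i
          · rw [QuaternionGroup.a_mul_a, QuaternionGroup.a_mul_a, add_comm]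
          · rw [QuaternionGroup.xa_mul_a, QuaternionGroup.a_mul_xa]
            congr 1
            linear_combination h2n
        exact congrArg Subtype.val h1
      have heng : ∀ a h : QuaternionGroup (2 ^ n), a * (h * a * h⁻¹) = (h * a * h⁻¹) * a := by
        intro a h
        apply e.symm.injective
        simp only [map_mul, map_inv]
        apply Subtype.ext
        exact engel hTI hz1 (hzc _) (hzc _)
      rcases quat_small n heng with rfl | rfl
      · refine ⟨E, hE, Or.inl ?_⟩
        haveI : IsCyclic Q := by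
          haveI : IsCyclic (QuaternionGroup (2 ^ 0)) := by
            rw [pow_zero]; exact QuaternionGroup.quaternionGroup_one_isCyclic
          exact isCyclic_of_surjective e.symm e.symm.surjective
        haveI : IsCyclic (C × Q) := Group.isCyclic_prod_iff.mpr ⟨hCc, inferInstance, hcop⟩
        exact isCyclic_of_surjective f.symm f.symm.surjective
      · refine ⟨E, hE, Or.inr ⟨Nat.card C, hCo, ⟨?_⟩⟩⟩
        haveI := hCc
        have e' : Q ≃* QuaternionGroup 2 := e
        exact f.trans (MulEquiv.prodCongr (zmodCyclicMulEquiv hCc).symm e')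
  · exfalso
    haveI := Fact.mk hp
    obtain ⟨h0, A, -, -, -, -, hn, htop, ⟨n, hidx⟩, -⟩ := h
    haveI := (nontrivial_iff_ne_bot _).mpr h0
    obtain ⟨⟨y, hy⟩, hy1⟩ := exists_ne (1 : pCore p G)
    obtain ⟨P⟩ : Nonempty (Sylow p G) := inferInstance
    have huniq : ∀ R : Sylow p G, R = P := fun R =>
      sylow_ti hTI R P (H1.Cores.pCore_le_sylow R hy) (H1.Cores.pCore_le_sylow P hy)
        (fun h => hy1 (Subtype.ext h))
    have hPn : (P : Subgroup G).Normal := by
      haveI : Subsingleton (Sylow p G) := ⟨fun R S => (huniq R).trans (huniq S).symm⟩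
      exact P.normal_of_subsingleton
    have hPle : (P : Subgroup G) ≤ pCore p G := H1.Cores.le_pCore hPn P.2
    have h1 : (pCore p G ⊔ A).index ∣ (P : Subgroup G).index :=
      index_dvd_of_le (hPle.trans le_sup_left)
    have h2 : n = 0 := by
      by_contra h3
      rw [hidx] at h1
      exact P.not_dvd_index ((dvd_pow_self p h3).trans h1)
    rw [h2, pow_zero] at hidx
    exact htop (index_eq_one.mp hidx)

end H36.CentTI
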