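import Mathlib
import Cfsg.Prelude.Def_Transfer
import Cfsg.Agent.Lib.H3.ExtraspecialHom

/-!
Involutory automorphisms of extraspecial `2`-groups: `[Q, a] = Z(C_Q(a mod Z(Q)))`.
Double centralizers in extraspecial groups.
-/

set_option autoImplicit false

open scoped commutatorElement

namespace H36.ExtraInv

open H3.ClassTwo H3.Extraspecial

/-- a subgroup avoiding `x` and maximal subject to containing `D ≥ Z(Q)` has index two -/
theorem exists_hom {Q : Type*} [Group Q] [Finite Q] (hE : Cfsg.IsExtraspecial 2 Q) {D : Subgroup Q}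
    (hD : Subgroup.center Q ≤ D) {x : Q} (hx : x ∉ D) :
    ∃ e : Q, (∀ d ∈ D, ⁅e, d⁆ = 1) ∧ ⁅e, x⁆ ≠ 1 := by
  have : Fact (Nat.Prime 2) := ⟨Nat.prime_two⟩
  have hZ : commutator Q ≤ Subgroup.center Q := commutator_le hE.1
  -- choose `M`
  obtain ⟨M, hM⟩ := (Set.toFinite {M : Subgroup Q | D ≤ M ∧ x ∉ M}).exists_maximal ⟨D, le_rfl, hx⟩
  obtain ⟨⟨hDM, hxM⟩, hmax⟩ := hM
  have hMc : ∀ g : Q, ∀ m ∈ M, ⁅g, m⁆ ∈ M := fun g m _ =>
    hDM (hD (commutator_le_center_iff.1 hZ g m))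
  have hMn : M.Normal := by
    refine ⟨fun m hm g => ?_⟩
    have : g * m * g⁻¹ = ⁅g, m⁆ * m := by simp [commutatorElement_def]
    rw [this]
    exact M.mul_mem (hMc g m hm) hm
  have hsq : ∀ g : Q, g ^ 2 ∈ M := fun g => hDM (hD (pow_mem_center_of_special hE.1 g))
  -- key: outside `M` everything is in `M x`
  have key : ∀ y : Q, y ∉ M → y * x ∈ M := by
    intro y hy
    have h1 : x ∈ M ⊔ Subgroup.zpowers y := by
      by_contra h
      have h2 := hmax (y := M ⊔ Subgroup.zpowers y) ⟨hDM.trans le_sup_left, h⟩ le_sup_left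
      exact hy (h2 (Subgroup.mem_sup_right (Subgroup.mem_zpowers y)))
    obtain ⟨m, hm, w, hw, hmw⟩ := (Subgroup.mem_sup_of_normal_left).mp h1
    obtain ⟨k, rfl⟩ := Subgroup.mem_zpowers_iff.mp hw
    have hy2 : ∀ j : ℤ, y ^ (2 * j) ∈ M := by
      intro j
      rw [zpow_mul]
      exact M.zpow_mem (by exact_mod_cast hsq y) j
    rcases Int.even_or_odd' k with ⟨j, rfl | rfl⟩
    · exfalso
      apply hxM
      rw [← hmw]
      exact M.mul_mem hm (hy2 j)
    · -- `x = m y^(2j) y`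
      have h3 : x = (m * y ^ (2 * j)) * y := by
        rw [← hmw, zpow_add, zpow_one]; group
      have h4 : y * x = (y * (m * y ^ (2 * j)) * y⁻¹) * y ^ 2 := by
        rw [h3, pow_two]; group
      rw [h4]
      exact M.mul_mem (hMn.conj_mem _ (M.mul_mem hm (hy2 j)) y) (hsq y)
  have keyxx : ∀ y : Q, y ∉ M → ∀ y' : Q, y' ∉ M → y * y' ∈ M := by
    intro y hy y' hy'
    have h1 := key y hy
    have h2 := key y' hy'
    have h4 : y * y' = (y * x) * (x ^ 2)⁻¹ * (x * (y' * x) * x⁻¹) := by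
      rw [pow_two]; group
    rw [h4]
    exact M.mul_mem (M.mul_mem h1 (M.inv_mem (hsq x))) (hMn.conj_mem _ h2 x)
  -- the central element
  have hnt : Nontrivial (Subgroup.center Q) := by
    rw [← Finite.one_lt_card_iff_nontrivial, hE.2]
    norm_num
  obtain ⟨⟨ζ, hζ⟩, hζ1⟩ := exists_ne (1 : Subgroup.center Q)
  have hζ1' : ζ ≠ 1 := fun h => hζ1 (Subtype.ext h)
  have hζ2 : ζ * ζ = 1 := by
    rw [← pow_two]
    exact center_pow hE.2 hζ
  classical
  let f : Q → Q := fun y => if y ∈ M then 1 else ζ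
  have hf1 : ∀ y, y ∈ M → f y = 1 := fun y hy => by simp [f, hy]
  have hf2 : ∀ y, y ∉ M → f y = ζ := fun y hy => by simp [f, hy]
  obtain ⟨e, he⟩ := H3.ExtraspecialHom.hom_inner (Nat.card Q) hZ hE.2 le_rfl f
    (by
      intro g
      by_cases h : g ∈ M
      · rw [hf1 g h]; exact Subgroup.one_mem _
      · rw [hf2 g h]; exact hζ)
    (by
      intro y y'
      by_cases h : y ∈ M
      · by_cases h' : y' ∈ M
        · rw [hf1 _ h, hf1 _ h', hf1 _ (M.mul_mem h h'), one_mul]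
        · rw [hf1 _ h, hf2 _ h', hf2, one_mul]
          intro h''
          exact h' ((Subgroup.mul_mem_cancel_left M h).mp h'')
      · by_cases h' : y' ∈ M
        · rw [hf2 _ h, hf1 _ h', hf2, mul_one]
          intro h''
          exact h ((Subgroup.mul_mem_cancel_right M h').mp h'')
        · rw [hf2 _ h, hf2 _ h', hf1 _ (keyxx y h y' h'), hζ2])
    (fun w hw => hf1 w (hDM (hD hw)))
  refine ⟨e, fun d hd => ?_, ?_⟩
  · rw [← he, hf1 d (hDM hd)]
  · rw [← he, hf2 x hxM]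
    exact hζ1'

section aut

variable {Q : Type*} [Group Q] [Finite Q] (hE : Cfsg.IsExtraspecial 2 Q) (a : Q ≃* Q)
  (ha : ∀ x, a (a x) = x)

include hE in
omit [Finite Q] in
theorem eq_one_or {ζ x : Q} (hζ : ζ ∈ Subgroup.center Q) (hζ1 : ζ ≠ 1)
    (hx : x ∈ Subgroup.center Q) : x = 1 ∨ x = ζ := by
  have h2 : Nat.card (Subgroup.center Q) = 2 := hE.2
  by_contra h
  push Not at h
  have h3 := (Nat.card_eq_two_iff' (1 : Subgroup.center Q)).mp h2
  obtain ⟨y, hy, huniq⟩ := h3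
  have h4 := huniq ⟨x, hx⟩ (fun h' => h.1 (congrArg Subtype.val h'))
  have h5 := huniq ⟨ζ, hζ⟩ (fun h' => hζ1 (congrArg Subtype.val h'))
  exact h.2 (congrArg Subtype.val (h4.trans h5.symm))

include hE in
omit [Finite Q] in
theorem map_center {x : Q} (hx : x ∈ Subgroup.center Q) : a x = x := by
  by_cases h1 : x = 1
  · rw [h1, map_one]
  · have h2 : a x ∈ Subgroup.center Q := by
      rw [Subgroup.mem_center_iff]
      intro g
      obtain ⟨g', rfl⟩ := a.surjective g
      rw [← map_mul, ← map_mul, Subgroup.mem_center_iff.mp hx g']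
    rcases eq_one_or hE hx h1 h2 with h | h
    · exfalso
      apply h1
      apply a.injective
      rw [h, map_one]
    · exact h

include hE ha in
theorem pairing_symm (x y : Q) : ⁅a x * x⁻¹, y⁆ = ⁅a y * y⁻¹, x⁆ := by
  have : Fact (Nat.Prime 2) := ⟨Nat.prime_two⟩
  have hZ : commutator Q ≤ Subgroup.center Q := commutator_le hE.1
  have hc : ∀ u v : Q, ⁅u, v⁆ ∈ Subgroup.center Q := commutator_le_center_iff.1 hZ
  have h2 : ∀ u v : Q, ⁅u, v⁆ = ⁅v, u⁆ := by
    intro u v
    have h3 : ⁅u, v⁆ * ⁅u, v⁆ = 1 := by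
      rw [← pow_two]; exact center_pow hE.2 (hc u v)
    rw [← commutatorElement_inv u v]
    exact (inv_eq_of_mul_eq_one_left h3).symm
  have h1 : ∀ u v : Q, ⁅a u, a v⁆ = ⁅u, v⁆ := by
    intro u v
    rw [← map_commutatorElement, map_center hE a (hc u v)]
  rw [mul_left hZ, mul_left hZ, inv_left hZ, inv_left hZ]
  have h4 : ⁅a x, y⁆ = ⁅a y, x⁆ := by
    rw [← h1 (a x) y, ha, h2]
  have h5 : ⁅x, y⁆ = ⁅y, x⁆ := h2 x y
  rw [h4, h5]

include hE ha in
/-- For a nontrivial involutory automorphism `a` of an extraspecial `2`-group `Q`, the subgroup generated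
by the `a(q) q⁻¹` is the centre of `Q₀ = {q : a(q) q⁻¹ ∈ Z(Q)}`. -/
theorem closure_eq (hne : ∃ x, a x ≠ x) (Q₀ : Subgroup Q)
    (hQ₀ : ∀ q, q ∈ Q₀ ↔ a q * q⁻¹ ∈ Subgroup.center Q) (x : Q) :
    x ∈ Subgroup.closure (Set.range fun q : Q => a q * q⁻¹) ↔
      (x ∈ Q₀ ∧ ∀ y ∈ Q₀, x * y = y * x) := by
  have : Fact (Nat.Prime 2) := ⟨Nat.prime_two⟩
  have hZ : commutator Q ≤ Subgroup.center Q := commutator_le hE.1
  set D := Subgroup.closure (Set.range fun q : Q => a q * q⁻¹) with hD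
  have hDmem : ∀ q, a q * q⁻¹ ∈ D := fun q => Subgroup.subset_closure ⟨q, rfl⟩
  -- `D` is normal
  have hDn : D.Normal := by
    refine ⟨fun n hn g => ?_⟩
    induction hn using Subgroup.closure_induction with
    | mem y hy =>
      obtain ⟨q, rfl⟩ := hy
      have h1 : g * (a q * q⁻¹) * g⁻¹ = (a g * g⁻¹)⁻¹ * (a (g * q) * (g * q)⁻¹) := by
        rw [map_mul]; group
      simp only
      rw [h1]
      exact D.mul_mem (D.inv_mem (hDmem g)) (hDmem (g * q))
    | one => simp
    | mul y y' _ _ ih ih' =>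
      have : g * (y * y') * g⁻¹ = (g * y * g⁻¹) * (g * y' * g⁻¹) := by group
      rw [this]
      exact D.mul_mem ih ih'
    | inv y _ ih =>
      have : g * y⁻¹ * g⁻¹ = (g * y * g⁻¹)⁻¹ := by group
      rw [this]
      exact D.inv_mem ih
  have hDne : D ≠ ⊥ := by
    obtain ⟨y, hy⟩ := hne
    intro h
    apply hy
    have := hDmem y
    rw [h, Subgroup.mem_bot] at this
    exact mul_inv_eq_one.mp this
  -- `Z(Q) ≤ D`
  have hZD : Subgroup.center Q ≤ D := by
    have hnil : Group.IsNilpotent Q := hE.1.1.isNilpotent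
    have h1 := H3.PBasic.normal_inf_center_ne_bot D hDne
    obtain ⟨ζ, hζ, hζ1⟩ : ∃ ζ ∈ D ⊓ Subgroup.center Q, ζ ≠ 1 := by
      by_contra h
      push Not at h
      exact h1 (le_bot_iff.mp fun y hy => Subgroup.mem_bot.mpr (h y hy))
    obtain ⟨hζD, hζZ⟩ := Subgroup.mem_inf.mp hζ
    intro y hy
    rcases eq_one_or hE hζZ hζ1 hy with rfl | rfl
    · exact D.one_mem
    · exact hζD
  -- commutation of `D` and `Q₀`
  have hgen : ∀ q, ∀ y, y ∈ Q₀ → ⁅a q * q⁻¹, y⁆ = 1 := by
    intro q y hy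
    rw [pairing_symm hE a ha, commutatorElement_eq_one_iff_mul_comm]
    exact (Subgroup.mem_center_iff.mp ((hQ₀ y).mp hy) q).symm
  constructor
  · intro hx
    constructor
    · have : D ≤ Q₀ := by
        rw [hD, Subgroup.closure_le]
        rintro _ ⟨q, rfl⟩
        show a q * q⁻¹ ∈ Q₀
        rw [hQ₀]
        have h1 : a (a q * q⁻¹) * (a q * q⁻¹)⁻¹ = (((a q * q⁻¹)⁻¹) ^ 2) := by
          rw [map_mul, ha, map_inv, pow_two]
          group
        rw [h1]
        exact pow_mem_center_of_special hE.1 _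
      exact this hx
    · intro y hy
      have : D ≤ Subgroup.centralizer ({y} : Set Q) := by
        rw [hD, Subgroup.closure_le]
        rintro _ ⟨q, rfl⟩
        show a q * q⁻¹ ∈ Subgroup.centralizer ({y} : Set Q)
        rw [Subgroup.mem_centralizer_singleton_iff]
        exact commutatorElement_eq_one_iff_mul_comm.mp (hgen q y hy)
      exact Subgroup.mem_centralizer_singleton_iff.mp (this hx)
  · rintro ⟨_, hxc⟩
    by_contra hxD
    obtain ⟨e, he1, he2⟩ := exists_hom hE hZD hxD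
    apply he2
    rw [commutatorElement_eq_one_iff_mul_comm]
    symm
    apply hxc
    rw [hQ₀, Subgroup.mem_center_iff]
    intro y
    have h1 : ⁅a e * e⁻¹, y⁆ = 1 := by
      rw [pairing_symm hE a ha]
      have h2 := he1 _ (hDmem y)
      rw [commutatorElement_eq_one_iff_mul_comm] at h2 ⊢
      exact h2.symm
    exact (commutatorElement_eq_one_iff_mul_comm.mp h1).symm

end aut

end H36.ExtraInv
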