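import Mathlib
import Cfsg.Agent.Lib.H36.FrobAct
import Cfsg.Agent.Lib.H4.Burnside

/-!
# Groups in which the even element orders are `2`, `2r` and the element orders divisible by `r` are `r`, `2r`

Basic facts and the dichotomy lemma.
-/

set_option autoImplicit false

open Subgroup Finset
open scoped commutatorElement

namespace H36.NS

/-- even element orders in `{2, 2r}`, element orders divisible by `r` in `{r, 2r}` -/
structure NS (G : Type*) [Group G] (r : ℕ) : Prop where
  pr : r.Prime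
  ne2 : r ≠ 2
  ev : ∀ g : G, 2 ∣ orderOf g → orderOf g = 2 ∨ orderOf g = 2 * r
  od : ∀ g : G, r ∣ orderOf g → orderOf g = r ∨ orderOf g = 2 * r

variable {G : Type*} [Group G] {r : ℕ}

theorem NS.of_inj {H : Type*} [Group H] (f : H →* G) (hf : Function.Injective f) (h : NS G r) :
    NS H r where
  pr := h.pr
  ne2 := h.ne2
  ev := fun g hg => by
    have := h.ev (f g)
    rw [orderOf_injective f hf] at this
    exact this hg
  od := fun g hg => by
    have := h.od (f g)
    rw [orderOf_injective f hf] at this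
    exact this hg

theorem NS.sub (h : NS G r) (H : Subgroup G) : NS H r := h.of_inj H.subtype H.subtype_injective

theorem NS.odd (h : NS G r) : Odd r := h.pr.eq_two_or_odd'.resolve_left h.ne2

/-- an element of prime order `p ≠ 2, r` commutes with no involution and no element of order `r` -/
theorem NS.no_comm (h : NS G r) {x y : G} (hx : orderOf x = 2 ∨ orderOf x = r) {p : ℕ}
    (hp : p.Prime) (hy : orderOf y = p) (hc : x * y = y * x) : p = 2 ∨ p = r := by
  by_contra hcon
  push Not at hcon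
  obtain ⟨h2, hr⟩ := hcon
  have hcop : (orderOf x).Coprime (orderOf y) := by
    rw [hy]
    rcases hx with hx | hx <;> rw [hx]
    · exact (Nat.coprime_primes Nat.prime_two hp).2 (Ne.symm h2)
    · exact (Nat.coprime_primes h.pr hp).2 (Ne.symm hr)
  have ho := Commute.orderOf_mul_eq_mul_orderOf_of_coprime (show Commute x y from hc) hcop
  have hp1 := hp.one_lt
  have hr1 := h.pr.one_lt
  rcases hx with hx | hx
  · rcases h.ev (x * y) (by rw [ho, hx]; exact dvd_mul_right _ _) with h1 | h1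
    · rw [ho, hx, hy] at h1; omega
    · rw [ho, hx, hy] at h1
      exact hr (Nat.eq_of_mul_eq_mul_left (by norm_num) h1)
  · rcases h.od (x * y) (by rw [ho, hx]; exact dvd_mul_right _ _) with h1 | h1
    · rw [ho, hx, hy] at h1
      have : p = 1 := Nat.eq_of_mul_eq_mul_left h.pr.pos (by omega)
      omega
    · rw [ho, hx, hy, mul_comm 2 r] at h1
      exact h2 (Nat.eq_of_mul_eq_mul_left h.pr.pos h1)

theorem NS.prime_of_cent [Finite G] (h : NS G r) {x : G} (hx : orderOf x = 2 ∨ orderOf x = r) {p : ℕ}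
    (hp : p.Prime) {C : Subgroup G} (hC : C ≤ centralizer ({x} : Set G)) (hpd : p ∣ Nat.card C) :
    p = 2 ∨ p = r := by
  haveI : Fact p.Prime := ⟨hp⟩
  obtain ⟨y, hy⟩ := exists_prime_orderOf_dvd_card' (G := C) p hpd
  rw [← Subgroup.orderOf_coe] at hy
  refine h.no_comm hx hp hy ?_
  exact mem_centralizer_iff.1 (hC y.2) x rfl

/-- numbers with prime divisors in `{p, q}` -/
theorem exists_pow_mul_pow {p q n : ℕ} (hp : p.Prime) (hq : q.Prime) (hpq : p ≠ q) (hn : n ≠ 0)
    (h : ∀ l : ℕ, l.Prime → l ∣ n → l = p ∨ l = q) : ∃ a b : ℕ, n = p ^ a * q ^ b := by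
  induction n using Nat.strong_induction_on with
  | _ n ih =>
  by_cases h1 : n = 1
  · exact ⟨0, 0, by simp [h1]⟩
  obtain ⟨l, hl, m, rfl⟩ := Nat.exists_prime_and_dvd h1
  have hm0 : m ≠ 0 := by rintro rfl; simp at hn
  obtain ⟨a, b, hab⟩ := ih m (by
    have := hl.two_le
    have hm : 0 < m := Nat.pos_of_ne_zero hm0
    nlinarith) hm0 (fun l' hl' hd => h l' hl' (hd.mul_left l))
  rcases h l hl (dvd_mul_right _ _) with rfl | rfl
  · exact ⟨a + 1, b, by rw [hab]; ring⟩
  · exact ⟨a, b + 1, by rw [hab]; ring⟩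

theorem isSolvable_of_primes {X : Type*} [Group X] [Finite X] {p q : ℕ} (hp : p.Prime) (hq : q.Prime)
    (hpq : p ≠ q) (h : ∀ l : ℕ, l.Prime → l ∣ Nat.card X → l = p ∨ l = q) : Group.IsSolvable X := by
  obtain ⟨a, b, hab⟩ := exists_pow_mul_pow hp hq hpq Nat.card_pos.ne' h
  exact H4.Burnside.isSolvable_of_card_eq p q hp hq _ X rfl ⟨a, b, hab⟩

theorem NS.solvable_of_cent [Finite G] (h : NS G r) {x : G} (hx : orderOf x = 2 ∨ orderOf x = r)
    {C : Subgroup G} (hC : C ≤ centralizer ({x} : Set G)) : Group.IsSolvable C :=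
  isSolvable_of_primes Nat.prime_two h.pr (Ne.symm h.ne2) (fun _ hl hd => h.prime_of_cent hx hl hC hd)

/-- `2`-elements are involutions -/
theorem NS.sq_eq_one (h : NS G r) {x : G} {k : ℕ} (hx : x ^ 2 ^ k = 1) : x * x = 1 := by
  by_cases h1 : x = 1
  · rw [h1, one_mul]
  obtain ⟨j, hj, hj2⟩ := (Nat.dvd_prime_pow Nat.prime_two).1 (orderOf_dvd_of_pow_eq_one hx)
  have hj0 : j ≠ 0 := by
    rintro rfl
    rw [pow_zero, orderOf_eq_one_iff] at hj2
    exact h1 hj2
  have h2 : 2 ∣ orderOf x := by rw [hj2]; exact dvd_pow_self 2 hj0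
  rcases h.ev x h2 with h3 | h3
  · rw [← pow_two, ← h3, pow_orderOf_eq_one]
  · exfalso
    have h4 : r ∣ 2 ^ j := by rw [← hj2, h3]; exact dvd_mul_left _ _
    exact h.ne2 ((Nat.prime_dvd_prime_iff_eq h.pr Nat.prime_two).1 (h.pr.dvd_of_dvd_pow h4))

/-- `r`-elements have order dividing `r` -/
theorem NS.pow_r (h : NS G r) {x : G} {k : ℕ} (hx : x ^ r ^ k = 1) : x ^ r = 1 := by
  by_cases h1 : x = 1
  · rw [h1, one_pow]
  obtain ⟨j, hj, hj2⟩ := (Nat.dvd_prime_pow h.pr).1 (orderOf_dvd_of_pow_eq_one hx)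
  have hj0 : j ≠ 0 := by
    rintro rfl
    rw [pow_zero, orderOf_eq_one_iff] at hj2
    exact h1 hj2
  have h2 : r ∣ orderOf x := by rw [hj2]; exact dvd_pow_self r hj0
  rcases h.od x h2 with h3 | h3
  · rw [← h3, pow_orderOf_eq_one]
  · exfalso
    have h4 : 2 ∣ r ^ j := by rw [← hj2, h3]; exact dvd_mul_right _ _
    exact h.ne2 ((Nat.prime_dvd_prime_iff_eq Nat.prime_two h.pr).1 (Nat.prime_two.dvd_of_dvd_pow h4)).symm

theorem NS.order_r (h : NS G r) {D : Subgroup G} (hD : IsPGroup r D) {x : G} (hx : x ∈ D) (h1 : x ≠ 1) :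
    orderOf x = r := by
  obtain ⟨k, hk⟩ := hD ⟨x, hx⟩
  have hk' : x ^ r ^ k = 1 := congrArg Subtype.val hk
  haveI : Fact r.Prime := ⟨h.pr⟩
  exact orderOf_eq_prime (h.pow_r hk') h1

theorem NS.order_two (h : NS G r) {D : Subgroup G} (hD : IsPGroup 2 D) {x : G} (hx : x ∈ D) (h1 : x ≠ 1) :
    orderOf x = 2 := by
  obtain ⟨k, hk⟩ := hD ⟨x, hx⟩
  have hk' : x ^ 2 ^ k = 1 := congrArg Subtype.val hk
  exact orderOf_eq_prime (by rw [pow_two]; exact h.sq_eq_one hk') h1

/-- `2`-subgroups are abelian -/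
theorem NS.comm_two (h : NS G r) {D : Subgroup G} (hD : IsPGroup 2 D) {x y : G} (hx : x ∈ D) (hy : y ∈ D) :
    x * y = y * x := by
  have key : ∀ z ∈ D, z * z = 1 := by
    intro z hz
    obtain ⟨k, hk⟩ := hD ⟨z, hz⟩
    exact h.sq_eq_one (k := k) (congrArg Subtype.val hk)
  have e1 := key x hx
  have e2 := key y hy
  have e3 := key (x * y) (mul_mem hx hy)
  have e4 : x⁻¹ = x := inv_eq_of_mul_eq_one_right e1
  have e5 : y⁻¹ = y := inv_eq_of_mul_eq_one_right e2
  have e6 : (x * y)⁻¹ = x * y := inv_eq_of_mul_eq_one_right e3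
  rw [mul_inv_rev, e4, e5] at e6
  exact e6.symm

end H36.NS
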