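import Mathlib
import Cfsg.Agent.Lib.H36.NSa

/-!
# Frobenius actions with vanishing norm, and the dichotomy
-/

set_option autoImplicit false

open Subgroup Finset
open scoped commutatorElement

namespace H36.NS

section additive

variable {F M : Type*} [Group F] [AddCommGroup M] [DistribMulAction F M]

theorem card_smul_eq_zero_of_norm (Q : Subgroup F) [Finite Q] (x : F) (r : ℕ) (hr : 0 < r) (hxr : x ^ r = 1)
    (hnorm : ∀ w ∈ Q, x * w * x⁻¹ ∈ Q)
    (h1 : ∀ v : M, (∀ w ∈ Q, w • v = v) → v = 0)
    (h2 : ∀ v : M, ∑ i ∈ range r, x ^ i • v = 0)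
    (h3 : ∀ i, 0 < i → i < r → ∀ w ∈ Q, x ^ i * w = w * x ^ i → w = 1) (v : M) :
    Nat.card Q • v = 0 := by
  have : Fintype Q := Fintype.ofFinite Q
  -- powers of x normalize Q
  have hn1 : ∀ i : ℕ, ∀ w ∈ Q, x ^ i * w * (x ^ i)⁻¹ ∈ Q := by
    intro i
    induction i with
    | zero => intro w hw; simpa using hw
    | succ i ih =>
      intro w hw
      have := hnorm _ (ih w hw)
      have e : x ^ (i + 1) * w * (x ^ (i + 1))⁻¹ = x * (x ^ i * w * (x ^ i)⁻¹) * x⁻¹ := by
        rw [pow_succ']
        group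
      rw [e]
      exact this
  have hn2 : ∀ i : ℕ, i ≤ r → ∀ w ∈ Q, (x ^ i)⁻¹ * w * x ^ i ∈ Q := by
    intro i hi w hw
    have := hn1 (r - i) w hw
    have e : x ^ (r - i) = (x ^ i)⁻¹ := by
      rw [eq_inv_iff_mul_eq_one, ← pow_add, Nat.sub_add_cancel hi, hxr]
    rw [e, inv_inv] at this
    exact this
  -- for 0 < i < r the sum over conjugates of x ^ i vanishes
  have hC : ∀ i, 0 < i → i < r → ∑ g : Q, ((g : F) * x ^ i * (g : F)⁻¹) • v = 0 := by
    intro i hi hir
    let θ : Q → Q := fun g => ⟨(x ^ i)⁻¹ * g * x ^ i * (g : F)⁻¹,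
      Q.mul_mem (hn2 i hir.le g g.2) (Q.inv_mem g.2)⟩
    have hθ : Function.Injective θ := by
      intro g h hgh
      have e : (x ^ i)⁻¹ * (g : F) * x ^ i * (g : F)⁻¹ = (x ^ i)⁻¹ * (h : F) * x ^ i * (h : F)⁻¹ :=
        congrArg Subtype.val hgh
      have e2 : (g : F) * x ^ i * (g : F)⁻¹ = (h : F) * x ^ i * (h : F)⁻¹ := by
        rw [mul_assoc, mul_assoc, mul_assoc, mul_assoc] at e
        have := mul_left_cancel e
        rw [mul_assoc, mul_assoc]
        exact this
      have e3 : x ^ i * ((h : F)⁻¹ * g) = ((h : F)⁻¹ * g) * x ^ i := by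
        have := congrArg (fun y => (h : F)⁻¹ * y * (g : F)) e2
        simp only [mul_assoc, inv_mul_cancel, mul_one, inv_mul_cancel_left] at this
        rw [mul_assoc]
        exact this.symm
      have e4 := h3 i hi hir _ (Q.mul_mem (Q.inv_mem h.2) g.2) e3
      apply Subtype.ext
      exact (inv_mul_eq_one.mp e4).symm
    have hbij : Function.Bijective θ := Finite.injective_iff_bijective.mp hθ
    have e : ∀ g : Q, ((g : F) * x ^ i * (g : F)⁻¹) • v = x ^ i • ((θ g : F) • v) := by
      intro g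
      rw [← mul_smul]
      congr 1
      show (g : F) * x ^ i * (g : F)⁻¹ = x ^ i * ((x ^ i)⁻¹ * g * x ^ i * (g : F)⁻¹)
      group
    simp_rw [e]
    rw [← smul_sum]
    have : ∑ g : Q, (θ g : F) • v = ∑ w : Q, (w : F) • v :=
      Fintype.sum_equiv (Equiv.ofBijective θ hbij) _ _ (fun g => rfl)
    rw [this, H63.FrobeniusFix.sum_smul_eq_zero Q h1, smul_zero]
  have hD : ∑ g : Q, ∑ i ∈ range r, ((g : F) * x ^ i * (g : F)⁻¹) • v = 0 := by
    apply sum_eq_zero
    intro g _
    have : ∀ i, ((g : F) * x ^ i * (g : F)⁻¹) • v = (g : F) • (x ^ i • ((g : F)⁻¹ • v)) := by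
      intro i
      rw [mul_smul, mul_smul]
    simp_rw [this]
    rw [← smul_sum, h2, smul_zero]
  rw [sum_comm] at hD
  obtain ⟨s, rfl⟩ : ∃ s, r = s + 1 := ⟨r - 1, by omega⟩
  rw [sum_range_succ'] at hD
  have hE : ∑ i ∈ range s, ∑ g : Q, ((g : F) * x ^ (i + 1) * (g : F)⁻¹) • v = 0 := by
    apply sum_eq_zero
    intro i hi
    exact hC (i + 1) (Nat.succ_pos i) (by have := mem_range.mp hi; omega)
  rw [hE, zero_add] at hD
  simpa using hD

end additive

theorem pow_card_eq_one_of_norm {G : Type*} [Group G] (V Q : Subgroup G) [Finite Q] (x : G) (r : ℕ) (hr : 0 < r)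
    (hxr : x ^ r = 1) (hVc : ∀ a ∈ V, ∀ b ∈ V, a * b = b * a)
    (hQV : Q ≤ Subgroup.normalizer (V : Set G)) (hxV : x ∈ Subgroup.normalizer (V : Set G))
    (hxQ : ∀ w ∈ Q, x * w * x⁻¹ ∈ Q)
    (h1 : ∀ v ∈ V, (∀ w ∈ Q, w * v = v * w) → v = 1)
    (h2 : ∀ v ∈ V, (v * x) ^ r = 1)
    (h3 : ∀ i, 0 < i → i < r → ∀ w ∈ Q, x ^ i * w = w * x ^ i → w = 1) :
    ∀ v ∈ V, v ^ Nat.card Q = 1 := by
  let F := ↥(Subgroup.normalizer (V : Set G))
  let _ : CommGroup V := { (inferInstance : Group V) with
    mul_comm := fun a b => Subtype.ext (hVc a a.2 b b.2) }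
  let act : DistribMulAction F (Additive V) :=
    { smul := fun f v => Additive.ofMul (V.normalizerMonoidHom f (Additive.toMul v))
      one_smul := fun v => by
        show Additive.ofMul (V.normalizerMonoidHom 1 (Additive.toMul v)) = v
        rw [map_one]; rfl
      mul_smul := fun f g v => by
        show Additive.ofMul (V.normalizerMonoidHom (f * g) (Additive.toMul v)) = _
        rw [map_mul]; rfl
      smul_zero := fun f => by
        show Additive.ofMul (V.normalizerMonoidHom f 1) = 0
        rw [map_one]; rfl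
      smul_add := fun f v w => by
        show Additive.ofMul (V.normalizerMonoidHom f (Additive.toMul v * Additive.toMul w)) = _
        rw [map_mul]; rfl }
  have hact : ∀ (f : F) (v : V),
      ((Additive.toMul (f • (Additive.ofMul v : Additive V)) : V) : G) = f * v * (f : G)⁻¹ := by
    intro f v
    rfl
  let Q' : Subgroup F := Q.subgroupOf (Subgroup.normalizer (V : Set G))
  have hQQ' : Nat.card Q' = Nat.card Q := Nat.card_congr (Subgroup.subgroupOfEquivOfLe hQV).toEquiv
  have : Finite Q' := Nat.finite_of_card_ne_zero (by rw [hQQ']; exact Nat.card_pos.ne')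
  let x' : F := ⟨x, hxV⟩
  have key := card_smul_eq_zero_of_norm (F := F) (M := Additive V) Q' x' r hr (Subtype.ext hxr)
    (by
      intro w hw
      exact hxQ (w : G) hw)
    (by
      intro v hv
      have : ((Additive.toMul v : V) : G) = 1 := by
        apply h1 _ (Additive.toMul v).2
        intro w hw
        have h := hv ⟨w, hQV hw⟩ hw
        have h'' := congrArg (fun y : Additive V => ((Additive.toMul y : V) : G)) h
        have h3 := (hact ⟨w, hQV hw⟩ (Additive.toMul v)).symm.trans h''
        exact mul_inv_eq_iff_eq_mul.mp h3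
      have : Additive.toMul v = 1 := Subtype.ext this
      exact this)
    (by
      intro v
      have key2 : ∀ n : ℕ, ((Additive.toMul (∑ i ∈ range n, x' ^ i • v) : V) : G) * x ^ n =
          (((Additive.toMul v : V) : G) * x) ^ n := by
        intro n
        induction n with
        | zero => simp
        | succ n ih =>
          rw [sum_range_succ, toMul_add, Subgroup.coe_mul, pow_succ, pow_succ, ← ih]
          have e := hact (x' ^ n) (Additive.toMul v)
          have e' : ((Additive.toMul (x' ^ n • v) : V) : G) =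
              x ^ n * ((Additive.toMul v : V) : G) * (x ^ n)⁻¹ := by
            exact e
          rw [e']
          group
      have h4 := key2 r
      rw [hxr, mul_one, h2 _ (Additive.toMul v).2] at h4
      have : Additive.toMul (∑ i ∈ range r, x' ^ i • v) = 1 := Subtype.ext h4
      exact this)
    (by
      intro i hi hir w hw h
      apply Subtype.ext
      apply h3 i hi hir w hw
      exact congrArg Subtype.val h)
  intro v hv
  have := key (Additive.ofMul ⟨v, hv⟩)
  rw [hQQ'] at this
  have h' : (⟨v, hv⟩ : V) ^ Nat.card Q = 1 := this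
  exact congrArg Subtype.val h'


open H36.FrobAct

variable {G : Type*} [Group G]

/-- abelian case -/
theorem frob_abelian_norm [Finite G] {V U : Subgroup G} {x : G} {p : ℕ} [hp : Fact p.Prime]
    (hxp : x ^ p = 1) (hVc : ∀ a ∈ V, ∀ b ∈ V, a * b = b * a) (hUV : U ≤ normalizer (V : Set G))
    (hxV : x ∈ normalizer (V : Set G)) (hxU : x ∈ normalizer (U : Set G))
    (hcop : (Nat.card U).Coprime (Nat.card V)) (hfix : ∀ u ∈ U, x * u = u * x → u = 1)
    (h : ∀ v ∈ V, (v * x) ^ p = 1) : U ≤ centralizer (V : Set G) := by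
  have hW := H1.Coprime2.commutator_le_left hUV
  set W : Subgroup G := ⁅V, U⁆ with hWdef
  have hUW : U ≤ normalizer (W : Set G) := H1.Coprime2.le_normalizer_commutator_right V U
  have hxW : x ∈ normalizer (W : Set G) := by
    have : zpowers x ≤ normalizer (W : Set G) :=
      H1.Coprime2.le_normalizer_commutator (zpowers_le.2 hxV) (zpowers_le.2 hxU)
    exact this (mem_zpowers x)
  have hWV : W ≤ V := hW
  have hbot : W ⊓ centralizer (U : Set G) = ⊥ := comm_inf_centralizer_eq_bot hVc hUV hcop
  have h1 : ∀ v ∈ W, (∀ w ∈ U, w * v = v * w) → v = 1 := by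
    intro v hv hc
    have : v ∈ W ⊓ centralizer (U : Set G) := ⟨hv, mem_centralizer_iff.2 fun w hw => hc w hw⟩
    rw [hbot] at this
    exact Subgroup.mem_bot.1 this
  have hpow := pow_card_eq_one_of_norm W U x p hp.out.pos hxp
    (fun a ha b hb => hVc a (hWV ha) b (hWV hb)) hUW hxW
    (fun w hw => conj_mem_of_mem_normalizer hxU hw) h1
    (fun v hv => h v (hWV hv))
    (fun i h0 hi w hw hc => hfix w hw (comm_of_pow_comm hxp h0 hi hc))
  have hW1 : W = ⊥ := by
    rw [eq_bot_iff]
    intro v hv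
    have h2 : orderOf v ∣ Nat.card U := orderOf_dvd_of_pow_eq_one (hpow v hv)
    have h3 : orderOf v ∣ Nat.card V := by
      have : orderOf (⟨v, hWV hv⟩ : V) ∣ Nat.card V := orderOf_dvd_natCard _
      rwa [Subgroup.orderOf_mk] at this
    have h4 := Nat.dvd_gcd h2 h3
    rw [hcop, Nat.dvd_one, orderOf_eq_one_iff] at h4
    exact Subgroup.mem_bot.2 h4
  rw [hWdef, Subgroup.commutator_eq_bot_iff_le_centralizer] at hW1
  exact Subgroup.le_centralizer_iff.1 hW1

/-- in the quotient by a normal `N ≤ H` with `H/N` abelian -/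
theorem comm_le_of_quotient_norm [Finite G] {H U N : Subgroup G} {x : G} {p : ℕ} [hp : Fact p.Prime]
    [hNn : N.Normal] (hNH : N ≤ H) (hHN : ⁅H, H⁆ ≤ N)
    (hxp : x ^ p = 1) (hUH : U ≤ normalizer (H : Set G)) (hxH : x ∈ normalizer (H : Set G))
    (hxU : x ∈ normalizer (U : Set G)) (hcop : (Nat.card U).Coprime (Nat.card H))
    (hfix : ∀ u ∈ U, x * u = u * x → u = 1)
    (h : ∀ v ∈ H, (v * x) ^ p = 1) : ⁅H, U⁆ ≤ N := by
  classical
  let π := QuotientGroup.mk' N
  have hker : ∀ g : G, π g = 1 ↔ g ∈ N := fun g => by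
    rw [← MonoidHom.mem_ker, QuotientGroup.ker_mk']
  have hUN : U ⊓ N = ⊥ := by
    rw [eq_bot_iff]
    rintro u ⟨hu, huN⟩
    have h2 : orderOf u ∣ Nat.card U := by
      have : orderOf (⟨u, hu⟩ : U) ∣ Nat.card U := orderOf_dvd_natCard _
      rwa [Subgroup.orderOf_mk] at this
    have h3 : orderOf u ∣ Nat.card H := by
      have : orderOf (⟨u, hNH huN⟩ : H) ∣ Nat.card H := orderOf_dvd_natCard _
      rwa [Subgroup.orderOf_mk] at this
    have h4 := Nat.dvd_gcd h2 h3
    rw [hcop, Nat.dvd_one, orderOf_eq_one_iff] at h4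
    exact Subgroup.mem_bot.2 h4
  have hmapn : ∀ (K : Subgroup G) (g : G), g ∈ normalizer (K : Set G) →
      π g ∈ normalizer ((K.map π : Subgroup (G ⧸ N)) : Set (G ⧸ N)) := by
    intro K g hg
    rw [Subgroup.mem_normalizer_iff]
    intro y
    constructor
    · rintro ⟨k, hk, rfl⟩
      exact ⟨g * k * g⁻¹, conj_mem_of_mem_normalizer hg hk, by simp⟩
    · rintro ⟨k, hk, hky⟩
      refine ⟨g⁻¹ * k * g, ?_, ?_⟩
      · have := conj_mem_of_mem_normalizer (inv_mem hg) hk
        simpa using this
      · have : y = (π g)⁻¹ * (π g * y * (π g)⁻¹) * π g := by group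
        rw [this, ← hky]; simp
  have key := frob_abelian_norm (V := H.map π) (U := U.map π) (x := π x) (p := p)
    (by rw [← map_pow, hxp, map_one])
    (by
      rintro _ ⟨a, ha, rfl⟩ _ ⟨b, hb, rfl⟩
      have h1 : ⁅a, b⁆ ∈ N := hHN (Subgroup.commutator_mem_commutator ha hb)
      have h2 := (hker _).2 h1
      rw [map_commutatorElement, commutatorElement_eq_one_iff_mul_comm] at h2
      exact h2)
    (by
      rintro _ ⟨u, hu, rfl⟩
      exact hmapn H u (hUH hu))
    (hmapn H x hxH) (hmapn U x hxU)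
    (Nat.Coprime.coprime_dvd_left (Subgroup.card_map_dvd U π)
      (Nat.Coprime.coprime_dvd_right (Subgroup.card_map_dvd H π) hcop))
    (by
      rintro _ ⟨u, hu, rfl⟩ hc
      have h1 : x * u * x⁻¹ * u⁻¹ ∈ N := by
        rw [← hker, map_mul, map_mul, map_mul, map_inv, map_inv, hc, mul_inv_cancel_right,
          mul_inv_cancel]
      have h2 : x * u * x⁻¹ * u⁻¹ ∈ U :=
        mul_mem (conj_mem_of_mem_normalizer hxU hu) (inv_mem hu)
      have h3 : x * u * x⁻¹ * u⁻¹ ∈ U ⊓ N := ⟨h2, h1⟩
      rw [hUN, Subgroup.mem_bot] at h3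
      have h4 : x * u = u * x := by
        rw [mul_inv_eq_one, mul_inv_eq_iff_eq_mul] at h3
        exact h3
      rw [hfix u hu h4, map_one])
    (by
      rintro _ ⟨v, hv, rfl⟩
      rw [← map_mul, ← map_pow, h v hv, map_one])
  rw [Subgroup.commutator_le]
  intro v hv u hu
  rw [← hker, map_commutatorElement, commutatorElement_eq_one_iff_mul_comm]
  exact (mem_centralizer_iff.1 (key ⟨u, hu, rfl⟩)) (π v) ⟨v, hv, rfl⟩

/-- **Frobenius action with vanishing norm.** `x` of prime order `p` (or trivial) normalizes `U`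
with `C_U(x) = 1`, both normalize the solvable group `H` of order prime to `|U|`; if `(vx)^p = 1` for all `v ∈ H`
then `U` centralizes `H`. -/
theorem frob_centralize_norm [Finite G] {p : ℕ} [hp : Fact p.Prime] {U : Subgroup G} {x : G}
    (hxp : x ^ p = 1) (hxU : x ∈ normalizer (U : Set G)) (hfix : ∀ u ∈ U, x * u = u * x → u = 1)
    (n : ℕ) : ∀ H : Subgroup G, Nat.card H = n → Group.IsSolvable H → U ≤ normalizer (H : Set G) →
      x ∈ normalizer (H : Set G) → (Nat.card U).Coprime (Nat.card H) →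
      (∀ v ∈ H, (v * x) ^ p = 1) → U ≤ centralizer (H : Set G) := by
  induction n using Nat.strong_induction_on with
  | _ n ih =>
  intro H hn hs hUH hxH hcop h
  by_cases h1 : H = ⊥
  · subst h1
    intro u _
    rw [mem_centralizer_iff]
    intro y hy
    have : y = 1 := by simpa using hy
    rw [this, one_mul, mul_one]
  have hN := solvable_commutator_lt hs h1
  set N : Subgroup G := ⁅H, H⁆ with hNdef
  have hxz : zpowers x ≤ normalizer (N : Set G) :=
    H1.Coprime2.le_normalizer_commutator (zpowers_le.2 hxH) (zpowers_le.2 hxH)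
  have hxN : x ∈ normalizer (N : Set G) := hxz (mem_zpowers x)
  have hUN : U ≤ normalizer (N : Set G) := H1.Coprime2.le_normalizer_commutator hUH hUH
  have hHN : H ≤ normalizer (N : Set G) := H1.Coprime2.le_normalizer_commutator_left H H
  have hNK : N ≤ normalizer (N : Set G) := Subgroup.le_normalizer
  have hD : ⁅H, U⁆ ≤ N := by
    have key := comm_le_of_quotient_norm (G := ↥(normalizer (N : Set G)))
      (H := H.subgroupOf (normalizer (N : Set G))) (U := U.subgroupOf (normalizer (N : Set G)))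
      (N := N.subgroupOf (normalizer (N : Set G))) (x := ⟨x, hxN⟩) (p := p)
      (Subgroup.comap_mono hN.le)
      (by
        rw [Subgroup.commutator_le]
        intro a ha b hb
        rw [Subgroup.mem_subgroupOf] at ha hb ⊢
        exact Subgroup.commutator_mem_commutator ha hb)
      (Subtype.ext (by simpa using hxp))
      (by
        intro u hu
        exact mem_normalizer_subgroupOf u.2 (hUH hu))
      (mem_normalizer_subgroupOf _ hxH) (mem_normalizer_subgroupOf _ hxU)
      (by rwa [card_subgroupOf hUN, card_subgroupOf hHN])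
      (by
        intro u hu hc
        exact Subtype.ext (hfix u hu (congrArg Subtype.val hc)))
      (by
        intro v hv
        exact Subtype.ext (h v hv))
    rw [Subgroup.commutator_le]
    intro a ha b hb
    exact key (Subgroup.commutator_mem_commutator (g₁ := ⟨a, hHN ha⟩) (g₂ := ⟨b, hUN hb⟩) ha hb)
  have hDH : ⁅H, U⁆ < H := lt_of_le_of_lt hD hN
  have hzD : zpowers x ≤ normalizer ((⁅H, U⁆ : Subgroup G) : Set G) :=
    H1.Coprime2.le_normalizer_commutator (zpowers_le.2 hxH) (zpowers_le.2 hxU)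
  have hUD := ih (Nat.card (⁅H, U⁆ : Subgroup G))
    (by rw [← hn]; exact Set.ncard_lt_ncard hDH (Set.toFinite _)) ⁅H, U⁆ rfl
    (H1.Coprime.isSolvable_of_le hDH.le hs) (H1.Coprime2.le_normalizer_commutator_right H U)
    (hzD (mem_zpowers x))
    (Nat.Coprime.coprime_dvd_right (Subgroup.card_dvd_of_le hDH.le) hcop)
    (fun v hv => h v (hDH.le hv))
  have h2 : ⁅⁅H, U⁆, U⁆ = ⊥ :=
    (Subgroup.commutator_eq_bot_iff_le_centralizer).2 (Subgroup.le_centralizer_iff.1 hUD)
  have h3 := H1.Coprime2.commutator_eq_bot_of U H hUH hcop (Or.inr hs) h2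
  exact Subgroup.le_centralizer_iff.1 ((Subgroup.commutator_eq_bot_iff_le_centralizer).1 h3)

variable {r : ℕ}

/-- **dichotomy**: a `2`-group `U` on which an element `y` of odd prime order acts without fixed points centralises
every `r`-subgroup normalised by both -/
theorem NS.dich [Finite G] (h : NS G r) {D U : Subgroup G} (hD : IsPGroup r D) (hU : IsPGroup 2 U) {y : G}
    {p : ℕ} (hp : p.Prime) (hp2 : p ≠ 2) (hy : orderOf y = p) (hyU : y ∈ normalizer (U : Set G))
    (hyD : y ∈ normalizer (D : Set G)) (hUD : U ≤ normalizer (D : Set G))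
    (hfix : ∀ u ∈ U, y * u = u * y → u = 1) : U ≤ centralizer (D : Set G) := by
  haveI : Fact p.Prime := ⟨hp⟩
  haveI : Fact r.Prime := ⟨h.pr⟩
  have hyp : y ^ p = 1 := by rw [← hy, pow_orderOf_eq_one]
  have hcop : (Nat.card U).Coprime (Nat.card D) := by
    obtain ⟨a, ha⟩ := IsPGroup.iff_card.1 hU
    obtain ⟨b, hb⟩ := IsPGroup.iff_card.1 hD
    rw [ha, hb]
    exact Nat.Coprime.pow _ _ ((Nat.coprime_primes Nat.prime_two h.pr).2 (Ne.symm h.ne2))
  have hDs : Group.IsSolvable D := by
    haveI := hD.isNilpotent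
    infer_instance
  refine frob_centralize_norm hyp hyU hfix _ D rfl hDs hUD hyD hcop ?_
  intro v hv
  -- the norm lies in `D`
  have hmem : ∀ n : ℕ, (v * y) ^ n * (y ^ n)⁻¹ ∈ D := by
    intro n
    induction n with
    | zero => simp
    | succ n ih =>
      have e : (v * y) ^ (n + 1) * (y ^ (n + 1))⁻¹ =
          v * (y * ((v * y) ^ n * (y ^ n)⁻¹) * y⁻¹) := by
        rw [pow_succ' (v * y), pow_succ' y]
        group
      rw [e]
      exact mul_mem hv (conj_mem_of_mem_normalizer hyD ih)
  have hz : (v * y) ^ p ∈ D := by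
    have := hmem p
    rwa [hyp, inv_one, mul_one] at this
  by_contra hne
  have hzo := h.order_r hD hz hne
  have hrd : r ∣ orderOf (v * y) := by
    rw [← hzo]
    exact orderOf_dvd_of_pow_eq_one (by rw [← pow_mul, mul_comm, pow_mul, pow_orderOf_eq_one, one_pow])
  have hpr : (v * y) ^ (p * r) = 1 := by
    rw [pow_mul, ← hzo, pow_orderOf_eq_one]
  have hdiv := orderOf_dvd_of_pow_eq_one hpr
  rcases h.od (v * y) hrd with h1 | h1
  · -- order `r`
    by_cases hpr' : p = r
    · apply hne
      rw [hpr', ← h1, pow_orderOf_eq_one]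
    · have hcop2 : Nat.Coprime p r := (Nat.coprime_primes hp h.pr).2 hpr'
      have hmemD : v * y ∈ D := by
        obtain ⟨m, hm⟩ := Nat.exists_mul_mod_eq_one_of_coprime hcop2 h.pr.one_lt
        have e : (v * y) ^ (p * m) = v * y := by
          rw [← Nat.mod_add_div (p * m) r, hm.2, pow_add, pow_one, pow_mul, ← h1, pow_orderOf_eq_one,
            one_pow, mul_one]
        rw [← e, pow_mul]
        exact pow_mem hz m
      have hyD' : y ∈ D := by
        have := mul_mem (inv_mem hv) hmemD
        rwa [inv_mul_cancel_left] at this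
      have h3 : orderOf y = r := h.order_r hD hyD' (by
        intro h4
        rw [h4, orderOf_one] at hy
        exact hp.one_lt.ne hy)
      exact hpr' (hy.symm.trans h3)
  · have h2 : 2 ∣ p * r := (h1 ▸ dvd_mul_right 2 r : 2 ∣ orderOf (v * y)).trans hdiv
    rcases (Nat.prime_two.dvd_mul).1 h2 with h3 | h3
    · exact hp2 ((Nat.prime_dvd_prime_iff_eq Nat.prime_two hp).1 h3).symm
    · exact h.ne2 ((Nat.prime_dvd_prime_iff_eq Nat.prime_two h.pr).1 h3).symm

end H36.NS
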