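import Mathlib
import Cfsg.Agent.Lib.H36.NSb
import Cfsg.Agent.Lib.H26.SolvBal
import Cfsg.Agent.Lib.H5.PLocal
import Cfsg.Agent.S0058

/-!
# Local structure in groups with abelian Sylow `2`-subgroups
-/

set_option autoImplicit false

open Subgroup Cfsg
open scoped commutatorElement

namespace H36.NS

/-- solvable group with abelian Sylow `2`-subgroup `P`: `L = N_L(P) O(L)` -/
theorem sup_core {L : Type*} [Group L] [Finite L] (hs : Group.IsSolvable L) (P : Sylow 2 L)
    (hab : ∀ x ∈ (P : Subgroup L), ∀ y ∈ (P : Subgroup L), x * y = y * x) :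
    normalizer ((P : Subgroup L) : Set L) ⊔ pPrimeCore 2 L = ⊤ := by
  haveI : Fact (Nat.Prime 2) := ⟨Nat.prime_two⟩
  set N := pPrimeCore 2 L with hN
  haveI : N.Normal := by rw [hN]; infer_instance
  let π := QuotientGroup.mk' N
  have hπ : Function.Surjective π := QuotientGroup.mk'_surjective N
  let Q : Sylow 2 (L ⧸ N) := P.mapSurjective hπ
  have hQ : (Q : Subgroup (L ⧸ N)) = (P : Subgroup L).map π := rfl
  have h1 : pCore 2 (L ⧸ N) ≤ (P : Subgroup L).map π := by
    rw [← hQ]; exact H1.Cores.pCore_le_sylow Q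
  have h2 : (P : Subgroup L).map π ≤ pCore 2 (L ⧸ N) := by
    refine le_trans ?_ (H26.SolvBal.centralizer_pCore_quotient_le_of_isSolvable (p := 2) hs)
    rintro _ ⟨x, hx, rfl⟩
    rw [mem_centralizer_iff]
    intro y hy
    obtain ⟨z, hz, rfl⟩ := h1 hy
    rw [← map_mul, ← map_mul, hab z hz x hx]
  have h3 : (P : Subgroup L).map π = pCore 2 (L ⧸ N) := le_antisymm h2 h1
  set K : Subgroup L := (pCore 2 (L ⧸ N)).comap π with hK
  haveI : K.Normal := by rw [hK]; infer_instance
  have hPK : (P : Subgroup L) ≤ K := by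
    rw [hK, ← h3]; exact le_comap_map _ _
  have hKP : K = (P : Subgroup L) ⊔ N := by
    rw [hK, ← h3, comap_map_eq, QuotientGroup.ker_mk']
  have h4 := Sylow.normalizer_sup_eq_top' P hPK
  rw [eq_top_iff, ← h4]
  apply sup_le le_sup_left
  rw [hKP]
  exact sup_le (le_normalizer.trans le_sup_left) le_sup_right

variable {G : Type*} [Group G] [Finite G] {r : ℕ}

/-- `O(L)` as a subgroup of `G` -/
abbrev oc (L : Subgroup G) : Subgroup G := H26.LocalFitting.ppc 2 L

theorem oc_le (L : Subgroup G) : oc L ≤ L := H26.LocalFitting.ppc_le 2 L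

theorem norm_oc (L : Subgroup G) : normalizer (L : Set G) ≤ normalizer ((oc L : Subgroup G) : Set G) :=
  H26.LocalFitting.normalizer_le_normalizer_ppc 2 L

theorem le_norm_oc (L : Subgroup G) : L ≤ normalizer ((oc L : Subgroup G) : Set G) :=
  le_normalizer.trans (norm_oc L)

theorem odd_oc (L : Subgroup G) : Odd (Nat.card (oc L)) :=
  Nat.coprime_two_right.1 (H26.LocalFitting.card_ppc 2 L)

theorem le_oc {N L : Subgroup G} (hN : N ≤ L) (hn : L ≤ normalizer (N : Set G)) (ho : Odd (Nat.card N)) :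
    N ≤ oc L :=
  H26.LocalFitting.le_ppc hN hn (Nat.coprime_two_right.2 ho)

theorem mem_oc_iff {L : Subgroup G} {x : L} : (x : G) ∈ oc L ↔ x ∈ pPrimeCore 2 L := by
  constructor
  · rintro ⟨y, hy, hyx⟩
    have : y = x := Subtype.ext hyx
    rw [← this]; exact hy
  · intro hx
    exact ⟨x, hx, rfl⟩

theorem mem_normalizer_subgroupOf' {L T : Subgroup G} (hTL : T ≤ L) {x : L} :
    x ∈ normalizer ((T.subgroupOf L : Subgroup L) : Set L) ↔ (x : G) ∈ normalizer (T : Set G) := by
  rw [Subgroup.mem_normalizer_iff, Subgroup.mem_normalizer_iff]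
  constructor
  · intro h y
    constructor
    · intro hy
      exact mem_subgroupOf.1 ((h ⟨y, hTL hy⟩).1 (mem_subgroupOf.2 hy))
    · intro hy
      have h1 : y ∈ L := by
        have := mul_mem (mul_mem (inv_mem x.2) (hTL hy)) x.2
        simpa [mul_assoc] using this
      exact mem_subgroupOf.1 ((h ⟨y, h1⟩).2 (mem_subgroupOf.2 hy))
  · intro h y
    rw [mem_subgroupOf, mem_subgroupOf]
    exact h y

/-- in a solvable subgroup `L ≥ T`: `L = N_L(T) O(L)` -/
theorem exists_mul {L : Subgroup G} (T : Sylow 2 G) (hTL : (T : Subgroup G) ≤ L) (hs : Group.IsSolvable L)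
    (hab : ∀ x ∈ (T : Subgroup G), ∀ y ∈ (T : Subgroup G), x * y = y * x) {g : G} (hg : g ∈ L) :
    ∃ n ∈ L, n ∈ normalizer ((T : Subgroup G) : Set G) ∧ ∃ u ∈ oc L, g = n * u := by
  haveI : Fact (Nat.Prime 2) := ⟨Nat.prime_two⟩
  have h := sup_core hs (T.subtype hTL) (by
    intro x hx y hy
    exact Subtype.ext (hab x hx y hy))
  have hg' : (⟨g, hg⟩ : L) ∈ normalizer (((T.subtype hTL : Sylow 2 L) : Subgroup L) : Set L) ⊔
      pPrimeCore 2 L := by rw [h]; trivial
  rw [Subgroup.mem_sup_of_normal_right] at hg'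
  obtain ⟨n, hn, u, hu, hnu⟩ := hg'
  refine ⟨n, n.2, ?_, u, mem_oc_iff.2 hu, (congrArg Subtype.val hnu).symm⟩
  exact (mem_normalizer_subgroupOf' hTL).1 hn

/-- in a solvable subgroup `L ≥ T` with `[O(L), T] = 1`, `T` is normal -/
theorem le_normalizer_of_cent {L : Subgroup G} (T : Sylow 2 G) (hTL : (T : Subgroup G) ≤ L)
    (hs : Group.IsSolvable L) (hab : ∀ x ∈ (T : Subgroup G), ∀ y ∈ (T : Subgroup G), x * y = y * x)
    (hc : (T : Subgroup G) ≤ centralizer ((oc L : Subgroup G) : Set G)) :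
    L ≤ normalizer ((T : Subgroup G) : Set G) := by
  intro g hg
  obtain ⟨n, -, hn, u, hu, rfl⟩ := exists_mul T hTL hs hab hg
  refine mul_mem hn ?_
  apply centralizer_le_normalizer
  rw [mem_centralizer_iff]
  intro x hx
  exact (mem_centralizer_iff.1 (hc hx) u hu).symm

/-- Burnside transfer in a subgroup `L ≥ T` with `N_L(T) ≤ C(T)` -/
theorem exists_mul_of_central {L : Subgroup G} (T : Sylow 2 G) (hTL : (T : Subgroup G) ≤ L)
    (hN : ∀ n ∈ L, n ∈ normalizer ((T : Subgroup G) : Set G) → n ∈ centralizer ((T : Subgroup G) : Set G))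
    {g : G} (hg : g ∈ L) : ∃ u ∈ oc L, ∃ x ∈ (T : Subgroup G), g = u * x := by
  haveI : Fact (Nat.Prime 2) := ⟨Nat.prime_two⟩
  let P : Sylow 2 L := T.subtype hTL
  have hP : normalizer ((P : Subgroup L) : Set L) ≤ centralizer ((P : Subgroup L) : Set L) := by
    intro n hn
    have h1 := hN n n.2 ((mem_normalizer_subgroupOf' hTL).1 hn)
    rw [mem_centralizer_iff]
    intro x hx
    exact Subtype.ext (mem_centralizer_iff.1 h1 x hx)
  have hcomp := MonoidHom.ker_transferSylow_isComplement' P hP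
  have hnd := MonoidHom.not_dvd_card_ker_transferSylow P hP
  obtain ⟨⟨⟨k, hk⟩, ⟨x, hx⟩⟩, hkx⟩ := hcomp.2 ⟨g, hg⟩
  have hkO : k ∈ pPrimeCore 2 L := by
    refine H1.Cores.le_pPrimeCore inferInstance ?_ hk
    rw [Nat.coprime_two_right]
    rw [← Nat.not_even_iff_odd, even_iff_two_dvd]
    exact hnd
  exact ⟨k, mem_oc_iff.2 hkO, x, hx, (congrArg Subtype.val hkx).symm⟩

end H36.NS
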