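import Mathlib
import Cfsg.Agent.Lib.H36.NSc

/-!
# Local structure in groups with abelian Sylow `2`-subgroups, part 2
-/

set_option autoImplicit false

open Subgroup Cfsg
open scoped commutatorElement

namespace H36.NS

variable {G : Type*} [Group G] [Finite G] {r : ℕ}

theorem mem_cent {x t : G} : x ∈ centralizer ({t} : Set G) ↔ x * t = t * x := by
  rw [mem_centralizer_singleton_iff]

theorem mem_centz {x : G} {T : Subgroup G} : x ∈ centralizer (T : Set G) ↔ ∀ t ∈ T, t * x = x * t :=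
  mem_centralizer_iff

theorem conj_mem_norm {H : Subgroup G} {n x : G} (hn : n ∈ normalizer (H : Set G)) (hx : x ∈ H) :
    n * x * n⁻¹ ∈ H := (mem_normalizer_iff.1 hn x).1 hx

/-- a `2`-element normalising the Sylow subgroup `T` lies in `T` -/
theorem mem_of_two (T : Sylow 2 G) {x : G} (hx : x ∈ normalizer ((T : Subgroup G) : Set G)) {k : ℕ}
    (hk : x ^ 2 ^ k = 1) : x ∈ (T : Subgroup G) := by
  haveI : Fact (Nat.Prime 2) := ⟨Nat.prime_two⟩
  have hp : IsPGroup 2 (zpowers x) := by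
    rw [isPGroup_iff_pow_pow_eq_one]
    rintro ⟨y, hy⟩
    obtain ⟨j, rfl⟩ := mem_zpowers_iff.1 hy
    refine ⟨k, Subtype.ext ?_⟩
    show (x ^ j) ^ 2 ^ k = 1
    rw [← zpow_natCast, ← zpow_mul, mul_comm, zpow_mul, zpow_natCast, hk, one_zpow]
  have h1 : zpowers x ⊓ normalizer ((T : Subgroup G) : Set G) = zpowers x ⊓ (T : Subgroup G) :=
    IsPGroup.inf_normalizer_sylow hp T
  have h2 : x ∈ zpowers x ⊓ normalizer ((T : Subgroup G) : Set G) := ⟨mem_zpowers x, hx⟩
  rw [h1] at h2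
  exact h2.2

theorem two_pow_odd (x : G) : ∃ (k b : ℕ), Odd b ∧ (x ^ b) ^ 2 ^ k = 1 := by
  obtain ⟨k, b, hb, hkb⟩ := Nat.exists_eq_two_pow_mul_odd (orderOf_pos x).ne'
  refine ⟨k, b, hb, ?_⟩
  rw [← pow_mul, mul_comm b, ← hkb, pow_orderOf_eq_one]

/-- odd order elements in `O(L) T` lie in `O(L)` -/
theorem mem_oc_of_odd {L T : Subgroup G} (hT : ∀ x ∈ T, x * x = 1)
    (hTL : T ≤ L) {g u x : G} (hu : u ∈ oc L) (hx : x ∈ T) (hg : g = u * x) (ho : Odd (orderOf g)) :
    g ∈ oc L := by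
  have hsq : g ^ 2 ∈ oc L := by
    have e : g ^ 2 = u * (x * u * x⁻¹) * (x * x) := by rw [hg, pow_two]; group
    rw [e, hT x hx, mul_one]
    exact mul_mem hu (conj_mem_norm (le_norm_oc L (hTL hx)) hu)
  obtain ⟨j, hj⟩ := ho
  have e : g = g ^ orderOf g * ((g ^ 2) ^ j)⁻¹ := by
    rw [hj, pow_add, pow_mul, pow_one]
    have hc : Commute ((g ^ 2) ^ j) g := ((Commute.refl g).pow_left 2).pow_left j
    rw [hc.eq]; group
  rw [e, pow_orderOf_eq_one, one_mul]
  exact inv_mem (pow_mem hsq j)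

/-- an element of odd prime order acting non-trivially on `T` -/
theorem NS.exists_prime (h : NS G r) (T : Sylow 2 G) (hT1 : (T : Subgroup G) ≠ ⊥) {L : Subgroup G}
    (hL : L ≤ normalizer ((T : Subgroup G) : Set G))
    (hne : ∃ n ∈ L, n ∉ centralizer ((T : Subgroup G) : Set G)) :
    ∃ y ∈ L, (orderOf y).Prime ∧ orderOf y ≠ 2 ∧ y ∉ centralizer ((T : Subgroup G) : Set G) := by
  haveI : Fact (Nat.Prime 2) := ⟨Nat.prime_two⟩
  obtain ⟨z, ⟨hzL, hzC⟩, hmin⟩ := WellFounded.has_min (InvImage.wf (fun x : G => orderOf x) Nat.lt_wfRel.wf)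
    {n : G | n ∈ L ∧ n ∉ centralizer ((T : Subgroup G) : Set G)} (by
      obtain ⟨n, h1, h2⟩ := hne
      exact ⟨n, h1, h2⟩)
  have hz1 : z ≠ 1 := by
    rintro rfl; exact hzC (one_mem _)
  -- proper powers centralise `T`
  have hpow : ∀ l : ℕ, l.Prime → l ∣ orderOf z → z ^ l ∈ centralizer ((T : Subgroup G) : Set G) := by
    intro l hl hd
    by_contra hcon
    apply hmin (z ^ l) ⟨pow_mem hzL l, hcon⟩
    show orderOf (z ^ l) < orderOf z
    rw [orderOf_pow_of_dvd hl.ne_zero hd]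
    exact Nat.div_lt_self (orderOf_pos z) hl.one_lt
  have hne1 : orderOf z ≠ 1 := by rwa [Ne, orderOf_eq_one_iff]
  obtain ⟨l, hl, hld⟩ := Nat.exists_prime_and_dvd hne1
  have huniq : ∀ l' : ℕ, l'.Prime → l' ∣ orderOf z → l' = l := by
    intro l' hl' hd'
    by_contra hne'
    apply hzC
    have hcop : IsCoprime (l : ℤ) (l' : ℤ) := Nat.isCoprime_iff_coprime.2 ((Nat.coprime_primes hl hl').2 (Ne.symm hne'))
    obtain ⟨a, b, hab⟩ := hcop
    have e : z = (z ^ l) ^ a * (z ^ l') ^ b := by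
      rw [← zpow_natCast, ← zpow_natCast, ← zpow_mul, ← zpow_mul, ← zpow_add, mul_comm (l : ℤ), mul_comm (l' : ℤ),
        hab, zpow_one]
    rw [e]
    exact mul_mem (zpow_mem (hpow l hl hld) a) (zpow_mem (hpow l' hl' hd') b)
  obtain ⟨k, hk⟩ : ∃ k, orderOf z = l ^ k :=
    ⟨_, Nat.eq_prime_pow_of_unique_prime_dvd (orderOf_pos z).ne' (fun {d} hd hdd => huniq d hd hdd)⟩
  have hzk : z ^ l ^ k = 1 := by rw [← hk, pow_orderOf_eq_one]
  have hl2 : l ≠ 2 := by
    rintro rfl
    apply hzC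
    have hzT := mem_of_two T (hL hzL) hzk
    rw [mem_centz]
    intro t ht
    exact h.comm_two T.isPGroup' ht hzT
  have hzl : z ^ l = 1 := by
    by_contra hcon
    have hk0 : 2 ≤ k := by
      by_contra hk2
      apply hcon
      have : k = 0 ∨ k = 1 := by omega
      rcases this with h0 | h0
      · rw [h0, pow_zero, orderOf_eq_one_iff] at hk
        exact absurd hk hz1
      · rw [h0, pow_one] at hk
        rw [← hk, pow_orderOf_eq_one]
    -- the element of order `l` in `⟨z ^ l⟩`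
    obtain ⟨t, ht, ht1⟩ : ∃ t ∈ (T : Subgroup G), t ≠ 1 := by
      by_contra hcon2
      push Not at hcon2
      exact hT1 ((eq_bot_iff_forall _).2 hcon2)
    have ht2 := h.order_two T.isPGroup' ht ht1
    have hw : orderOf (z ^ l ^ (k - 1)) = l := by
      rw [orderOf_pow_of_dvd (pow_ne_zero _ hl.ne_zero) (by rw [hk]; exact pow_dvd_pow l (by omega)), hk]
      obtain ⟨j, rfl⟩ : ∃ j, k = j + 1 := ⟨k - 1, by omega⟩
      rw [Nat.add_sub_cancel, pow_succ, Nat.mul_div_cancel_left _ (pow_pos hl.pos j)]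
    have hwC : z ^ l ^ (k - 1) ∈ centralizer ((T : Subgroup G) : Set G) := by
      obtain ⟨j, rfl⟩ : ∃ j, k = j + 2 := ⟨k - 2, by omega⟩
      have e : z ^ l ^ (j + 2 - 1) = (z ^ l) ^ l ^ j := by
        rw [← pow_mul]; congr 1; rw [show j + 2 - 1 = j + 1 by omega, pow_succ]; ring
      rw [e]
      exact pow_mem (hpow l hl hld) _
    rcases h.no_comm (Or.inl ht2) hl hw (mem_centz.1 hwC t ht) with h3 | h3
    · exact hl2 h3
    · rw [h3] at hzk hcon
      exact hcon (h.pow_r hzk)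
  have hzo : orderOf z = l := by
    haveI : Fact l.Prime := ⟨hl⟩
    exact orderOf_eq_prime hzl hz1
  exact ⟨z, hzL, by rw [hzo]; exact hl, by rw [hzo]; exact hl2, hzC⟩

theorem isPGroup_of_primes {K : Subgroup G} (hr : r.Prime)
    (hp : ∀ l : ℕ, l.Prime → l ∣ Nat.card K → l = r) : IsPGroup r K :=
  IsPGroup.of_card (Nat.eq_prime_pow_of_unique_prime_dvd Nat.card_pos.ne' (fun {d} hd hdd => hp d hd hdd))

/-- coprime action of a non-cyclic abelian `2`-group -/
theorem exists_cent_ne {T K : Subgroup G} (hT : IsPGroup 2 T) (hTc : ∀ x ∈ T, ∀ y ∈ T, x * y = y * x)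
    (hnc : ¬ IsCyclic T) (hTK : T ≤ normalizer (K : Set G)) (ho : Odd (Nat.card K)) (hK : K ≠ ⊥) :
    ∃ a ∈ T, a ≠ 1 ∧ K ⊓ centralizer ({a} : Set G) ≠ ⊥ := by
  by_contra hcon
  push Not at hcon
  apply hK
  haveI : IsMulCommutative T := ⟨⟨fun a b => Subtype.ext (hTc a a.2 b b.2)⟩⟩
  have hcop : (Nat.card T).Coprime (Nat.card K) := by
    haveI : Fact (Nat.Prime 2) := ⟨Nat.prime_two⟩
    obtain ⟨k, hk⟩ := IsPGroup.iff_card.1 hT
    rw [hk]
    exact Nat.Coprime.pow_left _ (Nat.coprime_two_left.2 ho)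
  rw [← Cfsg.Agent.S0058.result T K hnc hTK hcop]
  rw [eq_bot_iff]
  apply iSup₂_le
  rintro a ⟨ha, ha1⟩
  rw [hcon a ha ha1]

/-- odd order groups normalised by a non-cyclic Sylow `2`-subgroup are `r`-groups -/
theorem NS.isPGroup_of_odd (h : NS G r) {T K : Subgroup G} (hT : IsPGroup 2 T) (hnc : ¬ IsCyclic T)
    (hTK : T ≤ normalizer (K : Set G)) (ho : Odd (Nat.card K)) : IsPGroup r K := by
  have hTc : ∀ x ∈ T, ∀ y ∈ T, x * y = y * x := fun x hx y hy => h.comm_two hT hx hy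
  refine isPGroup_of_primes h.pr ?_
  intro l hl hld
  haveI : Fact l.Prime := ⟨hl⟩
  haveI : Fact (Nat.Prime 2) := ⟨Nat.prime_two⟩
  have hcop : (Nat.card T).Coprime (Nat.card K) := by
    obtain ⟨k, hk⟩ := IsPGroup.iff_card.1 hT
    rw [hk]
    exact Nat.Coprime.pow_left _ (Nat.coprime_two_left.2 ho)
  have hTs : Group.IsSolvable T := by
    haveI := hT.isNilpotent
    infer_instance
  obtain ⟨S, hS, hTS⟩ := H1.Coprime2.exists_invariant_sylow T K hTK hcop (Or.inl hTs) l
  have hS1 : S ≠ ⊥ := by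
    rintro rfl
    have := hS.2
    rw [Subgroup.card_bot] at this
    have h3 : 0 < (Nat.card K).factorization l :=
      Nat.Prime.factorization_pos_of_dvd hl Nat.card_pos.ne' hld
    have h4 := Nat.one_lt_pow h3.ne' hl.one_lt
    omega
  have hSo : Odd (Nat.card S) := Odd.of_dvd_nat ho (Subgroup.card_dvd_of_le hS.1)
  obtain ⟨a, ha, ha1, hne⟩ := exists_cent_ne hT hTc hnc hTS hSo hS1
  have ha2 := h.order_two hT ha ha1
  have hld' : l ∣ Nat.card ↥(S ⊓ centralizer ({a} : Set G)) := by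
    obtain ⟨k, hk⟩ := IsPGroup.iff_card.1 (hS.isPGroup.to_le (inf_le_left : S ⊓ centralizer ({a} : Set G) ≤ S))
    rw [hk]
    apply dvd_pow_self
    rintro rfl
    apply hne
    rw [pow_zero] at hk
    exact Subgroup.card_eq_one.1 hk
  rcases h.prime_of_cent (Or.inl ha2) hl (inf_le_right : S ⊓ centralizer ({a} : Set G) ≤ _) hld' with h5 | h5
  · exfalso
    rw [h5] at hld
    exact (Nat.not_even_iff_odd.2 ho) (even_iff_two_dvd.2 hld)
  · exact h5

/-- for `|T| = 4` an element of `N(T)` fixing a non-trivial element of `T` centralises `T` -/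
theorem NS.cent_of_fix (h : NS G r) (T : Sylow 2 G) (h4 : Nat.card (T : Subgroup G) = 4) {n v : G}
    (hn : n ∈ normalizer ((T : Subgroup G) : Set G)) (hv : v ∈ (T : Subgroup G)) (hv1 : v ≠ 1)
    (hc : n * v = v * n) : n ∈ centralizer ((T : Subgroup G) : Set G) := by
  classical
  rw [mem_centz]
  intro s hs
  by_contra hcon
  have hns := conj_mem_norm hn hs
  have hv2 : v * v = 1 := by
    have := h.order_two T.isPGroup' hv hv1
    rw [← pow_two, ← this, pow_orderOf_eq_one]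
  have hs1 : s ≠ 1 := by rintro rfl; exact hcon (by simp)
  have hsv : s ≠ v := by rintro rfl; exact hcon hc.symm
  have hvs : v * s = s * v := h.comm_two T.isPGroup' hv hs
  -- `n s n⁻¹ = v s`
  have hset : ((T : Subgroup G) : Set G) = {1, v, s, v * s} := by
    symm
    apply Set.eq_of_subset_of_ncard_le
    · rintro x (rfl | rfl | rfl | rfl)
      · exact one_mem _
      · exact hv
      · exact hs
      · exact mul_mem hv hs
    · have e1 : ((T : Subgroup G) : Set G).ncard = 4 := h4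
      rw [e1, Set.ncard_insert_of_notMem, Set.ncard_insert_of_notMem, Set.ncard_pair]
      · intro hh
        exact hv1 (by simpa using hh.symm)
      · simp only [Set.mem_insert_iff, Set.mem_singleton_iff, not_or]
        refine ⟨Ne.symm hsv, ?_⟩
        intro hh
        exact hs1 (by simpa using hh.symm)
      · simp only [Set.mem_insert_iff, Set.mem_singleton_iff, not_or]
        refine ⟨Ne.symm hv1, Ne.symm hs1, ?_⟩
        intro hh
        apply hsv
        rw [← mul_right_inj v, ← hh, hv2]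
    · exact Set.toFinite _
  have hconj : n * s * n⁻¹ = v * s := by
    have : n * s * n⁻¹ ∈ ((T : Subgroup G) : Set G) := hns
    rw [hset] at this
    rcases this with h1 | h1 | h1 | h1
    · exfalso; apply hs1
      have : s = n⁻¹ * (n * s * n⁻¹) * n := by group
      rw [this, h1]; group
    · exfalso; apply hsv
      have : s = n⁻¹ * (n * s * n⁻¹) * n := by group
      rw [this, h1, mul_assoc, ← hc]; group
    · exfalso; apply hcon
      rw [← mul_inv_eq_iff_eq_mul.1 h1]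
    · exact h1
  have hconj2 : n * (v * s) * n⁻¹ = s := by
    calc n * (v * s) * n⁻¹ = n * v * s * n⁻¹ := by group
      _ = v * (n * s * n⁻¹) := by rw [hc]; group
      _ = s := by rw [hconj, ← mul_assoc, hv2, one_mul]
  have hodd : ∀ j : ℕ, n ^ (2 * j + 1) * s * (n ^ (2 * j + 1))⁻¹ = v * s := by
    intro j
    induction j with
    | zero => simpa using hconj
    | succ j ih =>
      have e : n ^ (2 * (j + 1) + 1) * s * (n ^ (2 * (j + 1) + 1))⁻¹ =
          n * (n * (n ^ (2 * j + 1) * s * (n ^ (2 * j + 1))⁻¹) * n⁻¹) * n⁻¹ := by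
        rw [show 2 * (j + 1) + 1 = (2 * j + 1) + 1 + 1 by ring, pow_succ' n (2 * j + 1 + 1),
          pow_succ' n (2 * j + 1)]
        group
      rw [e, ih, hconj2, hconj]
  obtain ⟨k, b, ⟨j, hj⟩, hkb⟩ := two_pow_odd n
  have hb : n ^ b ∈ (T : Subgroup G) := mem_of_two T (pow_mem hn b) hkb
  have h5 := hodd j
  rw [← hj] at h5
  have h6 : n ^ b * s = s * n ^ b := h.comm_two T.isPGroup' hb hs
  rw [h6, mul_inv_cancel_right] at h5
  exact hv1 (by simpa using h5.symm)

end H36.NS
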