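import Mathlib
import Cfsg.Agent.Lib.H36.NSd

/-!
# `NS` groups with Sylow `2`-subgroups of order four
-/

set_option autoImplicit false

open Subgroup Cfsg
open scoped commutatorElement

namespace H36.NS

variable {G : Type*} [Group G] [Finite G] {r : ℕ}

theorem mem_norm_of_conj {H : Subgroup G} {n : G} (h : ∀ x ∈ H, n * x * n⁻¹ ∈ H) :
    n ∈ normalizer (H : Set G) := by
  have hle : H.map (MulAut.conj n).toMonoidHom ≤ H := by
    rintro _ ⟨x, hx, rfl⟩
    exact h x hx
  have heq : H.map (MulAut.conj n).toMonoidHom = H := by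
    apply Subgroup.eq_of_le_of_card_ge hle
    rw [Subgroup.card_map_of_injective (MulAut.conj n).injective]
  rw [mem_normalizer_iff]
  intro x
  refine ⟨h x, fun hx => ?_⟩
  rw [← heq] at hx
  obtain ⟨z, hz, hzx⟩ := hx
  have : z = x := by
    have h2 : n * z * n⁻¹ = n * x * n⁻¹ := hzx
    simpa using h2
  rw [← this]; exact hz

/-- an involution acting without fixed points inverts -/
theorem inverts_of_fpf {K : Subgroup G} {s : G} (hs : s * s = 1) (hsK : s ∈ normalizer (K : Set G))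
    (hf : ∀ u ∈ K, s * u = u * s → u = 1) : ∀ u ∈ K, s * u * s⁻¹ = u⁻¹ := by
  let φ : K →* K := (K.normalizerMonoidHom ⟨s, hsK⟩).toMonoidHom
  have hφ : ∀ u : K, ((φ u : K) : G) = s * u * s⁻¹ := fun u => rfl
  have h1 : MonoidHom.FixedPointFree φ := by
    intro u hu
    apply Subtype.ext
    apply hf u u.2
    have := congrArg Subtype.val hu
    rw [hφ] at this
    exact mul_inv_eq_iff_eq_mul.1 this
  have h2 : Function.Involutive φ := by
    intro u
    apply Subtype.ext
    rw [hφ, hφ]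
    calc s * (s * u * s⁻¹) * s⁻¹ = (s * s) * u * (s * s)⁻¹ := by group
      _ = u := by rw [hs]; group
  have h3 := h1.coe_eq_inv_of_involutive h2
  intro u hu
  have := congrFun h3 ⟨u, hu⟩
  have h4 := congrArg Subtype.val this
  rw [hφ] at h4
  exact h4

structure R2 (r : ℕ) (T : Sylow 2 G) (y : G) : Prop where
  ns : NS G r
  four : Nat.card (T : Subgroup G) = 4
  pr : (orderOf y).Prime
  ne2 : orderOf y ≠ 2
  norm : y ∈ normalizer ((T : Subgroup G) : Set G)
  nc : y ∉ centralizer ((T : Subgroup G) : Set G)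

theorem NS.sq_T (h : NS G r) (T : Sylow 2 G) {x : G} (hx : x ∈ (T : Subgroup G)) : x * x = 1 := by
  by_cases h1 : x = 1
  · rw [h1, one_mul]
  · have := h.order_two T.isPGroup' hx h1
    rw [← pow_two, ← this, pow_orderOf_eq_one]

theorem not_cyclic_of_exp {T : Subgroup G} (hT : ∀ x ∈ T, x * x = 1) (h2 : 2 < Nat.card T) : ¬ IsCyclic T := by
  intro hc
  obtain ⟨g, hg⟩ := hc
  have h1 : orderOf g = Nat.card T := orderOf_eq_card_of_forall_mem_zpowers hg
  have h3 : orderOf g ∣ 2 := orderOf_dvd_of_pow_eq_one (by rw [pow_two]; exact Subtype.ext (hT g g.2))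
  have := Nat.le_of_dvd (by norm_num) h3
  omega

theorem four_cases {T : Subgroup G} (h4 : Nat.card T = 4) (hT : ∀ x ∈ T, x * x = 1) {s t : G} (hs : s ∈ T)
    (ht : t ∈ T) (hs1 : s ≠ 1) (ht1 : t ≠ 1) (hst : s ≠ t) {x : G} (hx : x ∈ T) :
    x = 1 ∨ x = s ∨ x = t ∨ x = s * t := by
  have hset : (T : Set G) = {1, s, t, s * t} := by
    symm
    apply Set.eq_of_subset_of_ncard_le
    · rintro x (rfl | rfl | rfl | rfl)
      · exact one_mem _
      · exact hs
      · exact ht
      · exact mul_mem hs ht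
    · have e1 : (T : Set G).ncard = 4 := h4
      rw [e1, Set.ncard_insert_of_notMem, Set.ncard_insert_of_notMem, Set.ncard_pair]
      · intro hh
        exact hs1 (by simpa using hh.symm)
      · simp only [Set.mem_insert_iff, Set.mem_singleton_iff, not_or]
        refine ⟨hst, ?_⟩
        intro hh
        exact ht1 (by simpa using hh.symm)
      · simp only [Set.mem_insert_iff, Set.mem_singleton_iff, not_or]
        refine ⟨Ne.symm hs1, Ne.symm ht1, ?_⟩
        intro hh
        apply hst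
        rw [← mul_left_inj t, ← hh, hT t ht]
    · exact Set.toFinite _
  have : x ∈ (T : Set G) := hx
  rw [hset] at this
  simpa using this

namespace R2

variable {T : Sylow 2 G} {y : G} (h : R2 r T y)

include h

theorem fix {u : G} (hu : u ∈ (T : Subgroup G)) (hc : y * u = u * y) : u = 1 := by
  by_contra hne
  exact h.nc (h.ns.cent_of_fix T h.four h.norm hu hne hc)

theorem nt : (T : Subgroup G) ≠ ⊥ := by
  intro hb
  have := h.four
  rw [hb, Subgroup.card_bot] at this
  omega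

theorem notcyc : ¬ IsCyclic (T : Subgroup G) :=
  not_cyclic_of_exp (fun x hx => h.ns.sq_T T hx) (by rw [h.four]; norm_num)

theorem comm {x z : G} (hx : x ∈ (T : Subgroup G)) (hz : z ∈ (T : Subgroup G)) : x * z = z * x :=
  h.ns.comm_two T.isPGroup' hx hz

theorem le_cent_sing {v : G} (hv : v ∈ (T : Subgroup G)) : (T : Subgroup G) ≤ centralizer ({v} : Set G) :=
  fun _ hx => mem_cent.2 (h.comm hx hv)

theorem le_centz : (T : Subgroup G) ≤ centralizer ((T : Subgroup G) : Set G) :=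
  fun _ hx => mem_centz.2 (fun _ ht => h.comm ht hx)

/-- dichotomy -/
theorem dich {D : Subgroup G} (hD : IsPGroup r D) (hTD : (T : Subgroup G) ≤ normalizer (D : Set G)) {z : G}
    (hz : (orderOf z).Prime) (hz2 : orderOf z ≠ 2) (hzT : z ∈ normalizer ((T : Subgroup G) : Set G))
    (hzc : z ∉ centralizer ((T : Subgroup G) : Set G)) (hzD : z ∈ normalizer (D : Set G)) :
    (T : Subgroup G) ≤ centralizer (D : Set G) := by
  refine h.ns.dich hD T.isPGroup' hz hz2 rfl hzT hzD hTD ?_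
  intro u hu hc
  by_contra hne
  exact hzc (h.ns.cent_of_fix T h.four hzT hu hne hc)

/-- `C(v) = O(C(v)) T` -/
theorem cent {v : G} (hv : v ∈ (T : Subgroup G)) (hv1 : v ≠ 1) {g : G} (hg : g ∈ centralizer ({v} : Set G)) :
    ∃ u ∈ oc (centralizer ({v} : Set G)), ∃ x ∈ (T : Subgroup G), g = u * x :=
  exists_mul_of_central T (h.le_cent_sing hv)
    (fun _ hn hnT => h.ns.cent_of_fix T h.four hnT hv hv1 (mem_cent.1 hn)) hg

theorem centT {g : G} (hg : g ∈ centralizer ((T : Subgroup G) : Set G)) :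
    ∃ u ∈ oc (centralizer ((T : Subgroup G) : Set G)), ∃ x ∈ (T : Subgroup G), g = u * x :=
  exists_mul_of_central T h.le_centz (fun _ hn _ => hn) hg

theorem mem_of_odd_cent {v : G} (hv : v ∈ (T : Subgroup G)) (hv1 : v ≠ 1) {g : G} (hg : g * v = v * g)
    (ho : Odd (orderOf g)) : g ∈ oc (centralizer ({v} : Set G)) := by
  obtain ⟨u, hu, x, hx, he⟩ := h.cent hv hv1 (mem_cent.2 hg)
  exact mem_oc_of_odd (fun x hx => h.ns.sq_T T hx) (h.le_cent_sing hv) hu hx he ho

theorem mem_of_odd_centT {g : G} (hg : g ∈ centralizer ((T : Subgroup G) : Set G))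
    (ho : Odd (orderOf g)) : g ∈ oc (centralizer ((T : Subgroup G) : Set G)) := by
  obtain ⟨u, hu, x, hx, he⟩ := h.centT hg
  exact mem_oc_of_odd (fun x hx => h.ns.sq_T T hx) h.le_centz hu hx he ho

theorem odd_order {D : Subgroup G} (hD : IsPGroup r D) {x : G} (hx : x ∈ D) : Odd (orderOf x) := by
  by_cases h1 : x = 1
  · rw [h1, orderOf_one]; exact odd_one
  · rw [h.ns.order_r hD hx h1]; exact h.ns.odd

theorem pgroup_odd {K : Subgroup G} (hTK : (T : Subgroup G) ≤ normalizer (K : Set G)) (ho : Odd (Nat.card K)) :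
    IsPGroup r K := h.ns.isPGroup_of_odd T.isPGroup' h.notcyc hTK ho

theorem odd_card {D : Subgroup G} (hD : IsPGroup r D) : Odd (Nat.card D) := by
  haveI : Fact r.Prime := ⟨h.ns.pr⟩
  obtain ⟨k, hk⟩ := IsPGroup.iff_card.1 hD
  rw [hk]; exact h.ns.odd.pow

/-- normalisers of `T`-invariant `r`-subgroups not centralised by `T` -/
theorem cl {D : Subgroup G} (hD : IsPGroup r D) (hTD : (T : Subgroup G) ≤ normalizer (D : Set G))
    (hnc : ¬ (T : Subgroup G) ≤ centralizer (D : Set G)) {g : G} (hg : g ∈ normalizer (D : Set G)) :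
    ∃ u ∈ oc (normalizer (D : Set G)), ∃ x ∈ (T : Subgroup G), g = u * x := by
  refine exists_mul_of_central T hTD ?_ hg
  by_contra hcon
  push Not at hcon
  obtain ⟨n, hn, hnT, hnc'⟩ := hcon
  obtain ⟨z, hz, hzp, hz2, hzc⟩ := h.ns.exists_prime T h.nt
    (L := normalizer (D : Set G) ⊓ normalizer ((T : Subgroup G) : Set G)) inf_le_right ⟨n, ⟨hn, hnT⟩, hnc'⟩
  exact hnc (h.dich hD hTD hzp hz2 hz.2 hzc hz.1)

theorem pgroup_cl {D : Subgroup G} (hTD : (T : Subgroup G) ≤ normalizer (D : Set G)) :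
    IsPGroup r (oc (normalizer (D : Set G))) :=
  h.pgroup_odd (hTD.trans (le_norm_oc _)) (odd_oc _)

theorem le_cl {D : Subgroup G} (hD : IsPGroup r D) (hTD : (T : Subgroup G) ≤ normalizer (D : Set G))
    (hnc : ¬ (T : Subgroup G) ≤ centralizer (D : Set G)) {X : Subgroup G} (hX : X ≤ normalizer (D : Set G))
    (hXp : IsPGroup r X) : X ≤ oc (normalizer (D : Set G)) := by
  intro g hg
  obtain ⟨u, hu, x, hx, he⟩ := h.cl hD hTD hnc (hX hg)
  exact mem_oc_of_odd (fun x hx => h.ns.sq_T T hx) hTD hu hx he (h.odd_order hXp hg)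

end R2

/-- maximal `T`-invariant `r`-subgroups -/
def IsM (r : ℕ) (T R : Subgroup G) : Prop :=
  Maximal (fun R : Subgroup G => IsPGroup r R ∧ T ≤ normalizer (R : Set G)) R

theorem exists_isM {T D : Subgroup G} (hD : IsPGroup r D) (hTD : T ≤ normalizer (D : Set G)) :
    ∃ R, D ≤ R ∧ IsM r T R := by
  obtain ⟨m, hm, hmax⟩ := (Set.toFinite {R : Subgroup G | IsPGroup r R ∧ T ≤ normalizer (R : Set G)}).exists_le_maximal
    (show D ∈ {R : Subgroup G | IsPGroup r R ∧ T ≤ normalizer (R : Set G)} from ⟨hD, hTD⟩)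
  exact ⟨m, hm, hmax⟩

namespace R2

variable {T : Sylow 2 G} {y : G} (h : R2 r T y)

include h

/-- uniqueness -/
theorem uniq : ∀ (n : ℕ) {R₁ R₂ : Subgroup G}, IsM r (T : Subgroup G) R₁ → IsM r (T : Subgroup G) R₂ →
    Nat.card G ≤ n + Nat.card (R₁ ⊓ R₂ : Subgroup G) →
    ¬ (T : Subgroup G) ≤ centralizer ((R₁ ⊓ R₂ : Subgroup G) : Set G) → R₁ = R₂ := by
  haveI : Fact r.Prime := ⟨h.ns.pr⟩
  intro n
  induction n with
  | zero =>
    intro R₁ R₂ h1 h2 hc _
    have h3 : R₁ ⊓ R₂ = ⊤ := Subgroup.eq_top_of_le_card _ (by simpa using hc)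
    have h4 : R₁ = ⊤ := top_le_iff.1 (h3 ▸ inf_le_left)
    have h5 : R₂ = ⊤ := top_le_iff.1 (h3 ▸ inf_le_right)
    rw [h4, h5]
  | succ n ih =>
    intro R₁ R₂ h1 h2 hc hnc
    by_contra hne
    set D := R₁ ⊓ R₂ with hD
    have hDp : IsPGroup r D := h1.prop.1.to_le inf_le_left
    have hTD : (T : Subgroup G) ≤ normalizer (D : Set G) :=
      H1.Coprime2.le_normalizer_inf h1.prop.2 h2.prop.2
    obtain ⟨R, hR, hRM⟩ := exists_isM (T := (T : Subgroup G)) (h.pgroup_cl hTD) (hTD.trans (le_norm_oc _))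
    have key : ∀ R' : Subgroup G, IsM r (T : Subgroup G) R' → D < R' → R' = R := by
      intro R' hR' hlt
      obtain ⟨x, hx, hxD, hxn⟩ := H5.PLocal.exists_mem_normalizer_not_mem hR'.prop.1 hlt
      have hN : R' ⊓ normalizer (D : Set G) ≤ oc (normalizer (D : Set G)) :=
        h.le_cl hDp hTD hnc inf_le_right (hR'.prop.1.to_le inf_le_left)
      have hx2 : x ∈ R' ⊓ R := ⟨hx, hR (hN ⟨hx, hxn⟩)⟩
      have hDle : D ≤ R' ⊓ R := le_inf hlt.le (le_trans (fun d hd => hN ⟨hlt.le hd, le_normalizer hd⟩) hR)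
      have hlt2 : D < R' ⊓ R := lt_of_le_of_ne hDle (by
        intro heq
        rw [← heq] at hx2
        exact hxD hx2)
      apply ih hR' hRM
      · have : Nat.card D < Nat.card (R' ⊓ R : Subgroup G) := Set.ncard_lt_ncard hlt2 (Set.toFinite _)
        omega
      · intro hcon
        exact hnc (hcon.trans (centralizer_le hDle))
    have hD1 : D < R₁ := lt_of_le_of_ne inf_le_left (by
      intro heq
      apply hne
      have : R₁ ≤ R₂ := inf_eq_left.1 heq
      exact le_antisymm this (h1.2 h2.prop this))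
    have hD2 : D < R₂ := lt_of_le_of_ne inf_le_right (by
      intro heq
      apply hne
      have : R₂ ≤ R₁ := inf_eq_right.1 heq
      exact le_antisymm (h2.2 h1.prop this) this)
    exact hne ((key R₁ h1 hD1).trans (key R₂ h2 hD2).symm)

theorem uniq' {R₁ R₂ : Subgroup G} (h1 : IsM r (T : Subgroup G) R₁) (h2 : IsM r (T : Subgroup G) R₂)
    (hnc : ¬ (T : Subgroup G) ≤ centralizer ((R₁ ⊓ R₂ : Subgroup G) : Set G)) : R₁ = R₂ :=
  h.uniq (Nat.card G) h1 h2 (Nat.le_add_right _ _) hnc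

end R2

end H36.NS
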