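import Mathlib
import Cfsg.Agent.Lib.H36.NSe

/-!
# `NS` groups with Sylow `2`-subgroups of order four, part 2
-/

set_option autoImplicit false

open Subgroup Cfsg
open scoped commutatorElement

namespace H36.NS

variable {G : Type*} [Group G] [Finite G] {r : ℕ}

theorem norm_centz {T : Subgroup G} {y : G} (hy : y ∈ normalizer (T : Set G)) :
    y ∈ normalizer ((centralizer (T : Set G) : Subgroup G) : Set G) := by
  have : zpowers y ≤ normalizer ((centralizer (T : Set G) : Subgroup G) : Set G) :=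
    H1.Coprime2.le_normalizer_centralizer (zpowers_le.2 hy)
  exact this (mem_zpowers y)

theorem map_oc_cent (y v : G) : (oc (centralizer ({v} : Set G))).map (MulAut.conj y).toMonoidHom =
    oc (centralizer ({y * v * y⁻¹} : Set G)) := by
  have key : ∀ (y v : G), (oc (centralizer ({v} : Set G))).map (MulAut.conj y).toMonoidHom ≤
      oc (centralizer ({y * v * y⁻¹} : Set G)) := by
    intro y v
    apply le_oc
    · rintro _ ⟨x, hx, rfl⟩
      have := mem_cent.1 (oc_le _ hx)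
      rw [mem_cent]
      show y * x * y⁻¹ * (y * v * y⁻¹) = y * v * y⁻¹ * (y * x * y⁻¹)
      calc y * x * y⁻¹ * (y * v * y⁻¹) = y * (x * v) * y⁻¹ := by group
        _ = y * v * y⁻¹ * (y * x * y⁻¹) := by rw [this]; group
    · intro g hg
      have hg' : y⁻¹ * g * y ∈ centralizer ({v} : Set G) := by
        rw [mem_cent] at hg ⊢
        calc y⁻¹ * g * y * v = y⁻¹ * (g * (y * v * y⁻¹)) * y := by group
          _ = v * (y⁻¹ * g * y) := by rw [hg]; group
      have h2 := le_norm_oc _ hg'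
      apply mem_norm_of_conj
      rintro _ ⟨x, hx, rfl⟩
      refine ⟨y⁻¹ * g * y * x * (y⁻¹ * g * y)⁻¹, conj_mem_norm h2 hx, ?_⟩
      show y * (y⁻¹ * g * y * x * (y⁻¹ * g * y)⁻¹) * y⁻¹ = g * (y * x * y⁻¹) * g⁻¹
      group
    · rw [Subgroup.card_map_of_injective (MulAut.conj y).injective]
      exact odd_oc _
  apply le_antisymm (key y v)
  intro x hx
  have h1 := key y⁻¹ (y * v * y⁻¹) ⟨x, hx, rfl⟩
  have e : y⁻¹ * (y * v * y⁻¹) * y⁻¹⁻¹ = v := by group
  rw [e] at h1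
  refine ⟨_, h1, ?_⟩
  show y * (y⁻¹ * x * y⁻¹⁻¹) * y⁻¹ = x
  group

namespace R2

variable {T : Sylow 2 G} {y : G} (h : R2 r T y)

include h

/-- if `O(C(T)) ≠ 1` then `T` centralises `O(C(v))` for all `v ∈ T` -/
theorem triv_of_W (hW : oc (centralizer ((T : Subgroup G) : Set G)) ≠ ⊥) {v : G} (hv : v ∈ (T : Subgroup G))
    (hv1 : v ≠ 1) : (T : Subgroup G) ≤ centralizer ((oc (centralizer ({v} : Set G)) : Subgroup G) : Set G) := by
  haveI : Fact r.Prime := ⟨h.ns.pr⟩
  by_contra hnc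
  set W := oc (centralizer ((T : Subgroup G) : Set G)) with hWdef
  set U := oc (centralizer ({v} : Set G)) with hU
  have hTW : (T : Subgroup G) ≤ centralizer (W : Set G) := by
    intro t ht
    rw [mem_centz]
    intro w hw
    exact (mem_centz.1 (oc_le _ hw) t ht).symm
  have hWp : IsPGroup r W := h.pgroup_odd (hTW.trans (centralizer_le_normalizer _)) (odd_oc _)
  obtain ⟨w, hw, hw1⟩ : ∃ w ∈ W, w ≠ 1 := by
    by_contra hcon
    push Not at hcon
    exact hW ((eq_bot_iff_forall _).2 hcon)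
  have hwo := h.ns.order_r hWp hw hw1
  -- `L = C(W)`
  set L := centralizer (W : Set G) with hL
  have hLw : L ≤ centralizer ({w} : Set G) := by
    intro x hx
    rw [mem_cent]
    exact (mem_centz.1 hx w hw).symm
  have hLs : Group.IsSolvable L := h.ns.solvable_of_cent (Or.inr hwo) hLw
  have hyW : y ∈ normalizer (W : Set G) := norm_oc _ (norm_centz h.norm)
  have hyL : y ∈ normalizer (L : Set G) := norm_centz hyW
  have hXp : IsPGroup r (oc L) := h.pgroup_odd (hTW.trans (le_norm_oc _)) (odd_oc _)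
  have hTX := h.dich hXp (hTW.trans (le_norm_oc _)) h.pr h.ne2 h.norm h.nc (norm_oc _ hyL)
  have hLT : L ≤ normalizer ((T : Subgroup G) : Set G) :=
    le_normalizer_of_cent T hTW hLs (fun x hx z hz => h.comm hx hz) hTX
  have hMT : ∀ m ∈ normalizer (W : Set G), m ∈ normalizer ((T : Subgroup G) : Set G) := by
    intro m hm
    apply mem_norm_of_conj
    intro x hx
    have h1 : m * x * m⁻¹ ∈ L := conj_mem_norm (norm_centz hm) (hTW hx)
    refine mem_of_two T (hLT h1) (k := 1) ?_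
    rw [pow_one, pow_two]
    calc m * x * m⁻¹ * (m * x * m⁻¹) = m * (x * x) * m⁻¹ := by group
      _ = 1 := by rw [h.ns.sq_T T hx]; group
  -- `W ≤ U`
  have hCT : centralizer ((T : Subgroup G) : Set G) ≤ centralizer ({v} : Set G) := by
    intro x hx
    rw [mem_cent]
    exact (mem_centz.1 hx v hv).symm
  have hWU : W ≤ U := by
    intro x hx
    exact h.mem_of_odd_cent hv hv1 (mem_cent.1 (hCT (oc_le _ hx))) (h.odd_order hWp hx)
  have hTU : (T : Subgroup G) ≤ normalizer (U : Set G) := (h.le_cent_sing hv).trans (le_norm_oc _)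
  have hUp : IsPGroup r U := h.pgroup_odd hTU (odd_oc _)
  have hUT : ∀ x ∈ (T : Subgroup G), x ∈ U → x = 1 := by
    intro x hx hxU
    by_contra hx1
    have h2 := h.ns.order_two T.isPGroup' hx hx1
    have h3 := h.odd_order hUp hxU
    rw [h2] at h3
    exact absurd h3 (by decide)
  by_cases hWeq : W = U
  · exact hnc (hWeq ▸ hTW)
  obtain ⟨x, hx, hxW, hxn⟩ := H5.PLocal.exists_mem_normalizer_not_mem hUp (lt_of_le_of_ne hWU hWeq)
  have hxT := hMT x hxn
  have hxC : x ∈ centralizer ((T : Subgroup G) : Set G) := by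
    rw [mem_centz]
    intro t ht
    have h1 : x * t * x⁻¹ * t⁻¹ ∈ (T : Subgroup G) := mul_mem (conj_mem_norm hxT ht) (inv_mem ht)
    have h2 : x * t * x⁻¹ * t⁻¹ ∈ U := by
      have : x * t * x⁻¹ * t⁻¹ = x * (t * x⁻¹ * t⁻¹) := by group
      rw [this]
      exact mul_mem hx (conj_mem_norm (hTU ht) (inv_mem hx))
    have h3 := hUT _ h1 h2
    rw [mul_inv_eq_one, mul_inv_eq_iff_eq_mul] at h3
    exact h3.symm
  exact hxW (h.mem_of_odd_centT hxC (h.odd_order hUp hx))

section W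

variable (hW : oc (centralizer ((T : Subgroup G) : Set G)) = ⊥)

include hW

theorem eq_bot_of_cent {D : Subgroup G} (hD : IsPGroup r D) (hc : (T : Subgroup G) ≤ centralizer (D : Set G)) :
    D = ⊥ := by
  rw [eq_bot_iff]
  intro x hx
  rw [← hW]
  refine h.mem_of_odd_centT ?_ (h.odd_order hD hx)
  rw [mem_centz]
  intro t ht
  exact (mem_centz.1 (hc ht) x hx).symm

/-- elements of `T` other than `v` invert `O(C(v))` -/
theorem inverts {v s : G} (hv : v ∈ (T : Subgroup G)) (hv1 : v ≠ 1) (hs : s ∈ (T : Subgroup G)) (hs1 : s ≠ 1)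
    (hsv : s ≠ v) {u : G} (hu : u ∈ oc (centralizer ({v} : Set G))) : s * u * s⁻¹ = u⁻¹ := by
  have hTU : (T : Subgroup G) ≤ normalizer ((oc (centralizer ({v} : Set G)) : Subgroup G) : Set G) :=
    (h.le_cent_sing hv).trans (le_norm_oc _)
  have hUp := h.pgroup_odd hTU (odd_oc _)
  refine inverts_of_fpf (h.ns.sq_T T hs) (hTU hs) ?_ u hu
  intro x hx hc
  have h1 := mem_cent.1 (oc_le _ hx)
  have h2 : x ∈ centralizer ((T : Subgroup G) : Set G) := by
    rw [mem_centz]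
    intro t ht
    rcases four_cases h.four (fun x hx => h.ns.sq_T T hx) hv hs hv1 hs1 (Ne.symm hsv) ht with rfl | rfl | rfl | rfl
    · simp
    · exact h1.symm
    · exact hc
    · rw [mul_assoc, hc, ← mul_assoc, ← h1, mul_assoc]
  have h3 := h.mem_of_odd_centT h2 (h.odd_order hUp hx)
  rw [hW] at h3
  exact mem_bot.1 h3

/-- no `T`-invariant `r`-subgroup meets two of the `O(C(v))` -/
theorem lemmaB {R : Subgroup G} (hR : IsPGroup r R) (hTR : (T : Subgroup G) ≤ normalizer (R : Set G)) {s t : G}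
    (hs : s ∈ (T : Subgroup G)) (hs1 : s ≠ 1) (ht : t ∈ (T : Subgroup G)) (ht1 : t ≠ 1) (hst : s ≠ t) {a b : G}
    (ha : a ∈ R) (haU : a ∈ oc (centralizer ({s} : Set G))) (ha1 : a ≠ 1) (hb : b ∈ R)
    (hbU : b ∈ oc (centralizer ({t} : Set G))) (hb1 : b ≠ 1) : False := by
  obtain ⟨M, hRM, hM⟩ := exists_isM (T := (T : Subgroup G)) hR hTR
  -- intersecting maximal subgroups are equal
  have huq : ∀ {M₁ M₂ : Subgroup G}, IsM r (T : Subgroup G) M₁ → IsM r (T : Subgroup G) M₂ → ∀ x : G, x ∈ M₁ →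
      x ∈ M₂ → x ≠ 1 → M₁ = M₂ := by
    intro M₁ M₂ h1 h2 x hx1 hx2 hx
    apply h.uniq' h1 h2
    intro hcon
    have hb := h.eq_bot_of_cent hW (h1.prop.1.to_le (inf_le_left : M₁ ⊓ M₂ ≤ M₁)) hcon
    have : x ∈ M₁ ⊓ M₂ := ⟨hx1, hx2⟩
    rw [hb] at this
    exact hx (mem_bot.1 this)
  -- every `O(C(v))` meeting `M` is in `M`
  have hUM : ∀ v ∈ (T : Subgroup G), ∀ x ∈ oc (centralizer ({v} : Set G)), x ∈ M → x ≠ 1 →
      oc (centralizer ({v} : Set G)) ≤ M := by
    intro v hv x hx hxM hx1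
    have hTU : (T : Subgroup G) ≤ normalizer ((oc (centralizer ({v} : Set G)) : Subgroup G) : Set G) :=
      (h.le_cent_sing hv).trans (le_norm_oc _)
    obtain ⟨M', hUM', hM'⟩ := exists_isM (T := (T : Subgroup G)) (h.pgroup_odd hTU (odd_oc _)) hTU
    rwa [huq hM hM' x hxM (hUM' hx) hx1]
  have hsM := hUM s hs a haU (hRM ha) ha1
  have htM := hUM t ht b hbU (hRM hb) hb1
  -- the conjugate of `M`
  have hM' : IsM r (T : Subgroup G) (M.map (MulAut.conj y).toMonoidHom) := by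
    have hconj : ∀ (z : G), z ∈ normalizer ((T : Subgroup G) : Set G) → ∀ R : Subgroup G,
        (IsPGroup r R ∧ (T : Subgroup G) ≤ normalizer (R : Set G)) →
        (IsPGroup r (R.map (MulAut.conj z).toMonoidHom) ∧
          (T : Subgroup G) ≤ normalizer ((R.map (MulAut.conj z).toMonoidHom : Subgroup G) : Set G)) := by
      rintro z hz R ⟨h1, h2⟩
      refine ⟨h1.map _, ?_⟩
      intro x hx
      apply mem_norm_of_conj
      rintro _ ⟨u, hu, rfl⟩
      have h3 : z⁻¹ * x * z⁻¹⁻¹ ∈ (T : Subgroup G) := conj_mem_norm (inv_mem hz) hx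
      refine ⟨z⁻¹ * x * z⁻¹⁻¹ * u * (z⁻¹ * x * z⁻¹⁻¹)⁻¹, conj_mem_norm (h2 h3) hu, ?_⟩
      show z * (z⁻¹ * x * z⁻¹⁻¹ * u * (z⁻¹ * x * z⁻¹⁻¹)⁻¹) * z⁻¹ = x * (z * u * z⁻¹) * x⁻¹
      group
    refine ⟨hconj y h.norm M hM.prop, ?_⟩
    intro R' hR' hle
    have h1 : M ≤ R'.map (MulAut.conj y⁻¹).toMonoidHom := by
      intro x hx
      refine ⟨y * x * y⁻¹, hle ⟨x, hx, rfl⟩, ?_⟩
      show y⁻¹ * (y * x * y⁻¹) * y⁻¹⁻¹ = x
      group
    have h2 := hM.2 (hconj y⁻¹ (inv_mem h.norm) R' hR') h1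
    intro x hx
    have h3 : y⁻¹ * x * y⁻¹⁻¹ ∈ M := h2 ⟨x, hx, rfl⟩
    refine ⟨_, h3, ?_⟩
    show y * (y⁻¹ * x * y⁻¹⁻¹) * y⁻¹ = x
    group
  -- some `v ∈ {s, t}` with `y v y⁻¹ ∈ {s, t}`
  have hy : ∀ v ∈ (T : Subgroup G), v ≠ 1 → y * v * y⁻¹ ≠ v := by
    intro v hv hv1 hc
    exact hv1 (h.fix hv (mul_inv_eq_iff_eq_mul.1 hc))
  have hy1 : ∀ v ∈ (T : Subgroup G), v ≠ 1 → y * v * y⁻¹ ≠ 1 := by
    intro v hv hv1 hc
    apply hv1
    have : v = y⁻¹ * (y * v * y⁻¹) * y := by group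
    rw [this, hc]; group
  have hyst : y * s * y⁻¹ ≠ y * t * y⁻¹ := by
    intro hc
    apply hst
    have := mul_right_cancel hc
    exact mul_left_cancel this
  obtain ⟨v, z, hvM, hzM, hvz, hv1⟩ : ∃ v z : G, oc (centralizer ({v} : Set G)) ≤ M ∧
      oc (centralizer ({z} : Set G)) ≤ M ∧ y * v * y⁻¹ = z ∧ ∃ x ∈ oc (centralizer ({v} : Set G)), x ≠ 1 := by
    rcases four_cases h.four (fun x hx => h.ns.sq_T T hx) hs ht hs1 ht1 hst (conj_mem_norm h.norm hs) with
      e | e | e | e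
    · exact absurd e (hy1 s hs hs1)
    · exact absurd e (hy s hs hs1)
    · exact ⟨s, t, hsM, htM, e, a, haU, ha1⟩
    · rcases four_cases h.four (fun x hx => h.ns.sq_T T hx) hs ht hs1 ht1 hst (conj_mem_norm h.norm ht) with
        e' | e' | e' | e'
      · exact absurd e' (hy1 t ht ht1)
      · exact ⟨t, s, htM, hsM, e', b, hbU, hb1⟩
      · exact absurd e' (hy t ht ht1)
      · exact absurd (e.trans e'.symm) hyst
  obtain ⟨x, hx, hx1⟩ := hv1
  have hmem : y * x * y⁻¹ ∈ oc (centralizer ({z} : Set G)) := by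
    rw [← hvz, ← map_oc_cent]
    exact ⟨x, hx, rfl⟩
  have hne : y * x * y⁻¹ ≠ 1 := by
    intro hc
    apply hx1
    have : x = y⁻¹ * (y * x * y⁻¹) * y := by group
    rw [this, hc]; group
  have heq := huq hM hM' (y * x * y⁻¹) (hzM hmem) ⟨x, hvM hx, rfl⟩ hne
  have hyM : y ∈ normalizer (M : Set G) := by
    apply mem_norm_of_conj
    intro x hx
    rw [heq]
    exact ⟨x, hx, rfl⟩
  have hTM := h.dich hM.prop.1 hM.prop.2 h.pr h.ne2 h.norm h.nc hyM
  have hbot := h.eq_bot_of_cent hW hM.prop.1 hTM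
  have := hRM ha
  rw [hbot] at this
  exact ha1 (mem_bot.1 this)

/-- a `T`-invariant `r`-subgroup meeting `O(C(t))` non-trivially lies in `C(t)` -/
theorem le_cent_of_meet {K : Subgroup G} (hK : IsPGroup r K) (hTK : (T : Subgroup G) ≤ normalizer (K : Set G))
    {t : G} (ht : t ∈ (T : Subgroup G)) (ht1 : t ≠ 1) {a : G} (ha : a ∈ K)
    (haU : a ∈ oc (centralizer ({t} : Set G))) (ha1 : a ≠ 1) : K ≤ centralizer ({t} : Set G) := by
  have hinv : ∀ s ∈ (T : Subgroup G), s ≠ 1 → s ≠ t → ∀ u ∈ K, s * u * s⁻¹ = u⁻¹ := by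
    intro s hs hs1 hst
    refine inverts_of_fpf (h.ns.sq_T T hs) (hTK hs) ?_
    intro b hb hc
    by_contra hb1
    have hbU := h.mem_of_odd_cent hs hs1 hc.symm (h.odd_order hK hb)
    exact h.lemmaB hW hK hTK ht ht1 hs hs1 (Ne.symm hst) ha haU ha1 hb hbU hb1
  -- another element
  obtain ⟨s, hs, hs1, hst⟩ : ∃ s ∈ (T : Subgroup G), s ≠ 1 ∧ s ≠ t := by
    by_contra hcon
    push Not at hcon
    have hle : ((T : Subgroup G) : Set G) ⊆ {1, t} := by
      intro x hx
      by_cases h1 : x = 1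
      · exact Or.inl h1
      · exact Or.inr (hcon x hx h1)
    have h2 := Set.ncard_le_ncard hle (Set.toFinite _)
    have h3 : ((T : Subgroup G) : Set G).ncard = 4 := h.four
    have h4 := Set.ncard_insert_le (1 : G) {t}
    rw [Set.ncard_singleton] at h4
    omega
  have ht2 := h.ns.sq_T T ht
  have hs2 := h.ns.sq_T T hs
  have hst' : s * t ∈ (T : Subgroup G) := mul_mem hs ht
  have h1 := hinv s hs hs1 hst
  have h2 := hinv (s * t) hst' (by
    intro hc
    apply hst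
    rw [← mul_left_inj t, hc, ht2]) (by
    intro hc
    apply hs1
    rwa [mul_eq_right] at hc)
  intro u hu
  rw [mem_cent]
  have h3 : t * u * t⁻¹ = u := by
    have e : t = s * (s * t) := by rw [← mul_assoc, hs2, one_mul]
    calc t * u * t⁻¹ = s * (s * t) * u * (s * (s * t))⁻¹ := by rw [← e]
      _ = s * (s * t * u * (s * t)⁻¹) * s⁻¹ := by group
      _ = (s * u * s⁻¹)⁻¹ := by rw [h2 u hu]; group
      _ = u := by rw [h1 u hu, inv_inv]
  exact (mul_inv_eq_iff_eq_mul.1 h3).symm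

theorem norm_le {t : G} (ht : t ∈ (T : Subgroup G)) (ht1 : t ≠ 1) {Y : Subgroup G}
    (hY : Y ≤ oc (centralizer ({t} : Set G))) (hY1 : Y ≠ ⊥) :
    normalizer (Y : Set G) ≤ centralizer ({t} : Set G) := by
  have hTU : (T : Subgroup G) ≤ normalizer ((oc (centralizer ({t} : Set G)) : Subgroup G) : Set G) :=
    (h.le_cent_sing ht).trans (le_norm_oc _)
  have hYp : IsPGroup r Y := (h.pgroup_odd hTU (odd_oc _)).to_le hY
  have hTY : (T : Subgroup G) ≤ normalizer (Y : Set G) := by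
    intro x hx
    apply mem_norm_of_conj
    intro u hu
    by_cases hx1 : x = 1
    · rw [hx1]; simpa using hu
    by_cases hxt : x = t
    · have := mem_cent.1 (oc_le _ (hY hu))
      rw [hxt, ← this, mul_inv_cancel_right]
      exact hu
    · rw [h.inverts hW ht ht1 hx hx1 hxt (hY hu)]
      exact inv_mem hu
  have hnc : ¬ (T : Subgroup G) ≤ centralizer (Y : Set G) := fun hc => hY1 (h.eq_bot_of_cent hW hYp hc)
  obtain ⟨a, ha, ha1⟩ : ∃ a ∈ Y, a ≠ 1 := by
    by_contra hcon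
    push Not at hcon
    exact hY1 ((eq_bot_iff_forall _).2 hcon)
  have hYK : Y ≤ oc (normalizer (Y : Set G)) := h.le_cl hYp hTY hnc le_normalizer hYp
  have hK := h.le_cent_of_meet hW (h.pgroup_cl hTY) (hTY.trans (le_norm_oc _)) ht ht1 (hYK ha) (hY ha) ha1
  intro g hg
  obtain ⟨u, hu, x, hx, rfl⟩ := h.cl hYp hTY hnc hg
  exact mul_mem (hK hu) (h.le_cent_sing ht hx)

end W

end R2

end H36.NS
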