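import Mathlib
import Cfsg.Agent.Lib.Lead.CITBase

/-!
# `PSL(2, F)` in characteristic two has centralisers of involutions of exponent two
-/

set_option autoImplicit false

open Matrix

namespace H36.NS

section SL

variable {F : Type*} [Field F]

theorem center_sl_two (h2 : (2 : F) = 0) :
    Subgroup.center (SpecialLinearGroup (Fin 2) F) = ⊥ := by
  rw [eq_bot_iff]
  intro A hA
  rw [Matrix.SpecialLinearGroup.mem_center_iff] at hA
  obtain ⟨r, hr, hA⟩ := hA
  have hr2 : r ^ 2 = 1 := by simpa using hr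
  have hr1 : r = 1 := by
    have h3 : (r - 1) ^ 2 = 0 := by linear_combination hr2 + (1 - r) * h2
    exact sub_eq_zero.1 (pow_eq_zero_iff (by norm_num) |>.1 h3)
  rw [Subgroup.mem_bot]
  apply Subtype.ext
  rw [← hA, hr1]
  simp

theorem sl_sq_one (h2 : (2 : F) = 0) {x t : SpecialLinearGroup (Fin 2) F} (ht : t * t = 1) (ht1 : t ≠ 1)
    (hc : x * t = t * x) : x * x = 1 := by
  have hneg : ∀ y : F, -y = y := fun y => by linear_combination (-y) * h2
  obtain ⟨p, q, s, u, hp, hq, hs, hu⟩ : ∃ p q s u : F, t.1 0 0 = p ∧ t.1 0 1 = q ∧ t.1 1 0 = s ∧ t.1 1 1 = u :=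
    ⟨_, _, _, _, rfl, rfl, rfl, rfl⟩
  obtain ⟨a, b, c, d, ha, hb, hcc, hd⟩ : ∃ a b c d : F, x.1 0 0 = a ∧ x.1 0 1 = b ∧ x.1 1 0 = c ∧ x.1 1 1 = d :=
    ⟨_, _, _, _, rfl, rfl, rfl, rfl⟩
  have hdx : a * d - b * c = 1 := by
    have := x.2
    rw [det_fin_two, ha, hb, hcc, hd] at this
    exact this
  have htt := congrArg Subtype.val ht
  have e00 : p * p + q * s = 1 := by
    have := congrFun (congrFun htt 0) 0
    simpa [Matrix.mul_apply, Fin.sum_univ_two, hp, hq, hs, hu] using this
  have e01 : p * q + q * u = 0 := by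
    have := congrFun (congrFun htt 0) 1
    simpa [Matrix.mul_apply, Fin.sum_univ_two, hp, hq, hs, hu] using this
  have e10 : s * p + u * s = 0 := by
    have := congrFun (congrFun htt 1) 0
    simpa [Matrix.mul_apply, Fin.sum_univ_two, hp, hq, hs, hu] using this
  have e11 : s * q + u * u = 1 := by
    have := congrFun (congrFun htt 1) 1
    simpa [Matrix.mul_apply, Fin.sum_univ_two, hp, hq, hs, hu] using this
  have hcv := congrArg Subtype.val hc
  have c01 : a * q + b * u = p * b + q * d := by
    have := congrFun (congrFun hcv 0) 1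
    simpa [Matrix.mul_apply, Fin.sum_univ_two, hp, hq, hs, hu, ha, hb, hcc, hd] using this
  have c10 : c * p + d * s = s * a + u * c := by
    have := congrFun (congrFun hcv 1) 0
    simpa [Matrix.mul_apply, Fin.sum_univ_two, hp, hq, hs, hu, ha, hb, hcc, hd] using this
  have hsq1 : ∀ y : F, y * y = 1 → y = 1 := by
    intro y hy
    have h3 : (y - 1) ^ 2 = 0 := by linear_combination hy + (1 - y) * h2
    exact sub_eq_zero.1 (pow_eq_zero_iff (by norm_num) |>.1 h3)
  have hqs : ¬ (q = 0 ∧ s = 0) := by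
    rintro ⟨rfl, rfl⟩
    apply ht1
    have h3 := hsq1 p (by linear_combination e00)
    have h4 := hsq1 u (by linear_combination e11)
    apply Subtype.ext
    ext i j
    fin_cases i <;> fin_cases j <;> simp [hp, hq, hs, hu, h3, h4]
  have hpu : p + u = 0 := by
    by_contra hne
    apply hqs
    constructor
    · have : q * (p + u) = 0 := by linear_combination e01
      exact (mul_eq_zero.1 this).resolve_right hne
    · have : s * (p + u) = 0 := by linear_combination e10
      exact (mul_eq_zero.1 this).resolve_right hne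
  have hup : u = p := by
    linear_combination hpu - p * h2
  have had : a = d := by
    by_contra hne
    have hne' : a - d ≠ 0 := sub_ne_zero.2 hne
    apply hqs
    constructor
    · have : q * (a - d) = 0 := by rw [hup] at c01; linear_combination c01
      exact (mul_eq_zero.1 this).resolve_right hne'
    · have : s * (a - d) = 0 := by rw [hup] at c10; linear_combination -c10
      exact (mul_eq_zero.1 this).resolve_right hne'
  apply Subtype.ext
  subst had
  ext i j
  fin_cases i <;> fin_cases j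
  · show (x.1 * x.1) 0 0 = 1
    rw [Matrix.mul_apply, Fin.sum_univ_two, ha, hb, hcc]
    linear_combination hdx + b * c * h2
  · show (x.1 * x.1) 0 1 = 0
    rw [Matrix.mul_apply, Fin.sum_univ_two, ha, hb, hd]
    linear_combination a * b * h2
  · show (x.1 * x.1) 1 0 = 0
    rw [Matrix.mul_apply, Fin.sum_univ_two, ha, hcc, hd]
    linear_combination a * c * h2
  · show (x.1 * x.1) 1 1 = 1
    rw [Matrix.mul_apply, Fin.sum_univ_two, hb, hcc, hd]
    linear_combination hdx + b * c * h2

theorem psl_sq_one (h2 : (2 : F) = 0) {x t : ProjectiveSpecialLinearGroup (Fin 2) F} (ht : t * t = 1)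
    (ht1 : t ≠ 1) (hc : x * t = t * x) : x * x = 1 := by
  obtain ⟨x, rfl⟩ := QuotientGroup.mk_surjective x
  obtain ⟨t, rfl⟩ := QuotientGroup.mk_surjective t
  have hk : ∀ g : SpecialLinearGroup (Fin 2) F,
      ((g : SpecialLinearGroup (Fin 2) F ⧸ Subgroup.center (SpecialLinearGroup (Fin 2) F)) = 1) → g = 1 := by
    intro g hg
    have := (QuotientGroup.eq_one_iff g).1 hg
    rw [center_sl_two h2, Subgroup.mem_bot] at this
    exact this
  have e1 : t * t = 1 := hk _ ht
  have e2 : t ≠ 1 := by
    rintro rfl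
    exact ht1 rfl
  have e3 : x * t = t * x := by
    have h3 : x * t * (t * x)⁻¹ = 1 := by
      apply hk
      have h4 : ((x * t : SpecialLinearGroup (Fin 2) F) :
        SpecialLinearGroup (Fin 2) F ⧸ Subgroup.center (SpecialLinearGroup (Fin 2) F)) = ((t * x : SpecialLinearGroup (Fin 2) F) :
        SpecialLinearGroup (Fin 2) F ⧸ Subgroup.center (SpecialLinearGroup (Fin 2) F)) := hc
      rw [QuotientGroup.mk_mul, QuotientGroup.mk_inv, h4, mul_inv_cancel]
    exact mul_inv_eq_one.1 h3
  have e4 := sl_sq_one h2 e1 e2 e3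
  show ((x * x : SpecialLinearGroup (Fin 2) F) :
        SpecialLinearGroup (Fin 2) F ⧸ Subgroup.center (SpecialLinearGroup (Fin 2) F)) = 1
  rw [e4]
  rfl

theorem sep_psl2_even (h2 : (2 : F) = 0) : Lead.CIT.Sep (ProjectiveSpecialLinearGroup (Fin 2) F) := by
  intro x t ht hx hc
  have h1 : t * t = 1 := by
    have h := pow_orderOf_eq_one t
    rwa [ht, pow_two] at h
  have h3 : t ≠ 1 := by rintro rfl; rw [orderOf_one] at ht; omega
  have h4 := psl_sq_one h2 h1 h3 hc
  have h5 : orderOf x ∣ 2 := orderOf_dvd_of_pow_eq_one (by rw [pow_two]; exact h4)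
  rcases (Nat.dvd_prime Nat.prime_two).1 h5 with h6 | h6
  · exact orderOf_eq_one_iff.1 h6
  · rw [h6] at hx; exact absurd hx (by decide)

end SL

theorem two_eq_zero_of_card {F : Type*} [Field F] [Fintype F] {n : ℕ} (hn : n ≠ 0) (hF : Fintype.card F = 2 ^ n) :
    (2 : F) = 0 := by
  have h1 : ((Fintype.card F : ℕ) : F) = 0 := FiniteField.cast_card_eq_zero F
  rw [hF, Nat.cast_pow] at h1
  exact_mod_cast (pow_eq_zero_iff hn).1 h1

end H36.NS
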