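import Cfsg.Agent.Lib.H88.F4

/-! S3814: piece PX, relative to the tools T1, T3, T4, T5, T8. -/

set_option autoImplicit false

namespace H36.PX

open Subgroup H88.F4

universe u

def T1 (G : Type u) [Group G] : Prop := ∀ {p q r : ℕ}, p.Prime → q.Prime → r.Prime → p ≠ q → p ≠ r → q ≠ r →
  ∀ (V Q : Subgroup G) (x : G), Cfsg.IsElementaryAbelian p V → IsPGroup q Q → orderOf x = r →
    x ∈ normalizer (V : Set G) → x ∈ normalizer (Q : Set G) → Q ≤ normalizer (V : Set G) →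
    (q = 2 → ∀ a ∈ Q, ∀ b ∈ Q, Commute a b) → Fpf x V →
    (∀ y ∈ Q, (∀ v ∈ V, Commute y v) → y = 1) → ∀ y ∈ Q, Commute x y

def T3 (G : Type u) [Group G] : Prop := ∀ {t : ℕ}, t.Prime → ∀ (E W : Subgroup G), R2 t E →
  E ≤ normalizer (W : Set G) → ¬ t ∣ Nat.card W → W ≠ ⊥ →
    ∃ z ∈ E, orderOf z = t ∧ ∃ w ∈ W, w ≠ 1 ∧ Commute z w

def T4 (G : Type u) [Group G] : Prop := ∀ {t : ℕ}, t.Prime → ∀ (P : Subgroup G), IsPGroup t P → ¬ R2 t P →
  (∀ x ∈ P, ∀ y ∈ P, orderOf x = t → orderOf y = t → y ∈ zpowers x) ∧ (t ≠ 2 → IsCyclic P)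

def T5 (G : Type u) [Group G] : Prop := ∀ (K D : Subgroup G), Group.IsSolvable K → D ≤ K →
  K ≤ normalizer (D : Set G) → D ≠ ⊥ → ∃ N : Subgroup G, N ≤ D ∧ N ≠ ⊥ ∧ K ≤ normalizer (N : Set G) ∧
    (∃ t : ℕ, t.Prime ∧ Cfsg.IsElementaryAbelian t N) ∧
    ∀ W ≤ N, W ≠ ⊥ → K ≤ normalizer (W : Set G) → W = N

def T8 (G : Type u) [Group G] : Prop := ∀ (K : Subgroup G), Group.IsSolvable K → ∀ x ∈ K, (orderOf x).Prime →
  (∀ t : ℕ, t.Prime → t ≠ orderOf x → ∀ P ≤ K, K ≤ normalizer (P : Set G) → IsPGroup t P → ∀ w ∈ P, Commute x w) →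
  (∀ P ≤ K, K ≤ normalizer (P : Set G) → IsPGroup (orderOf x) P → IsCyclic P) →
    ∃ P ≤ K, K ≤ normalizer (P : Set G) ∧ IsPGroup (orderOf x) P ∧ x ∈ P

variable {G : Type u} [Group G]

structure Cx (p q r s : ℕ) (B V N : Subgroup G) : Prop where
  hp : p.Prime
  hq : q.Prime
  hr : r.Prime
  hs : s.Prime
  hrs : r ≠ s
  hpr : p ≠ r
  hps : p ≠ s
  hqr : q ≠ r
  hqs : q ≠ s
  solv : Group.IsSolvable B
  eV : Cfsg.IsElementaryAbelian p V
  eN : Cfsg.IsElementaryAbelian q N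
  bV : B ≤ normalizer (V : Set G)
  bN : B ≤ normalizer (N : Set G)
  V1 : V ≠ ⊥
  N1 : N ≠ ⊥
  Vm : ∀ W ≤ V, W ≠ ⊥ → B ≤ normalizer (W : Set G) → W = V
  Nm : ∀ W ≤ N, W ≠ ⊥ → B ≤ normalizer (W : Set G) → W = N
  t1 : ∀ x ∈ B, (orderOf x).Prime → Fpf x V ∨ Fpf x N
  t2 : ∀ x ∈ B, ∀ y ∈ B, orderOf x = r → orderOf y = s → Commute x y →
    (∀ v ∈ V, Commute x v → Commute y v → v = 1) ∧ (∀ v ∈ N, Commute x v → Commute y v → v = 1)
  r2 : R2 r B
  s2 : R2 s B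

variable {p q r s : ℕ} {B V N : Subgroup G}

theorem Cx.swapVN (h : Cx p q r s B V N) : Cx q p r s B N V where
  hp := h.hq
  hq := h.hp
  hr := h.hr
  hs := h.hs
  hrs := h.hrs
  hpr := h.hqr
  hps := h.hqs
  hqr := h.hpr
  hqs := h.hps
  solv := h.solv
  eV := h.eN
  eN := h.eV
  bV := h.bN
  bN := h.bV
  V1 := h.N1
  N1 := h.V1
  Vm := h.Nm
  Nm := h.Vm
  t1 := fun x hx ho => (h.t1 x hx ho).symm
  t2 := fun x hx y hy h1 h2 h3 => (h.t2 x hx y hy h1 h2 h3).symm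
  r2 := h.r2
  s2 := h.s2

theorem Cx.swaprs (h : Cx p q r s B V N) : Cx p q s r B V N where
  hp := h.hp
  hq := h.hq
  hr := h.hs
  hs := h.hr
  hrs := h.hrs.symm
  hpr := h.hps
  hps := h.hpr
  hqr := h.hqs
  hqs := h.hqr
  solv := h.solv
  eV := h.eV
  eN := h.eN
  bV := h.bV
  bN := h.bN
  V1 := h.V1
  N1 := h.N1
  Vm := h.Vm
  Nm := h.Nm
  t1 := h.t1
  t2 := fun x hx y hy h1 h2 h3 => by
    have := h.t2 y hy x hx h2 h1 h3.symm
    exact ⟨fun v hv a b => this.1 v hv b a, fun v hv a b => this.2 v hv b a⟩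
  r2 := h.s2
  s2 := h.r2

theorem ea_comm {V : Subgroup G} (h : Cfsg.IsElementaryAbelian p V) : ∀ a ∈ V, ∀ b ∈ V, Commute a b := by
  intro a ha b hb
  haveI := h.1
  have := mul_comm' (⟨a, ha⟩ : V) ⟨b, hb⟩
  exact congrArg Subtype.val this

theorem ea_pg {V : Subgroup G} (h : Cfsg.IsElementaryAbelian p V) : IsPGroup p V := by
  intro v
  refine ⟨1, ?_⟩
  rw [pow_one]
  exact Subtype.ext (h.2 v v.2)

theorem exists_ne {V : Subgroup G} (h : V ≠ ⊥) : ∃ v ∈ V, v ≠ 1 := by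
  by_contra hc
  push Not at hc
  exact h ((Subgroup.eq_bot_iff_forall V).2 hc)

theorem not_dvd [Finite G] {t : ℕ} (ht : t.Prime) (hp : p.Prime) (hne : p ≠ t) {V : Subgroup G} (h : IsPGroup p V) :
    ¬ t ∣ Nat.card V := by
  intro hd
  haveI : Fact p.Prime := ⟨hp⟩
  obtain ⟨k, hk⟩ := IsPGroup.iff_card.1 h
  rw [hk] at hd
  have := (Nat.prime_dvd_prime_iff_eq ht hp).1 (ht.dvd_of_dvd_pow hd)
  exact hne this.symm

theorem exists_prime [Finite G] {b : G} (hb : b ≠ 1) : ∃ k : ℕ, (orderOf (b ^ k)).Prime := by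
  have h1 : orderOf b ≠ 1 := fun h => hb (orderOf_eq_one_iff.1 h)
  obtain ⟨t, ht, hd⟩ := Nat.exists_prime_and_dvd h1
  obtain ⟨c, hc⟩ := hd
  have hpos : 0 < orderOf b := orderOf_pos b
  have hc0 : c ≠ 0 := by
    rintro rfl
    rw [mul_zero] at hc
    omega
  refine ⟨c, ?_⟩
  rw [orderOf_pow_of_dvd hc0 ⟨t, by rw [hc, mul_comm]⟩, hc, Nat.mul_div_cancel _ (Nat.pos_of_ne_zero hc0)]
  exact ht

theorem exists_order [Finite G] (hs : s.Prime) {A : Subgroup G} (h : IsPGroup s A) {a : G} (ha : a ∈ A) (h1 : a ≠ 1) :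
    ∃ k : ℕ, orderOf (a ^ k) = s := by
  obtain ⟨k, hk⟩ := exists_prime h1
  refine ⟨k, ?_⟩
  have h2 : ∃ m : ℕ, orderOf (a ^ k) = s ^ m := by
    haveI : Fact s.Prime := ⟨hs⟩
    obtain ⟨m, hm⟩ := IsPGroup.iff_orderOf.1 h (⟨a ^ k, A.pow_mem ha k⟩ : A)
    refine ⟨m, ?_⟩
    rw [← hm, ← Subgroup.orderOf_coe]
  obtain ⟨m, hm⟩ := h2
  have h3 : orderOf (a ^ k) ∣ s := by
    apply hk.dvd_of_dvd_pow (n := m)
    rw [hm]
  rcases (Nat.dvd_prime hs).1 h3 with h4 | h4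
  · exact absurd h4 hk.ne_one
  · exact h4

theorem order_ea (hs : s.Prime) {t : ℕ} (ht : t.Prime) {A : Subgroup G} (h : IsPGroup s A)
    (hA : Cfsg.IsElementaryAbelian t A) {a : G} (ha : a ∈ A) (h1 : a ≠ 1) : orderOf a = s := by
  haveI : Fact s.Prime := ⟨hs⟩
  have h2 : orderOf a ∣ t := orderOf_dvd_of_pow_eq_one (hA.2 a ha)
  have h3 : orderOf a ≠ 1 := fun h => h1 (orderOf_eq_one_iff.1 h)
  have h4 : orderOf a = t := by
    rcases (Nat.dvd_prime ht).1 h2 with h | h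
    · exact absurd h h3
    · exact h
  obtain ⟨m, hm⟩ := h (⟨a, ha⟩ : A)
  have h5 : a ^ s ^ m = 1 := by
    have := congrArg Subtype.val hm
    simpa using this
  have h6 : orderOf a ∣ s ^ m := orderOf_dvd_of_pow_eq_one h5
  rw [h4] at h6 ⊢
  exact (Nat.prime_dvd_prime_iff_eq ht hs).1 (ht.dvd_of_dvd_pow h6)

/-- conjugation stability from normalizer membership -/
theorem conj_mem {V : Subgroup G} {b : G} (hb : b ∈ normalizer (V : Set G)) {v : G} (hv : v ∈ V) : b * v * b⁻¹ ∈ V :=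
  (Subgroup.mem_normalizer_iff.1 hb v).1 hv

theorem conj_mem' {V : Subgroup G} {b : G} (hb : b ∈ normalizer (V : Set G)) {v : G} (hv : v ∈ V) : b⁻¹ * v * b ∈ V := by
  have := conj_mem (inv_mem hb) hv
  rwa [inv_inv] at this

theorem le_norm_of {K W : Subgroup G} (h : ∀ k ∈ K, ∀ w ∈ W, k * w * k⁻¹ ∈ W) : K ≤ normalizer (W : Set G) := by
  intro k hk
  rw [Subgroup.mem_normalizer_iff]
  intro w
  refine ⟨h k hk w, fun hw => ?_⟩
  have := h k⁻¹ (inv_mem hk) _ hw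
  have e : k⁻¹ * (k * w * k⁻¹) * k⁻¹⁻¹ = w := by group
  rwa [e] at this

theorem Cx.faith [Finite G] (h : Cx p q r s B V N) {b : G} (hb : b ∈ B) (h1 : ∀ v ∈ V, Commute b v)
    (h2 : ∀ n ∈ N, Commute b n) : b = 1 := by
  by_contra hb1
  obtain ⟨k, hk⟩ := exists_prime hb1
  rcases h.t1 _ (B.pow_mem hb k) hk with h3 | h3
  · obtain ⟨v, hv, hv1⟩ := exists_ne h.V1
    exact hv1 (h3 v hv ((h1 v hv).pow_left k))
  · obtain ⟨v, hv, hv1⟩ := exists_ne h.N1
    exact hv1 (h3 v hv ((h2 v hv).pow_left k))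

theorem Cx.exists_z [Finite G] (h : Cx p q r s B V N) (T3' : T3 G) :
    ∃ z ∈ B, orderOf z = r ∧ (∃ v ∈ V, v ≠ 1 ∧ Commute z v) ∧ Fpf z N := by
  obtain ⟨z, hz, hzo, v, hv, hv1, hzv⟩ := T3' h.hr B V h.r2 h.bV (not_dvd h.hr h.hp h.hpr (ea_pg h.eV)) h.V1
  refine ⟨z, hz, hzo, ⟨v, hv, hv1, hzv⟩, ?_⟩
  rcases h.t1 z hz (by rw [hzo]; exact h.hr) with h3 | h3
  · exact absurd (h3 v hv hzv) hv1
  · exact h3

/-- (c1) -/
theorem Cx.c1 [Finite G] (h : Cx p q r s B V N) (T1' : T1 G) (T3' : T3 G) {A : Subgroup G} (hA : A ≤ B)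
    (hBA : B ≤ normalizer (A : Set G)) (hAs : IsPGroup s A) (hAa : ∀ a ∈ A, ∀ b ∈ A, Commute a b) (hA1 : A ≠ ⊥)
    (hc : ∀ a ∈ A, ∀ v ∈ V, Commute a v) : False := by
  obtain ⟨z, hz, hzo, ⟨v, hv, hv1, hzv⟩, hzN⟩ := h.exists_z T3'
  have h1 : ∀ y ∈ A, Commute z y := T1' h.hq h.hs h.hr h.hqs h.hqr h.hrs.symm N A z h.eN hAs hzo (h.bN hz)
    (hBA hz) (hA.trans h.bN) (fun _ => hAa) hzN (fun y hy hyn => h.faith (hA hy) (hc y hy) hyn)
  obtain ⟨a, ha, ha1⟩ := exists_ne hA1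
  obtain ⟨k, hk⟩ := exists_order h.hs hAs ha ha1
  have ha' : a ^ k ∈ A := A.pow_mem ha k
  exact hv1 ((h.t2 z hz (a ^ k) (hA ha') hzo hk (h1 _ ha')).1 v hv hzv (hc _ ha' v hv))

theorem Cx.faithV [Finite G] (h : Cx p q r s B V N) (T1' : T1 G) (T3' : T3 G) (T5' : T5 G) {A : Subgroup G}
    (hA : A ≤ B) (hBA : B ≤ normalizer (A : Set G)) (hAs : IsPGroup s A) :
    ∀ y ∈ A, (∀ v ∈ V, Commute y v) → y = 1 := by
  intro y hy hyv
  by_contra hy1
  set D : Subgroup G := A ⊓ centralizer (V : Set G) with hD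
  have hyD : y ∈ D := by
    refine Subgroup.mem_inf.2 ⟨hy, ?_⟩
    rw [Subgroup.mem_centralizer_iff]
    intro v hv
    exact (hyv v hv).symm.eq
  have hD1 : D ≠ ⊥ := by
    intro hc
    rw [hc, Subgroup.mem_bot] at hyD
    exact hy1 hyD
  have hBD : B ≤ normalizer (D : Set G) := by
    apply le_norm_of
    intro b hb w hw
    refine Subgroup.mem_inf.2 ⟨conj_mem (hBA hb) (Subgroup.mem_inf.1 hw).1, ?_⟩
    have hw2 := (Subgroup.mem_inf.1 hw).2
    rw [Subgroup.mem_centralizer_iff] at hw2 ⊢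
    intro v hv
    have h1 := hw2 (b⁻¹ * v * b) (conj_mem' (h.bV hb) hv)
    calc v * (b * w * b⁻¹) = b * ((b⁻¹ * v * b) * w) * b⁻¹ := by group
      _ = b * (w * (b⁻¹ * v * b)) * b⁻¹ := by rw [h1]
      _ = b * w * b⁻¹ * v := by group
  obtain ⟨M, hMD, hM1, hBM, ⟨t, ht, hMt⟩, _⟩ := T5' B D h.solv (inf_le_left.trans hA) hBD hD1
  have hMA : M ≤ A := hMD.trans inf_le_left
  refine h.c1 T1' T3' (hMA.trans hA) hBM (hAs.to_le hMA) (ea_comm hMt) hM1 ?_
  intro a ha v hv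
  have h1 := (Subgroup.mem_inf.1 (hMD ha)).2
  rw [Subgroup.mem_centralizer_iff] at h1
  exact (h1 v hv).symm

theorem Cx.cent [Finite G] (h : Cx p q r s B V N) (T1' : T1 G) (T3' : T3 G) (T5' : T5 G) {A : Subgroup G}
    (hA : A ≤ B) (hBA : B ≤ normalizer (A : Set G)) (hAs : IsPGroup s A)
    (hex : s = 2 → ∀ a ∈ A, ∀ b ∈ A, Commute a b) {z : G} (hz : z ∈ B) (hzo : orderOf z = r) :
    ∀ y ∈ A, Commute z y := by
  rcases h.t1 z hz (by rw [hzo]; exact h.hr) with h1 | h1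
  · exact T1' h.hp h.hs h.hr h.hps h.hpr h.hrs.symm V A z h.eV hAs hzo (h.bV hz)
      (hBA hz) (hA.trans h.bV) hex h1 (h.faithV T1' T3' T5' hA hBA hAs)
  · exact T1' h.hq h.hs h.hr h.hqs h.hqr h.hrs.symm N A z h.eN hAs hzo (h.bN hz)
      (hBA hz) (hA.trans h.bN) hex h1 (h.swapVN.faithV T1' T3' T5' hA hBA hAs)

theorem Cx.notR2 [Finite G] (h : Cx p q r s B V N) (T1' : T1 G) (T3' : T3 G) (T5' : T5 G) {A : Subgroup G}
    (hA : A ≤ B) (hBA : B ≤ normalizer (A : Set G)) (hAs : IsPGroup s A)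
    (hex : s = 2 → ∀ a ∈ A, ∀ b ∈ A, Commute a b) : ¬ R2 s A := by
  intro hR
  obtain ⟨z, hz, hzo, ⟨v, hv, hv1, hzv⟩, hzN⟩ := h.exists_z T3'
  have hc := h.cent T1' T3' T5' hA hBA hAs hex hz hzo
  set W : Subgroup G := V ⊓ centralizer ({z} : Set G) with hW
  have hvW : v ∈ W := by
    refine Subgroup.mem_inf.2 ⟨hv, ?_⟩
    rw [Subgroup.mem_centralizer_singleton_iff]
    exact hzv.eq.symm
  have hW1 : W ≠ ⊥ := by
    intro hcc
    rw [hcc, Subgroup.mem_bot] at hvW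
    exact hv1 hvW
  have hAW : A ≤ normalizer (W : Set G) := by
    apply le_norm_of
    intro b hb w hw
    refine Subgroup.mem_inf.2 ⟨conj_mem (h.bV (hA hb)) (Subgroup.mem_inf.1 hw).1, ?_⟩
    have hw2 := (Subgroup.mem_inf.1 hw).2
    rw [Subgroup.mem_centralizer_singleton_iff] at hw2 ⊢
    have h1 : Commute z w := hw2.symm
    have h2 := hc b hb
    exact ((h2.mul_right h1).mul_right h2.inv_right).eq.symm
  have hWs : ¬ s ∣ Nat.card W := not_dvd h.hs h.hp h.hps ((ea_pg h.eV).to_le inf_le_left)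
  obtain ⟨y, hy, hyo, w, hw, hw1, hyw⟩ := T3' h.hs A W hR hAW hWs hW1
  have hw2 := (Subgroup.mem_inf.1 hw).2
  rw [Subgroup.mem_centralizer_singleton_iff] at hw2
  exact hw1 ((h.t2 z hz y (hA hy) hzo hyo (hc y hy)).1 w hw.1 hw2.symm hyw)

/-- (c2) -/
theorem Cx.c2 [Finite G] (h : Cx p q r s B V N) (T1' : T1 G) (T3' : T3 G) (T4' : T4 G) (T5' : T5 G)
    {M : Subgroup G} (hM : M ≤ B) (hBM : B ≤ normalizer (M : Set G)) (hMs : IsPGroup s M) {t : ℕ} (ht : t.Prime)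
    (hMe : Cfsg.IsElementaryAbelian t M) {m : G} (hm : m ∈ M) (hm1 : m ≠ 1) :
    (∀ y ∈ M, y ∈ zpowers m) ∧ Fpf m V := by
  have hnr := h.notR2 T1' T3' T5' hM hBM hMs (fun _ => ea_comm hMe)
  have h4 := (T4' h.hs M hMs hnr).1
  have hz : ∀ y ∈ M, y ∈ zpowers m := by
    intro y hy
    by_cases hy1 : y = 1
    · rw [hy1]; exact one_mem _
    · exact h4 m hm y hy (order_ea h.hs ht hMs hMe hm hm1) (order_ea h.hs ht hMs hMe hy hy1)
  refine ⟨hz, ?_⟩
  intro v hv hmv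
  by_contra hv1
  set W : Subgroup G := V ⊓ centralizer (M : Set G) with hW
  have hvW : v ∈ W := by
    refine Subgroup.mem_inf.2 ⟨hv, ?_⟩
    rw [Subgroup.mem_centralizer_iff]
    intro y hy
    obtain ⟨j, rfl⟩ := Subgroup.mem_zpowers_iff.1 (hz y hy)
    exact (hmv.zpow_left j).eq
  have hW1 : W ≠ ⊥ := by
    intro hcc
    rw [hcc, Subgroup.mem_bot] at hvW
    exact hv1 hvW
  have hBW : B ≤ normalizer (W : Set G) := by
    apply le_norm_of
    intro b hb w hw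
    refine Subgroup.mem_inf.2 ⟨conj_mem (h.bV hb) (Subgroup.mem_inf.1 hw).1, ?_⟩
    have hw2 := (Subgroup.mem_inf.1 hw).2
    rw [Subgroup.mem_centralizer_iff] at hw2 ⊢
    intro y hy
    have h1 := hw2 (b⁻¹ * y * b) (conj_mem' (hBM hb) hy)
    calc y * (b * w * b⁻¹) = b * ((b⁻¹ * y * b) * w) * b⁻¹ := by group
      _ = b * (w * (b⁻¹ * y * b)) * b⁻¹ := by rw [h1]
      _ = b * w * b⁻¹ * y := by group
  have hWV := h.Vm W inf_le_left hW1 hBW
  apply hm1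
  apply h.faithV T1' T3' T5' hM hBM hMs m hm
  intro w hw
  rw [← hWV] at hw
  have hw2 := (Subgroup.mem_inf.1 hw).2
  rw [Subgroup.mem_centralizer_iff] at hw2
  exact hw2 m hm

theorem invert {V : Subgroup G} (hV : ∀ a ∈ V, ∀ b ∈ V, Commute a b) {x : G} (hx : x * x = 1)
    (hn : x ∈ normalizer (V : Set G)) (hf : Fpf x V) : ∀ v ∈ V, x * v * x⁻¹ = v⁻¹ := by
  intro v hv
  have hxi : x⁻¹ = x := inv_eq_of_mul_eq_one_right hx
  have h1 : x * v * x⁻¹ ∈ V := conj_mem hn hv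
  have h2 : v * (x * v * x⁻¹) = 1 := by
    apply hf _ (V.mul_mem hv h1)
    have h3 := (hV v hv _ h1).eq
    have h4 : x * (v * (x * v * x⁻¹)) = x * v * x⁻¹ * (x * (x * v * x⁻¹)) := by group
    have h5 : x * (x * v * x⁻¹) = v * x := by
      rw [hxi, ← mul_assoc, ← mul_assoc, hx, one_mul]
    show x * (v * (x * v * x⁻¹)) = v * (x * v * x⁻¹) * x
    rw [h4, h5, ← mul_assoc, ← h3]
  exact (eq_inv_of_mul_eq_one_right h2)

/-- (c3), one of the two cases -/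
theorem Cx.c3a [Finite G] (h : Cx p q r s B V N) (T1' : T1 G) (T3' : T3 G) (hs2 : s = 2) {m e : G} (hm : m ∈ B)
    (hm1 : m ≠ 1) (hmm : m * m = 1) (hmc : ∀ b ∈ B, Commute m b) (hmV : Fpf m V) (hmN : Fpf m N) (he : e ∈ B)
    (he1 : e ≠ 1) (hee : e * e = 1) (hem : e ≠ m) (heV : Fpf e V) : False := by
  have cV := ea_comm h.eV
  have cN := ea_comm h.eN
  have imV := invert cV hmm (h.bV hm) hmV
  have imN := invert cN hmm (h.bN hm) hmN
  have ieV := invert cV hee (h.bV he) heV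
  set f : G := e * m with hf
  have hce : Commute m e := hmc e he
  have hff : f * f = 1 := by
    rw [hf]
    calc e * m * (e * m) = e * (m * e) * m := by group
      _ = e * (e * m) * m := by rw [hce.eq]
      _ = (e * e) * (m * m) := by group
      _ = 1 := by rw [hee, hmm, one_mul]
  have hf1 : f ≠ 1 := by
    intro hc
    apply hem
    have h1 : m⁻¹ = m := inv_eq_of_mul_eq_one_right hmm
    rw [← h1]
    exact eq_inv_of_mul_eq_one_left hc
  have hfB : f ∈ B := B.mul_mem he hm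
  have hfV : ∀ v ∈ V, Commute f v := by
    intro v hv
    have h1 : f * v * f⁻¹ = v := by
      calc f * v * f⁻¹ = e * (m * v * m⁻¹) * e⁻¹ := by rw [hf]; group
        _ = e * v⁻¹ * e⁻¹ := by rw [imV v hv]
        _ = (e * v * e⁻¹)⁻¹ := by group
        _ = v := by rw [ieV v hv, inv_inv]
    exact mul_inv_eq_iff_eq_mul.1 h1
  have hfo : orderOf f = 2 := orderOf_eq_prime (by rw [pow_two]; exact hff) hf1
  have hfN : Fpf f N := by
    rcases h.t1 f hfB (by rw [hfo]; exact Nat.prime_two) with h1 | h1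
    · obtain ⟨v, hv, hv1⟩ := exists_ne h.V1
      exact absurd (h1 v hv (hfV v hv)) hv1
    · exact h1
  have ifN := invert cN hff (h.bN hfB) hfN
  have heN : ∀ n ∈ N, Commute e n := by
    intro n hn
    have h2 : e = f * m := by rw [hf, mul_assoc, hmm, mul_one]
    have h1 : e * n * e⁻¹ = n := by
      calc e * n * e⁻¹ = f * (m * n * m⁻¹) * f⁻¹ := by rw [h2]; group
        _ = f * n⁻¹ * f⁻¹ := by rw [imN n hn]
        _ = (f * n * f⁻¹)⁻¹ := by group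
        _ = n := by rw [ifN n hn, inv_inv]
    exact mul_inv_eq_iff_eq_mul.1 h1
  have hec : ∀ b ∈ B, b * e * b⁻¹ = e := by
    intro b hb
    have h1 : b * e * b⁻¹ * e⁻¹ = 1 := by
      apply h.faith (B.mul_mem (B.mul_mem (B.mul_mem hb he) (inv_mem hb)) (inv_mem he))
      · intro v hv
        have h2 : (b * e * b⁻¹ * e⁻¹) * v * (b * e * b⁻¹ * e⁻¹)⁻¹ = v := by
          have e1 : e⁻¹ * v * e = v⁻¹ := by
            have := ieV v hv
            have hei : e⁻¹ = e := inv_eq_of_mul_eq_one_right hee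
            rw [hei] at this ⊢
            exact this
          have e2 := ieV (b⁻¹ * v⁻¹ * b) (conj_mem' (h.bV hb) (inv_mem hv))
          calc (b * e * b⁻¹ * e⁻¹) * v * (b * e * b⁻¹ * e⁻¹)⁻¹
              = b * (e * (b⁻¹ * (e⁻¹ * v * e) * b) * e⁻¹) * b⁻¹ := by group
            _ = b * (b⁻¹ * v⁻¹ * b)⁻¹ * b⁻¹ := by rw [e1, e2]
            _ = v := by group
        exact mul_inv_eq_iff_eq_mul.1 h2
      · intro n hn
        have e1 : e⁻¹ * n * e = n := by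
          rw [mul_assoc, ← (heN n hn).eq, inv_mul_cancel_left]
        have e2 : e * (b⁻¹ * n * b) * e⁻¹ = b⁻¹ * n * b := by
          rw [(heN _ (conj_mem' (h.bN hb) hn)).eq, mul_inv_cancel_right]
        have h2 : (b * e * b⁻¹ * e⁻¹) * n * (b * e * b⁻¹ * e⁻¹)⁻¹ = n := by
          calc (b * e * b⁻¹ * e⁻¹) * n * (b * e * b⁻¹ * e⁻¹)⁻¹
              = b * (e * (b⁻¹ * (e⁻¹ * n * e) * b) * e⁻¹) * b⁻¹ := by group
            _ = b * (b⁻¹ * n * b) * b⁻¹ := by rw [e1, e2]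
            _ = n := by group
        exact mul_inv_eq_iff_eq_mul.1 h2
    exact mul_inv_eq_one.1 h1
  have hze : ∀ x ∈ zpowers e, x = 1 ∨ x = e := by
    intro x hx
    obtain ⟨j, rfl⟩ := Subgroup.mem_zpowers_iff.1 hx
    have e2 : e ^ (2 : ℤ) = 1 := by rw [zpow_two, hee]
    rcases Int.even_or_odd' j with ⟨c, hc | hc⟩
    · left; rw [hc, zpow_mul, e2, one_zpow]
    · right; rw [hc, zpow_add, zpow_mul, e2, one_zpow, one_mul, zpow_one]
  refine h.swapVN.c1 T1' T3' (A := zpowers e) ((Subgroup.zpowers_le).2 he) ?_ ?_ ?_ ?_ ?_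
  · apply le_norm_of
    intro b hb w hw
    rcases hze w hw with h1 | h1
    · rw [h1, mul_one, mul_inv_cancel]; exact one_mem _
    · rw [h1, hec b hb]; exact mem_zpowers e
  · rw [hs2]
    intro x
    refine ⟨1, ?_⟩
    apply Subtype.ext
    rcases hze x x.2 with h1 | h1
    · simp [h1]
    · rw [pow_one]
      show (x : G) ^ 2 = 1
      rw [h1, pow_two, hee]
  · intro a ha b hb
    rcases hze a ha with h1 | h1
    · rw [h1]; exact Commute.one_left b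
    · rcases hze b hb with h2 | h2
      · rw [h2]; exact Commute.one_right a
      · rw [h1, h2]
  · intro hc
    apply he1
    rw [← Subgroup.mem_bot, ← hc]
    exact mem_zpowers e
  · intro a ha n hn
    rcases hze a ha with h1 | h1
    · rw [h1]; exact Commute.one_left n
    · rw [h1]; exact heN n hn

theorem Cx.ne_two [Finite G] (h : Cx p q r s B V N) (T1' : T1 G) (T3' : T3 G) (T4' : T4 G) (T5' : T5 G)
    {A : Subgroup G} (hA : A ≤ B) (hBA : B ≤ normalizer (A : Set G)) (hAs : IsPGroup s A) (hA1 : A ≠ ⊥) : s ≠ 2 := by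
  intro hs2
  obtain ⟨M, hMA, hM1, hBM, ⟨t, ht, hMt⟩, _⟩ := T5' B A h.solv hA hBA hA1
  obtain ⟨m, hm, hm1⟩ := exists_ne hM1
  have hMs := hAs.to_le hMA
  have hMB := hMA.trans hA
  obtain ⟨hz, hmV⟩ := h.c2 T1' T3' T4' T5' hMB hBM hMs ht hMt hm hm1
  have hmN := (h.swapVN.c2 T1' T3' T4' T5' hMB hBM hMs ht hMt hm hm1).2
  have hmo : orderOf m = 2 := by rw [order_ea h.hs ht hMs hMt hm hm1, hs2]
  have hmm : m * m = 1 := by
    have := pow_orderOf_eq_one m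
    rwa [hmo, pow_two] at this
  have hmc : ∀ b ∈ B, Commute m b := by
    intro b hb
    have h1 : b * m * b⁻¹ ∈ zpowers m := hz _ (conj_mem (hBM hb) hm)
    obtain ⟨j, hj⟩ := Subgroup.mem_zpowers_iff.1 h1
    have e2 : m ^ (2 : ℤ) = 1 := by rw [zpow_two, hmm]
    have h2 : b * m * b⁻¹ = m := by
      rcases Int.even_or_odd' j with ⟨c, hc | hc⟩
      · exfalso
        rw [hc, zpow_mul, e2, one_zpow] at hj
        apply hm1
        have := conj_eq_one_iff.1 hj.symm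
        exact this
      · rw [← hj, hc, zpow_add, zpow_mul, e2, one_zpow, one_mul, zpow_one]
    exact (mul_inv_eq_iff_eq_mul.1 h2).symm
  have key : ∀ e ∈ B, orderOf e = 2 → e = m := by
    intro e he heo
    by_contra hem
    have he1 : e ≠ 1 := by
      intro hc
      rw [hc, orderOf_one] at heo
      omega
    have hee : e * e = 1 := by
      have := pow_orderOf_eq_one e
      rwa [heo, pow_two] at this
    rcases h.t1 e he (by rw [heo]; exact Nat.prime_two) with h1 | h1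
    · exact h.c3a T1' T3' hs2 (hMB hm) hm1 hmm hmc hmV hmN he he1 hee hem h1
    · exact h.swapVN.c3a T1' T3' hs2 (hMB hm) hm1 hmm hmc hmN hmV he he1 hee hem h1
  obtain ⟨x, hx, y, hy, hxo, hyo, _, hyx⟩ := h.s2
  rw [hs2] at hxo hyo
  apply hyx
  rw [key x hx hxo, key y hy hyo]
  exact mem_zpowers m

/-- (c4) -/
theorem Cx.c4 [Finite G] (h : Cx p q r s B V N) (T1' : T1 G) (T3' : T3 G) (T4' : T4 G) (T5' : T5 G)
    {A : Subgroup G} (hA : A ≤ B) (hBA : B ≤ normalizer (A : Set G)) (hAs : IsPGroup s A) :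
    IsCyclic A ∧ ∀ z ∈ B, orderOf z = r → ∀ y ∈ A, Commute z y := by
  by_cases hA1 : A = ⊥
  · subst hA1
    refine ⟨inferInstance, ?_⟩
    intro z _ _ y hy
    rw [Subgroup.mem_bot] at hy
    rw [hy]; exact Commute.one_right z
  · have hs2 := h.ne_two T1' T3' T4' T5' hA hBA hAs hA1
    have hex : s = 2 → ∀ a ∈ A, ∀ b ∈ A, Commute a b := fun hc => absurd hc hs2
    exact ⟨(T4' h.hs A hAs (h.notR2 T1' T3' T5' hA hBA hAs hex)).2 hs2,
      fun z hz hzo => h.cent T1' T3' T5' hA hBA hAs hex hz hzo⟩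

theorem main [Finite G] (h : Cx p q r s B V N) (hc : ∀ t : ℕ, t.Prime → t ∣ Nat.card B → t = r ∨ t = s)
    (T1' : T1 G) (T3' : T3 G) (T4' : T4 G) (T5' : T5 G) (T8' : T8 G) : False := by
  have key : ∀ x ∈ B, orderOf x = r → ∃ P ≤ B, B ≤ normalizer (P : Set G) ∧ IsPGroup r P ∧ x ∈ P := by
    intro x hx hxo
    have h8 := T8' B h.solv x hx (by rw [hxo]; exact h.hr)
    rw [hxo] at h8
    apply h8
    · intro t ht htr P hP hBP hPt w hw
      by_cases hts : t = s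
      · subst hts
        exact (h.c4 T1' T3' T4' T5' hP hBP hPt).2 x hx hxo w hw
      · have hw1 : w = 1 := by
          by_contra hw1
          obtain ⟨k, hk⟩ := exists_order ht hPt hw hw1
          have h1 : t ∣ Nat.card B := by
            rw [← hk]
            exact Subgroup.orderOf_dvd_natCard B (B.pow_mem (hP hw) k)
          rcases hc t ht h1 with h2 | h2
          · exact htr h2
          · exact hts h2
        rw [hw1]; exact Commute.one_right x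
    · intro P hP hBP hPr
      exact (h.swaprs.c4 T1' T3' T4' T5' hP hBP hPr).1
  obtain ⟨x, hx, y, hy, hxo, hyo, hxy, hyx⟩ := h.r2
  obtain ⟨P, hP, hBP, hPr, hxP⟩ := key x hx hxo
  obtain ⟨Q, hQ, hBQ, hQr, hyQ⟩ := key y hy hyo
  haveI : Fact r.Prime := ⟨h.hr⟩
  have hJB : P ⊔ Q ≤ B := sup_le hP hQ
  have hJn : B ≤ normalizer ((P ⊔ Q : Subgroup G) : Set G) := by
    apply le_norm_of
    intro b hb w hw
    have h1 : (P ⊔ Q).map (MulAut.conj b).toMonoidHom = P ⊔ Q := by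
      rw [Subgroup.map_sup]
      have e1 : P.map (MulAut.conj b).toMonoidHom = P := by
        apply le_antisymm
        · rintro _ ⟨z, hz, rfl⟩
          exact conj_mem (hBP hb) hz
        · intro z hz
          exact ⟨b⁻¹ * z * b, conj_mem' (hBP hb) hz, by
            show b * (b⁻¹ * z * b) * b⁻¹ = z
            group⟩
      have e2 : Q.map (MulAut.conj b).toMonoidHom = Q := by
        apply le_antisymm
        · rintro _ ⟨z, hz, rfl⟩
          exact conj_mem (hBQ hb) hz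
        · intro z hz
          exact ⟨b⁻¹ * z * b, conj_mem' (hBQ hb) hz, by
            show b * (b⁻¹ * z * b) * b⁻¹ = z
            group⟩
      rw [e1, e2]
    rw [← h1]
    exact ⟨w, hw, rfl⟩
  have hJp : IsPGroup r (P ⊔ Q : Subgroup G) :=
    IsPGroup.to_sup_of_normal_right' hPr hQr (hP.trans hBQ)
  apply hyx
  have hxJ : x ∈ P ⊔ Q := (le_sup_left : P ≤ P ⊔ Q) hxP
  have hyJ : y ∈ P ⊔ Q := (le_sup_right : Q ≤ P ⊔ Q) hyQ
  have hJ1 : P ⊔ Q ≠ ⊥ := by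
    intro hcc
    rw [hcc, Subgroup.mem_bot] at hxJ
    rw [hxJ, orderOf_one] at hxo
    exact h.hr.ne_one hxo.symm
  have hr2 := h.swaprs.ne_two T1' T3' T4' T5' hJB hJn hJp hJ1
  have hnr := h.swaprs.notR2 T1' T3' T5' hJB hJn hJp (fun hcc => absurd hcc hr2)
  exact (T4' h.hr _ hJp hnr).1 x hxJ y hyJ hxo hyo

/-- piece PX relative to the tools -/
theorem px_of [Finite G] (T1' : T1 G) (T3' : T3 G) (T4' : T4 G) (T5' : T5 G) (T8' : T8 G)
    (hp : p.Prime) (hq : q.Prime) (hr : r.Prime) (hs : s.Prime) (hrs : r ≠ s) (hpr : p ≠ r) (hps : p ≠ s)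
    (hqr : q ≠ r) (hqs : q ≠ s) (B V N : Subgroup G) (hB : Group.IsSolvable B)
    (hc : ∀ t : ℕ, t.Prime → t ∣ Nat.card B → t = r ∨ t = s) (hV : Cfsg.IsElementaryAbelian p V)
    (hN : Cfsg.IsElementaryAbelian q N) (hBV : B ≤ normalizer (V : Set G)) (hBN : B ≤ normalizer (N : Set G))
    (hV1 : V ≠ ⊥) (hN1 : N ≠ ⊥) (hVm : ∀ W ≤ V, W ≠ ⊥ → B ≤ normalizer (W : Set G) → W = V)
    (hNm : ∀ W ≤ N, W ≠ ⊥ → B ≤ normalizer (W : Set G) → W = N)
    (t1 : ∀ x ∈ B, (orderOf x).Prime → Fpf x V ∨ Fpf x N)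
    (t2 : ∀ x ∈ B, ∀ y ∈ B, orderOf x = r → orderOf y = s → Commute x y →
      (∀ v ∈ V, Commute x v → Commute y v → v = 1) ∧ (∀ v ∈ N, Commute x v → Commute y v → v = 1))
    (hr2 : R2 r B) (hs2 : R2 s B) : False :=
  main ⟨hp, hq, hr, hs, hrs, hpr, hps, hqr, hqs, hB, hV, hN, hBV, hBN, hV1, hN1, hVm, hNm, t1, t2, hr2, hs2⟩ hc
    T1' T3' T4' T5' T8'

end H36.PX
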